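import Cfsg.Agent.Chev.FldFix

/-!
# The centralizer of the root element of the highest root
-/

set_option autoImplicit false
set_option linter.unusedSectionVars false
set_option linter.unusedVariables false

namespace Cfsg.Agent.Chev
open Cfsg.Lie
open scoped MatrixGroups

/-- table facts about the highest root -/
structure HiOK (D : ChevalleyDatum) (J : List ℕ) (j0 β : ℕ) : Prop where
  comm_pos : ∀ s < D.nroots - 1, D.nroots / 2 ≤ s → D.commTerms (D.nroots - 1) s = []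
  J_lt : ∀ i ∈ J, i < D.rank
  comm_neg : ∀ i ∈ J, D.commTerms (D.nroots - 1) (D.neg (D.simple i)) = [] ∧
    D.neg (D.simple i) ≠ D.neg (D.nroots - 1) ∧ D.simple i ≠ D.nroots - 1
  cover : ∀ i < D.rank, i ∈ J ∨ i = j0
  j0_lt : j0 < D.rank
  β_lt : β < D.nroots
  sum : ∃ c ∈ D.commTerms β (D.simple j0), c.1 = D.nroots - 1 ∧ c.2.2.1 = 1 ∧ c.2.2.2 = 1
  refl : ∀ i ∈ J, D.reflectRoot i (D.nroots - 1) = D.nroots - 1
  cart0 : ∀ i ∈ J, D.cartan i (D.nroots - 1) = 0
  cart1 : D.cartan j0 (D.nroots - 1) = 1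

variable {D : ChevalleyDatum} {G : Good D} {K : Type*} [Field K]

namespace Rels
variable (R : Rels D G K)
include R

theorem prodFrom_eq_one {t : ℕ → K} (m : ℕ) : ∀ k, (∀ r, k ≤ r → t r = 0) → R.prodFrom t k m = 1 := by
  induction m with
  | zero => intro k _; rfl
  | succ m ih =>
    intro k h
    rw [prodFrom_succ, h k le_rfl, R.xg_zero, one_mul]
    exact ih (k + 1) (fun r hr => h r (by omega))

theorem prodFrom_single (s : ℕ) (c : K) (m : ℕ) : ∀ k, k ≤ s → s < k + m →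
    R.prodFrom (fun r => if r = s then c else 0) k m = R.xg s c := by
  induction m with
  | zero => intro k h1 h2; omega
  | succ m ih =>
    intro k h1 h2
    rw [prodFrom_succ]
    by_cases h : k = s
    · subst h
      rw [if_pos rfl, R.prodFrom_eq_one m (k + 1) (fun r hr => if_neg (by omega)), mul_one]
    · rw [if_neg h, R.xg_zero, one_mul]
      exact ih (k + 1) (by omega) (by omega)

theorem xg_root_inj (G2 : Good2 D) {r s : ℕ} (hr : r < D.nroots) (hs : s < D.nroots) (hsp : D.nroots / 2 ≤ s)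
    {a b : K} (hb : b ≠ 0) (h : R.xg r a = R.xg s b) : r = s := by
  have hev := G.even
  by_cases hrp : D.nroots / 2 ≤ r
  · rw [← R.prodFrom_single r a (D.nroots / 2) (D.nroots / 2) hrp (by omega),
      ← R.prodFrom_single s b (D.nroots / 2) (D.nroots / 2) hsp (by omega)] at h
    have h1 := R.prodFrom_inj G2 (D.nroots / 2) (D.nroots / 2) le_rfl (by omega) _ _ h s hsp hs
    simp only [if_true] at h1
    by_contra hne
    rw [if_neg (fun e => hne e.symm)] at h1
    exact hb h1.symm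
  · exfalso
    have h1 : R.xg s b ∈ D.borelSubgroup K ⊓ D.negUnipotent K := by
      refine ⟨R.U_le_B ?_, ?_⟩
      · rw [← UU_pos]; exact R.xg_mem_UU ((G.isPosRoot_iff s).mpr ⟨hsp, hs⟩) _
      · rw [← h, ← UU_neg]; exact R.xg_mem_UU ((G.isNegRoot_iff r).mpr (by omega)) _
    rw [R.B_inf_V, Subgroup.mem_bot, R.xg_eq_one_iff hs] at h1
    exact hb h1

section hi
variable {J : List ℕ} {j0 β : ℕ} (T : HiOK D J j0 β)
include T

theorem hi_lt : D.nroots - 1 < D.nroots := by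
  have := G.half_pos
  omega

theorem hi_pos : D.nroots / 2 ≤ D.nroots - 1 := by
  have := G.half_pos
  have := G.even
  omega

theorem hi_comm_pos {s : ℕ} (hs : s < D.nroots) (hp : D.nroots / 2 ≤ s) (u a : K) :
    Commute (R.xg s u) (R.xg (D.nroots - 1) a) := by
  by_cases h : s = D.nroots - 1
  · subst h
    show _ * _ = _ * _
    rw [R.xg_add, R.xg_add, add_comm]
  · have hn := G.neg_lt_half (R.hi_lt T) (R.hi_pos T)
    exact (R.xg_comm_of_terms (R.hi_lt T) hs h (by omega) (T.comm_pos s (by omega) hp) a u).symm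

theorem hi_comm_U {u : GL D.Idx K} (hu : u ∈ D.posUnipotent K) (a : K) :
    Commute u (R.xg (D.nroots - 1) a) := by
  have : D.posUnipotent K ≤ Subgroup.centralizer {R.xg (D.nroots - 1) a} := by
    rw [← UU_pos]
    apply R.UU_le
    intro s hs u
    rw [Subgroup.mem_centralizer_singleton_iff]
    obtain ⟨h1, h2⟩ := (G.isPosRoot_iff s).mp hs
    exact (R.hi_comm_pos T h2 h1 u a)
  exact Subgroup.mem_centralizer_singleton_iff.mp (this hu)

theorem hi_comm_neg {i : ℕ} (hi : i ∈ J) (u a : K) :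
    Commute (R.xg (D.neg (D.simple i)) u) (R.xg (D.nroots - 1) a) := by
  obtain ⟨h1, h2, h3⟩ := T.comm_neg i hi
  have hl := G.simple_lt i (T.J_lt i hi)
  have hn := G.neg_lt_half hl (G.simple_pos (T.J_lt i hi))
  have hp := R.hi_pos T
  exact (R.xg_comm_of_terms (R.hi_lt T) (G.neg_lt hl) (by omega) h2 h1 a u).symm

theorem hi_comm_ng {i : ℕ} (hi : i ∈ J) (u a : K) :
    Commute (R.ng (D.simple i) u) (R.xg (D.nroots - 1) a) := by
  rw [R.ng_eq]
  have hl := G.simple_lt i (T.J_lt i hi)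
  have h1 := R.hi_comm_pos T hl (G.simple_pos (T.J_lt i hi)) u a
  exact (h1.mul_left (R.hi_comm_neg T hi _ a)).mul_left h1

theorem hi_ng_mem {M : Subgroup (GL D.Idx K)} (hU : D.posUnipotent K ≤ M)
    (hM : ∀ i ∈ J, ∀ c, R.xg (D.neg (D.simple i)) c ∈ M) {i : ℕ} (hi : i ∈ J) (u : K) :
    R.ng (D.simple i) u ∈ M := by
  rw [R.ng_eq]
  have hl := G.simple_lt i (T.J_lt i hi)
  have h1 : R.xg (D.simple i) u ∈ M := hU (by
    rw [← UU_pos]; exact R.xg_mem_UU ((G.isPosRoot_iff _).mpr ⟨G.simple_pos (T.J_lt i hi), hl⟩) _)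
  exact Subgroup.mul_mem _ (Subgroup.mul_mem _ h1 (hM i hi _)) h1

/-- the stabilizer of the highest root in the Weyl group -/
theorem hi_stab (G2 : Good2 D) {M : Subgroup (GL D.Idx K)} (hU : D.posUnipotent K ≤ M)
    (hM : ∀ i ∈ J, ∀ c, R.xg (D.neg (D.simple i)) c ∈ M) (k : ℕ) :
    ∀ w ∈ G.W, G.nn w = k → ((w ⟨D.nroots - 1, R.hi_lt T⟩ : Fin D.nroots) : ℕ) = D.nroots - 1 →
    ∃ n ∈ D.monomialSubgroup K, n ∈ M ∧ (∀ a, Commute n (R.xg (D.nroots - 1) a)) ∧ R.IsMono n w := by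
  induction k with
  | zero =>
    intro w hw hk _
    rw [R.W_eq_one G2 hw hk]
    exact ⟨1, Subgroup.one_mem _, Subgroup.one_mem _, fun a => Commute.one_left _, IsMono.of_tor R (IsTor.one R)⟩
  | succ k ih =>
    intro w hw hk hρ
    obtain ⟨i, hi, hneg⟩ := G.exists_simple_neg hw (by omega)
    have hiJ : i ∈ J := by
      rcases T.cover i hi with h | h
      · exact h
      · exfalso
        subst h
        obtain ⟨lam', hl⟩ := G.W_lin hw (wgt D.rank)
        obtain ⟨c, hc, c1, c2, c3⟩ := T.sum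
        obtain ⟨_, _, _, e⟩ := commTerms_add G (G.lin_addFn lam') T.β_lt (G.simple_lt i hi) c hc
        rw [c1, c2, c3] at e
        have e1 : G.ht (D.nroots - 1) = G.lin lam' (D.nroots - 1) := by
          have := hl ⟨D.nroots - 1, R.hi_lt T⟩
          rw [hρ] at this
          exact this
        have e2 : G.ht (w ⟨β, T.β_lt⟩) = G.lin lam' β := hl ⟨β, T.β_lt⟩
        have e3 : G.ht (w (G.sF i hi)) = G.lin lam' (D.simple i) := hl (G.sF i hi)
        have e4 : G.ht (w (G.sF i hi)) < 0 := (G.ht_neg_iff (w _).2).mpr hneg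
        have e5 : G.ht (w ⟨β, T.β_lt⟩) ≤ G.ht (D.nroots - 1) := by
          by_contra hlt
          have := (G.ht_lt_iff (R.hi_lt T) (w ⟨β, T.β_lt⟩).2).mp (not_le.mp hlt)
          have := (w ⟨β, T.β_lt⟩).2
          omega
        rw [← e1, ← e2, ← e3] at e
        push_cast at e
        linarith
    have h1 := G.nn_mul_refl hw i hi
    rw [if_pos hneg, if_neg (by omega)] at h1
    have hρ' : (((w * G.wP i hi) ⟨D.nroots - 1, R.hi_lt T⟩ : Fin D.nroots) : ℕ) = D.nroots - 1 := by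
      rw [Equiv.Perm.mul_apply]
      have : G.wP i hi ⟨D.nroots - 1, R.hi_lt T⟩ = ⟨D.nroots - 1, R.hi_lt T⟩ := by
        apply Fin.ext
        rw [G.wP_apply]
        exact T.refl i hiJ
      rw [this, hρ]
    obtain ⟨n, hn, hnM, hnc, hm⟩ := ih (w * G.wP i hi) (Subgroup.mul_mem _ hw (G.wP_mem i hi)) (by omega) hρ'
    refine ⟨n * R.ng (D.simple i) 1, Subgroup.mul_mem _ hn (R.ng_mem_N (G.simple_lt i hi)),
      Subgroup.mul_mem _ hnM (R.hi_ng_mem T hU hM hiJ 1), fun a => (hnc a).mul_left (R.hi_comm_ng T hiJ 1 a), ?_⟩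
    have := IsMono.mul R hm (IsMono.ni R hi)
    have e : w * G.wP i hi * G.wP i hi = w := by
      rw [mul_assoc]
      nth_rewrite 1 [← G.wP_inv i hi]
      rw [inv_mul_cancel, mul_one]
    rwa [e] at this

theorem hi_H_le {M : Subgroup (GL D.Idx K)} (hU : D.posUnipotent K ≤ M)
    (hM : ∀ i ∈ J, ∀ c, R.xg (D.neg (D.simple i)) c ∈ M) {h : GL D.Idx K} (hh : h ∈ D.diagonalSubgroup K)
    (hc : Commute h (R.xg (D.nroots - 1) 1)) : h ∈ M := by
  obtain ⟨χ, c1, c2, c3⟩ := R.H_le_Tor hh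
  rw [← R.range_tor] at hh
  obtain ⟨c, rfl⟩ := hh
  have hχ : ∀ a, (χ a : K) = (kap D K c a : Kˣ) := by
    intro a
    have : Matrix.diagonal (fun a => (χ a : K)) = Matrix.diagonal (fun a => ((kap D K c a : Kˣ) : K)) := by
      rw [← c2]; rfl
    exact congrFun (Matrix.diagonal_injective this) a
  have e1 := c3 ⟨D.nroots - 1, R.hi_lt T⟩ 1
  have e2 : R.xg (D.nroots - 1) 1 = R.xg (D.nroots - 1) (χ (Sum.inr ⟨D.nroots - 1, R.hi_lt T⟩) * 1) := by
    apply mul_right_cancel (b := ((diagG D.Idx K).comp (kap D K)) c)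
    rw [← e1]
    exact hc.eq.symm
  have e3 : R.xg (D.nroots - 1) (1 - χ (Sum.inr ⟨D.nroots - 1, R.hi_lt T⟩) * 1) = 1 := by
    rw [sub_eq_add_neg, ← R.xg_add, ← R.xg_inv, ← e2, mul_inv_cancel]
  rw [R.xg_eq_one_iff (R.hi_lt T), mul_one, hχ] at e3
  have e4 : (kap D K c (Sum.inr ⟨D.nroots - 1, R.hi_lt T⟩) : Kˣ) = c ⟨j0, T.j0_lt⟩ := by
    show ∏ i : Fin D.rank, c i ^ D.cartan i (D.nroots - 1) = _
    rw [Finset.prod_eq_single ⟨j0, T.j0_lt⟩]
    · show c ⟨j0, T.j0_lt⟩ ^ D.cartan j0 (D.nroots - 1) = _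
      rw [T.cart1, zpow_one]
    · intro i _ hi
      rcases T.cover i i.2 with h | h
      · rw [T.cart0 i h, zpow_zero]
      · exact absurd (Fin.ext h) hi
    · intro h; exact absurd (Finset.mem_univ _) h
  rw [e4] at e3
  have e5 : c ⟨j0, T.j0_lt⟩ = 1 := Units.ext (sub_eq_zero.mp e3).symm
  have h3 : c ∈ M.comap (tau D K) := by
    rw [← Finset.univ_prod_mulSingle c]
    apply Subgroup.prod_mem
    intro i _
    rcases T.cover i i.2 with h | h
    · rw [Subgroup.mem_comap, R.ftau_single, R.hg_eq]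
      exact Subgroup.mul_mem _ (R.hi_ng_mem T hU hM h _) (R.hi_ng_mem T hU hM h _)
    · have : i = ⟨j0, T.j0_lt⟩ := Fin.ext h
      rw [this, e5, Pi.mulSingle_one]
      exact Subgroup.one_mem _
  exact h3

/-- the centralizer of the highest root element -/
theorem hi_cent_le (G2 : Good2 D) {M : Subgroup (GL D.Idx K)} (hU : D.posUnipotent K ≤ M)
    (hM : ∀ i ∈ J, ∀ c, R.xg (D.neg (D.simple i)) c ∈ M) {g : GL D.Idx K} (hg : g ∈ D.group K)
    (hc : Commute g (R.xg (D.nroots - 1) 1)) : g ∈ M := by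
  obtain ⟨b, hb, n, hn, w, hw, hm, u, hu, e⟩ := R.normal_form_exists G2 hg
  have huU : u ∈ D.posUnipotent K := by
    rw [← UU_pos]
    exact UU_mono (fun s hs => (G.isPosRoot_iff s).mpr ⟨hs.2.1, hs.1⟩) hu
  obtain ⟨u1, hu1, h, hh, rfl⟩ := exists_mul_of_mem_sup R.H_le_normalizer_U hb
  have e7 : h * n = u1⁻¹ * g * u⁻¹ := by rw [e]; group
  have hc' : Commute (h * n) (R.xg (D.nroots - 1) 1) := by
    rw [e7]
    exact ((R.hi_comm_U T hu1 1).inv_left.mul_left hc).mul_left (R.hi_comm_U T huU 1).inv_left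
  have hm' : R.IsMono (h * n) w := by
    have := IsMono.mul R (IsMono.of_tor R (R.H_le_Tor hh)) hm
    rwa [one_mul] at this
  obtain ⟨c, hc0, ec⟩ := hm'.conj ⟨D.nroots - 1, R.hi_lt T⟩
  have e1 := ec 1
  have e2 : h * n * R.xg (D.nroots - 1) 1 * (h * n)⁻¹ = R.xg (D.nroots - 1) 1 := by
    rw [hc'.eq, mul_inv_cancel_right]
  have e3 : R.xg ((w ⟨D.nroots - 1, R.hi_lt T⟩ : Fin D.nroots) : ℕ) (c * 1) = R.xg (D.nroots - 1) 1 := by
    rw [← e1]; exact e2
  have hρ := R.xg_root_inj G2 (w ⟨D.nroots - 1, R.hi_lt T⟩).2 (R.hi_lt T) (R.hi_pos T) one_ne_zero e3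
  obtain ⟨nJ, hnJ, hnJM, hnJc, hmJ⟩ := R.hi_stab T G2 hU hM _ w hw rfl hρ
  have h1 : h * n * nJ⁻¹ ∈ D.diagonalSubgroup K := by
    apply R.mono_one_mem_H G2 (Subgroup.mul_mem _ (Subgroup.mul_mem _ (R.H_le_N hh) hn) (Subgroup.inv_mem _ hnJ))
    have := IsMono.mul R hm' (IsMono.inv R hmJ)
    rwa [mul_inv_cancel] at this
  have h2 : h * n * nJ⁻¹ ∈ M := R.hi_H_le T hU hM h1 (hc'.mul_left (hnJc 1).inv_left)
  have h3 : h * n ∈ M := by
    have := Subgroup.mul_mem _ h2 hnJM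
    rwa [inv_mul_cancel_right] at this
  rw [e]
  have e8 : u1 * h * n * u = u1 * (h * n) * u := by group
  rw [e8]
  exact Subgroup.mul_mem _ (Subgroup.mul_mem _ (hU hu1) h3) (hU huU)

end hi

end Rels

end Cfsg.Agent.Chev

namespace Cfsg.Agent.Chev
open Cfsg.Lie
open scoped MatrixGroups

theorem Rels.hi_cent_eq {D : ChevalleyDatum} {G : Good D} {K : Type*} [Field K] (R : Rels D G K) (G2 : Good2 D)
    {J : List ℕ} {j0 β : ℕ} (T : HiOK D J j0 β) (L : List ℕ) (hL : L = J.map fun i => D.neg (D.simple i))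
    (t : GL D.Idx K) (ht : (t : Matrix D.Idx D.Idx K) = D.x K (D.nroots - 1) 1) :
    D.group K ⊓ Subgroup.centralizer {t} = D.posUnipotent K ⊔
      Subgroup.closure {g : GL D.Idx K | ∃ s ∈ L, ∃ c : K, (g : Matrix D.Idx D.Idx K) = D.x K s c} := by
  have ht' : t = R.xg (D.nroots - 1) 1 := (R.eq_xg_iff _ _ _).mp ht
  subst ht'
  subst hL
  apply le_antisymm
  · rintro g ⟨hg, hc⟩
    refine R.hi_cent_le T G2 le_sup_left (fun i hi c => Subgroup.mem_sup_right (Subgroup.subset_closure ?_)) hg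
      (Subgroup.mem_centralizer_singleton_iff.mp hc)
    exact ⟨D.neg (D.simple i), List.mem_map.mpr ⟨i, hi, rfl⟩, c, (R.eq_xg_iff _ _ _).mpr rfl⟩
  · apply sup_le
    · intro u hu
      exact ⟨R.U_le_group hu, Subgroup.mem_centralizer_singleton_iff.mpr (R.hi_comm_U T hu 1)⟩
    · rw [Subgroup.closure_le]
      rintro g ⟨s, hs, c, hg⟩
      rw [(R.eq_xg_iff _ _ _).mp hg]
      obtain ⟨i, hi, rfl⟩ := List.mem_map.mp hs
      exact ⟨R.xg_mem_group _ _, Subgroup.mem_centralizer_singleton_iff.mpr (R.hi_comm_neg T hi c 1)⟩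

end Cfsg.Agent.Chev
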