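import Cfsg.Agent.Chev.Cent
import Cfsg.Agent.Chev.All2

/-!
# The centralizer of the root element of the highest root: tables
-/

set_option autoImplicit false
set_option maxRecDepth 1000000

namespace Cfsg.Agent.Chev
open Cfsg.Lie

theorem hiOKE6 : HiOK chevE6 [0, 2, 3, 4, 5] 1 70 :=
  ⟨by decide +kernel, by decide +kernel, by decide +kernel, by decide +kernel, by decide +kernel, by decide +kernel,
    by decide +kernel, by decide +kernel, by decide +kernel, by decide +kernel⟩

theorem hiOKE7 : HiOK chevE7 [1, 2, 3, 4, 5, 6] 0 124 :=
  ⟨by decide +kernel, by decide +kernel, by decide +kernel, by decide +kernel, by decide +kernel, by decide +kernel,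
    by decide +kernel, by decide +kernel, by decide +kernel, by decide +kernel⟩

theorem hiOKE8 : HiOK chevE8 [0, 1, 2, 3, 4, 5, 6] 7 238 :=
  ⟨by decide +kernel, by decide +kernel, by decide +kernel, by decide +kernel, by decide +kernel, by decide +kernel,
    by decide +kernel, by decide +kernel, by decide +kernel, by decide +kernel⟩

theorem hiOKF4 : HiOK chevF4 [0, 1, 2] 3 46 :=
  ⟨by decide +kernel, by decide +kernel, by decide +kernel, by decide +kernel, by decide +kernel, by decide +kernel,
    by decide +kernel, by decide +kernel, by decide +kernel, by decide +kernel⟩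

theorem hiOKG2 : HiOK chevG2 [0] 1 10 :=
  ⟨by decide +kernel, by decide +kernel, by decide +kernel, by decide +kernel, by decide +kernel, by decide +kernel,
    by decide +kernel, by decide +kernel, by decide +kernel, by decide +kernel⟩

end Cfsg.Agent.Chev
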