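import Cfsg.Agent.Chev.TwF5

/-!
# The Ree groups `²F₄`: the fundamental classes
-/

set_option autoImplicit false
set_option linter.unusedSectionVars false
set_option linter.unusedVariables false
set_option maxRecDepth 1000000

namespace Cfsg.Agent.Chev
open Cfsg.Lie
open scoped MatrixGroups

section
variable {K : Type*} [Field K] [CharP K 2]

theorem wg_eq_one_of_zero4 (w : List (ℕ × K)) (h : ∀ p ∈ w, p.2 = 0) : (relsF4 K).wg w = 1 := by
  induction w with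
  | nil => rfl
  | cons p w ih =>
    rw [(relsF4 K).wg_cons, h p List.mem_cons_self, (relsF4 K).xg_zero, one_mul,
      ih (fun x hx => h x (List.mem_cons_of_mem _ hx))]

theorem xg_comm_char2 {r s : ℕ} (hr : r < 48) (hs : s < 48) (h1 : s ≠ r) (h2 : s ≠ chevF4.neg r)
    (ht : ∀ c ∈ chevF4.commTerms r s, (2 : ℤ) ∣ c.2.1) (t u : K) :
    Commute ((relsF4 K).xg r t) ((relsF4 K).xg s u) := by
  have h3 := (relsF4 K).comm_g (r := r) (s := s) hr hs h1 h2 t u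
  have h4 : (relsF4 K).wg (chevF4.commWord K r s t u) = 1 := by
    apply wg_eq_one_of_zero4
    intro p hp
    unfold ChevalleyDatum.commWord at hp
    obtain ⟨c, hc, rfl⟩ := List.mem_map.mp hp
    have : ((c.2.1 : ℤ) : K) = 0 := (CharP.intCast_eq_zero_iff K 2 _).mpr (by exact_mod_cast ht c hc)
    simp [this]
  rw [h4, mul_one] at h3
  show (relsF4 K).xg r t * (relsF4 K).xg s u = (relsF4 K).xg s u * (relsF4 K).xg r t
  calc (relsF4 K).xg r t * (relsF4 K).xg s u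
      = (relsF4 K).xg r t * (((relsF4 K).xg r t)⁻¹ * (relsF4 K).xg s u * (relsF4 K).xg r t) := by rw [h3]
    _ = _ := by group

omit [CharP K 2] in
theorem xg_comm_self4 (r : ℕ) (t u : K) : Commute ((relsF4 K).xg r t) ((relsF4 K).xg r u) := by
  show _ * _ = _ * _
  rw [(relsF4 K).xg_add, (relsF4 K).xg_add, add_comm]

/-- commuting pairs of root subgroups in characteristic 2 -/
def CommOK (r s : ℕ) : Prop :=
  r < 48 ∧ s < 48 ∧ (s = r ∨ (s ≠ chevF4.neg r ∧ ∀ c ∈ chevF4.commTerms r s, (2 : ℤ) ∣ c.2.1))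

instance (r s : ℕ) : Decidable (CommOK r s) := by unfold CommOK; infer_instance

theorem comm_of_ok {r s : ℕ} (h : CommOK r s) (t u : K) : Commute ((relsF4 K).xg r t) ((relsF4 K).xg s u) := by
  obtain ⟨h1, h2, h3⟩ := h
  by_cases e : s = r
  · rw [e]; exact xg_comm_self4 r t u
  · rcases h3 with h3 | h3
    · exact absurd h3 e
    · exact xg_comm_char2 h1 h2 e h3.1 h3.2 t u

/-- a class of type `B₂` -/
structure B2C (a b c d : ℕ) : Prop where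
  lt : a < 48 ∧ b < 48
  ne : b ≠ a ∧ b ≠ chevF4.neg a
  terms : ∃ e1 e2 : ℤ, (e1 = 1 ∨ e1 = -1) ∧ (e2 = 1 ∨ e2 = -1) ∧ chevF4.commTerms a b = [(c, e1, 1, 1), (d, e2, 2, 1)]
  comm : ∀ x ∈ [c, d], ∀ y ∈ [a, b, c, d], CommOK x y

theorem int_unit_cast {e : ℤ} (h : e = 1 ∨ e = -1) : ((e : ℤ) : K) = 1 := by
  rcases h with rfl | rfl
  · simp
  · simp [CharTwo.neg_eq]

theorem B2C.swap {a b c d : ℕ} (h : B2C a b c d) (t u : K) : (relsF4 K).xg b u * (relsF4 K).xg a t =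
    (relsF4 K).xg a t * (relsF4 K).xg b u * ((relsF4 K).xg c (t * u) * (relsF4 K).xg d (t ^ 2 * u)) := by
  obtain ⟨e1, e2, h1, h2, e⟩ := h.terms
  have h3 := (relsF4 K).comm_g (r := a) (s := b) h.lt.1 h.lt.2 h.ne.1 h.ne.2 t u
  unfold ChevalleyDatum.commWord at h3
  rw [e] at h3
  simp only [List.map_cons, List.map_nil, Rels.wg_cons, Rels.wg_nil, mul_one, int_unit_cast h1, int_unit_cast h2,
    CharTwo.neg_eq, one_mul, pow_one] at h3
  calc (relsF4 K).xg b u * (relsF4 K).xg a t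
      = (relsF4 K).xg a t * (((relsF4 K).xg a t)⁻¹ * (relsF4 K).xg b u * (relsF4 K).xg a t) := by group
    _ = _ := by rw [h3]; group

theorem B2C.rearr {a b c d : ℕ} (h : B2C a b c d) (A B C E : K) :
    (relsF4 K).xg b B * (relsF4 K).xg a A * (relsF4 K).xg d E * (relsF4 K).xg c C =
    (relsF4 K).xg a A * (relsF4 K).xg b B * (relsF4 K).xg c (A * B + C) * (relsF4 K).xg d (A ^ 2 * B + E) := by
  rw [h.swap, ← (relsF4 K).xg_add, ← (relsF4 K).xg_add]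
  have c1 : Commute ((relsF4 K).xg d (A ^ 2 * B)) ((relsF4 K).xg c C) := comm_of_ok (h.comm d (by simp) c (by simp)) _ _
  have c2 : Commute ((relsF4 K).xg d E) ((relsF4 K).xg c C) := comm_of_ok (h.comm d (by simp) c (by simp)) _ _
  generalize (relsF4 K).xg a A = X1 at *
  generalize (relsF4 K).xg b B = X2 at *
  generalize (relsF4 K).xg c (A * B) = X3 at *
  generalize (relsF4 K).xg d (A ^ 2 * B) = X4 at *
  generalize (relsF4 K).xg d E = X5 at *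
  generalize (relsF4 K).xg c C = X6 at *
  calc X1 * X2 * (X3 * X4) * X5 * X6 = X1 * X2 * X3 * X4 * (X5 * X6) := by group
    _ = X1 * X2 * X3 * X4 * (X6 * X5) := by rw [c2.eq]
    _ = X1 * X2 * X3 * (X4 * X6) * X5 := by group
    _ = X1 * X2 * X3 * (X6 * X4) * X5 := by rw [c1.eq]
    _ = _ := by group

theorem b2cPos : B2C 27 25 28 30 :=
  ⟨by decide, by decide +kernel, ⟨-1, -1, Or.inr rfl, Or.inr rfl, by decide +kernel⟩, by decide +kernel⟩

theorem b2cNeg : B2C 20 22 19 17 :=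
  ⟨by decide, by decide +kernel, ⟨1, -1, Or.inl rfl, Or.inr rfl, by decide +kernel⟩, by decide +kernel⟩

end

namespace Ree4
variable {K : Type*} [Field K] [CharP K 2] (S : Ree4 K)

/-- the fixed points of a class of type `A₁ × A₁` -/
def xA (r rb : ℕ) (t : K) : GL chevF4.Idx K := (relsF4 K).xg r (S.φ t) * (relsF4 K).xg rb t

/-- the fixed points of a class of type `B₂` -/
def xB (a b c d : ℕ) (t u : K) : GL chevF4.Idx K :=
  (relsF4 K).xg a (S.φ t) * (relsF4 K).xg b t * (relsF4 K).xg c (S.φ t * t + u) * (relsF4 K).xg d (S.φ u ^ 2)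

theorem xg_mem_GG (r : ℕ) (t : K) : (relsF4 K).xg r t ∈ chevF4.group K := (relsF4 K).xg_mem_group r t

theorem sg_two {r s : ℕ} (hr : r < 48) (hs : s < 48) (t u : K) : S.sg ((relsF4 K).xg r t * (relsF4 K).xg s u) =
    (relsF4 K).xg (rhoF4 r) (S.φ t ^ lamF4 r) * (relsF4 K).xg (rhoF4 s) (S.φ u ^ lamF4 s) := by
  rw [S.sg_mul (xg_mem_GG _ _) (xg_mem_GG _ _), S.sg_xg hr, S.sg_xg hs]

theorem sg_four {a b c d : ℕ} (ha : a < 48) (hb : b < 48) (hc : c < 48) (hd : d < 48) (A B C E : K) :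
    S.sg ((relsF4 K).xg a A * (relsF4 K).xg b B * (relsF4 K).xg c C * (relsF4 K).xg d E) =
    (relsF4 K).xg (rhoF4 a) (S.φ A ^ lamF4 a) * (relsF4 K).xg (rhoF4 b) (S.φ B ^ lamF4 b) *
      (relsF4 K).xg (rhoF4 c) (S.φ C ^ lamF4 c) * (relsF4 K).xg (rhoF4 d) (S.φ E ^ lamF4 d) := by
  rw [S.sg_mul (Subgroup.mul_mem _ (Subgroup.mul_mem _ (xg_mem_GG _ _) (xg_mem_GG _ _)) (xg_mem_GG _ _)) (xg_mem_GG _ _),
    S.sg_mul (Subgroup.mul_mem _ (xg_mem_GG _ _) (xg_mem_GG _ _)) (xg_mem_GG _ _),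
    S.sg_mul (xg_mem_GG _ _) (xg_mem_GG _ _), S.sg_xg ha, S.sg_xg hb, S.sg_xg hc, S.sg_xg hd]

/-- table facts on a class of type `A₁ × A₁`: `r` short, `rb = ρ r` long -/
structure A2C (r rb : ℕ) : Prop where
  lt : r < 48 ∧ rb < 48
  rho : rhoF4 r = rb ∧ rhoF4 rb = r
  lam : lamF4 r = 2 ∧ lamF4 rb = 1
  comm : CommOK r rb

theorem xA_fixed {r rb : ℕ} (h : A2C r rb) (t : K) : S.sg (S.xA r rb t) = S.xA r rb t := by
  unfold xA
  rw [S.sg_two h.lt.1 h.lt.2, h.rho.1, h.rho.2, h.lam.1, h.lam.2, S.phi_phi, pow_one]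
  exact (comm_of_ok h.comm _ _).eq.symm

/-- table facts on a class of type `B₂` -/
structure B2R (a b c d : ℕ) : Prop where
  lt : a < 48 ∧ b < 48 ∧ c < 48 ∧ d < 48
  rho : rhoF4 a = b ∧ rhoF4 b = a ∧ rhoF4 c = d ∧ rhoF4 d = c
  lam : lamF4 a = 2 ∧ lamF4 b = 1 ∧ lamF4 c = 2 ∧ lamF4 d = 1

theorem sg_B2 {a b c d : ℕ} (h : B2C a b c d) (h' : B2R a b c d) (A B C E : K) :
    S.sg ((relsF4 K).xg a A * (relsF4 K).xg b B * (relsF4 K).xg c C * (relsF4 K).xg d E) =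
    (relsF4 K).xg a (S.φ B) * (relsF4 K).xg b (S.φ A ^ 2) * (relsF4 K).xg c (S.φ B * S.φ A ^ 2 + S.φ E) *
      (relsF4 K).xg d (S.φ B ^ 2 * S.φ A ^ 2 + S.φ C ^ 2) := by
  rw [S.sg_four h'.lt.1 h'.lt.2.1 h'.lt.2.2.1 h'.lt.2.2.2, h'.rho.1, h'.rho.2.1, h'.rho.2.2.1, h'.rho.2.2.2,
    h'.lam.1, h'.lam.2.1, h'.lam.2.2.1, h'.lam.2.2.2, pow_one, pow_one, h.rearr]

theorem xB_fixed {a b c d : ℕ} (h : B2C a b c d) (h' : B2R a b c d) (t u : K) :
    S.sg (S.xB a b c d t u) = S.xB a b c d t u := by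
  unfold xB
  rw [S.sg_B2 h h', S.phi_phi, map_pow, S.phi_phi, map_add, map_mul]
  congr 1
  have e : (S.φ (S.φ t) * S.φ t + S.φ u) ^ 2 = S.φ (S.φ t) ^ 2 * S.φ t ^ 2 + S.φ u ^ 2 := by
    rw [CharTwo.add_sq, mul_pow]
  rw [e, S.phi_phi, ← add_assoc, mul_comm t, CharTwo.add_self_eq_zero, zero_add]

theorem a2cPos : A2C 33 24 := ⟨by decide, by decide, by decide, by decide +kernel⟩
theorem a2cNeg : A2C 14 23 := ⟨by decide, by decide, by decide, by decide +kernel⟩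
theorem b2rPos : B2R 27 25 28 30 := ⟨by decide, by decide, by decide⟩
theorem b2rNeg : B2R 20 22 19 17 := ⟨by decide, by decide, by decide⟩

/-- the Ree group -/
def G1 : Subgroup (GL chevF4.Idx K) := Subgroup.closure {g | ∃ t u, g = S.xA 33 24 t ∨ g = S.xA 14 23 t ∨
  g = S.xB 27 25 28 30 t u ∨ g = S.xB 20 22 19 17 t u}

theorem xA_mem_GG (r rb : ℕ) (t : K) : S.xA r rb t ∈ chevF4.group K :=
  Subgroup.mul_mem _ (xg_mem_GG _ _) (xg_mem_GG _ _)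

theorem xB_mem_GG (a b c d : ℕ) (t u : K) : S.xB a b c d t u ∈ chevF4.group K :=
  Subgroup.mul_mem _ (Subgroup.mul_mem _ (Subgroup.mul_mem _ (xg_mem_GG _ _) (xg_mem_GG _ _)) (xg_mem_GG _ _))
    (xg_mem_GG _ _)

theorem G1_le_Γ : S.G1 ≤ S.Γ := by
  unfold G1
  rw [Subgroup.closure_le]
  rintro g ⟨t, u, rfl | rfl | rfl | rfl⟩
  · exact ⟨S.xA_mem_GG _ _ _, S.xA_fixed a2cPos t⟩
  · exact ⟨S.xA_mem_GG _ _ _, S.xA_fixed a2cNeg t⟩
  · exact ⟨S.xB_mem_GG _ _ _ _ _ _, S.xB_fixed b2cPos b2rPos t u⟩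
  · exact ⟨S.xB_mem_GG _ _ _ _ _ _, S.xB_fixed b2cNeg b2rNeg t u⟩

theorem xA1_mem (t : K) : S.xA 33 24 t ∈ S.G1 := Subgroup.subset_closure ⟨t, 0, Or.inl rfl⟩
theorem xA1n_mem (t : K) : S.xA 14 23 t ∈ S.G1 := Subgroup.subset_closure ⟨t, 0, Or.inr (Or.inl rfl)⟩
theorem xB2_mem (t u : K) : S.xB 27 25 28 30 t u ∈ S.G1 := Subgroup.subset_closure ⟨t, u, Or.inr (Or.inr (Or.inl rfl))⟩
theorem xB2n_mem (t u : K) : S.xB 20 22 19 17 t u ∈ S.G1 :=
  Subgroup.subset_closure ⟨t, u, Or.inr (Or.inr (Or.inr rfl))⟩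

end Ree4

end Cfsg.Agent.Chev
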