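import Cfsg.Agent.Chev.Cent2
import Cfsg.Agent.Chev.TwF6

/-!
# Centralizers of the long and short highest root elements of `F₄` in characteristic 2
-/

set_option autoImplicit false
set_option linter.unusedSectionVars false
set_option linter.unusedVariables false
set_option maxRecDepth 1000000

namespace Cfsg.Agent.Chev
open Cfsg.Lie
open scoped MatrixGroups

section
variable {F : Type*} [Field F]

theorem centF4_long_le {g : GL chevF4.Idx F} (hg : g ∈ chevF4.group F) (hc : Commute g ((relsF4 F).xg 47 1)) :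
    g ∈ chevF4.posUnipotent F ⊔ chevF4.rootSubgroup F 14 ⊔ chevF4.rootSubgroup F 20 ⊔ chevF4.rootSubgroup F 22 := by
  refine (relsF4 F).hi_cent_le hiOKF4 good2F4 (le_sup_of_le_left (le_sup_of_le_left le_sup_left)) ?_ hg hc
  intro i hi c
  simp only [List.mem_cons, List.not_mem_nil, or_false] at hi
  rcases hi with rfl | rfl | rfl
  · exact Subgroup.mem_sup_left (Subgroup.mem_sup_left (Subgroup.mem_sup_right ((relsF4 F).xg_mem_rootSubgroup 14 c)))
  · exact Subgroup.mem_sup_left (Subgroup.mem_sup_right ((relsF4 F).xg_mem_rootSubgroup 20 c))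
  · exact Subgroup.mem_sup_right ((relsF4 F).xg_mem_rootSubgroup 22 c)

theorem centF4_long (t : GL chevF4.Idx F) (ht : (t : Matrix chevF4.Idx chevF4.Idx F) = chevF4.x F 47 1) :
    chevF4.group F ⊓ Subgroup.centralizer {t} =
      chevF4.posUnipotent F ⊔ chevF4.rootSubgroup F 14 ⊔ chevF4.rootSubgroup F 20 ⊔ chevF4.rootSubgroup F 22 := by
  have ht' : t = (relsF4 F).xg 47 1 := ((relsF4 F).eq_xg_iff _ _ _).mp ht
  subst ht'
  apply le_antisymm
  · rintro g ⟨hg, hc⟩
    exact centF4_long_le hg (Subgroup.mem_centralizer_singleton_iff.mp hc)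
  · refine sup_le (sup_le (sup_le ?_ ?_) ?_) ?_
    · intro u hu
      exact ⟨(relsF4 F).U_le_group hu, Subgroup.mem_centralizer_singleton_iff.mpr ((relsF4 F).hi_comm_U hiOKF4 hu 1)⟩
    · apply (relsF4 F).rootSubgroup_le
      intro c
      exact ⟨(relsF4 F).xg_mem_group _ _, Subgroup.mem_centralizer_singleton_iff.mpr
        ((relsF4 F).hi_comm_neg hiOKF4 (i := 0) (by simp) c 1)⟩
    · apply (relsF4 F).rootSubgroup_le
      intro c
      exact ⟨(relsF4 F).xg_mem_group _ _, Subgroup.mem_centralizer_singleton_iff.mpr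
        ((relsF4 F).hi_comm_neg hiOKF4 (i := 1) (by simp) c 1)⟩
    · apply (relsF4 F).rootSubgroup_le
      intro c
      exact ⟨(relsF4 F).xg_mem_group _ _, Subgroup.mem_centralizer_singleton_iff.mpr
        ((relsF4 F).hi_comm_neg hiOKF4 (i := 2) (by simp) c 1)⟩

end

theorem commOK44 : (∀ s < 48, 24 ≤ s → CommOK s 44) ∧ CommOK 20 44 ∧ CommOK 22 44 ∧ CommOK 23 44 := by
  decide +kernel

theorem centF4_short {F : Type*} [Field F] [Fintype F] [CharP F 2] (u : GL chevF4.Idx F)
    (hu : (u : Matrix chevF4.Idx chevF4.Idx F) = chevF4.x F 44 1) :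
    chevF4.group F ⊓ Subgroup.centralizer {u} =
      chevF4.posUnipotent F ⊔ chevF4.rootSubgroup F 20 ⊔ chevF4.rootSubgroup F 22 ⊔ chevF4.rootSubgroup F 23 := by
  have hu' : u = (relsF4 F).xg 44 1 := ((relsF4 F).eq_xg_iff _ _ _).mp hu
  subst hu'
  set M2 := chevF4.posUnipotent F ⊔ chevF4.rootSubgroup F 20 ⊔ chevF4.rootSubgroup F 22 ⊔ chevF4.rootSubgroup F 23
    with hM2
  have hUM : chevF4.posUnipotent F ≤ M2 := le_sup_of_le_left (le_sup_of_le_left le_sup_left)
  have h20 : ∀ c, (relsF4 F).xg 20 c ∈ M2 := fun c =>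
    Subgroup.mem_sup_left (Subgroup.mem_sup_left (Subgroup.mem_sup_right ((relsF4 F).xg_mem_rootSubgroup 20 c)))
  have h22 : ∀ c, (relsF4 F).xg 22 c ∈ M2 := fun c =>
    Subgroup.mem_sup_left (Subgroup.mem_sup_right ((relsF4 F).xg_mem_rootSubgroup 22 c))
  have h23 : ∀ c, (relsF4 F).xg 23 c ∈ M2 := fun c =>
    Subgroup.mem_sup_right ((relsF4 F).xg_mem_rootSubgroup 23 c)
  apply le_antisymm
  · rintro g ⟨hg, hc⟩
    have hc' : Commute g ((relsF4 F).xg 44 1) := Subgroup.mem_centralizer_singleton_iff.mp hc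
    have hperf : ∀ x : F, ∃ y : F, y ^ 2 = x := by
      intro x
      obtain ⟨y, hy⟩ := FiniteField.isSquare_of_char_two (CharP.ringChar_of_prime_eq_zero Nat.prime_two
        (CharP.cast_eq_zero F 2)) x
      exact ⟨y, by rw [hy, sq]⟩
    obtain ⟨α, hα⟩ := graph_autF4 hperf
    set g' := α.symm ⟨g, hg⟩ with hg'
    have hαg : α g' = ⟨g, hg⟩ := α.apply_symm_apply _
    let T : ↥(chevF4.group F) := ⟨(relsF4 F).xg 47 1, (relsF4 F).xg_mem_group _ _⟩
    have hαT : ((α T : ↥(chevF4.group F)) : GL chevF4.Idx F) = (relsF4 F).xg 44 1 := by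
      have := hα 47 1 (by norm_num)
      rw [one_pow] at this
      exact this
    have hcomm : g' * T = T * g' := by
      apply α.injective
      apply Subtype.ext
      rw [map_mul, map_mul, Subgroup.coe_mul, Subgroup.coe_mul, hαg, hαT]
      exact hc'.eq
    have h1 := centF4_long_le g'.2 (show Commute (g' : GL chevF4.Idx F) ((relsF4 F).xg 47 1) from
      congrArg Subtype.val hcomm)
    let P : Subgroup (GL chevF4.Idx F) :=
      ((M2.subgroupOf (chevF4.group F)).comap α.toMonoidHom).map (chevF4.group F).subtype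
    have hP : ∀ (r : ℕ) (c : F), r < 48 → (relsF4 F).xg (rhoF4 r) (c ^ lamF4 r) ∈ M2 → (relsF4 F).xg r c ∈ P := by
      intro r c hr h
      refine ⟨⟨(relsF4 F).xg r c, (relsF4 F).xg_mem_group _ _⟩, ?_, rfl⟩
      show α _ ∈ M2.subgroupOf (chevF4.group F)
      rw [Subgroup.mem_subgroupOf, hα r c hr]
      exact h
    have hle : chevF4.posUnipotent F ⊔ chevF4.rootSubgroup F 14 ⊔ chevF4.rootSubgroup F 20 ⊔
        chevF4.rootSubgroup F 22 ≤ P := by
      refine sup_le (sup_le (sup_le ?_ ?_) ?_) ?_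
      · rw [← UU_pos]
        apply (relsF4 F).UU_le
        intro s hs c
        obtain ⟨h1, h2⟩ := (goodF4.isPosRoot_iff s).mp hs
        apply hP s c h2
        apply hUM
        rw [← UU_pos]
        exact (relsF4 F).xg_mem_UU ((goodF4.isPosRoot_iff _).mpr ⟨rhoF4_pos s h2 h1, rhoF4_lt s h2⟩) _
      · apply (relsF4 F).rootSubgroup_le
        intro c
        exact hP 14 c (by norm_num) (h23 _)
      · apply (relsF4 F).rootSubgroup_le
        intro c
        exact hP 20 c (by norm_num) (h22 _)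
      · apply (relsF4 F).rootSubgroup_le
        intro c
        exact hP 22 c (by norm_num) (h20 _)
    obtain ⟨y, hy, e⟩ := hle h1
    have hyg : y = g' := Subtype.ext e
    rw [hyg] at hy
    have hy' : α g' ∈ M2.subgroupOf (chevF4.group F) := hy
    rw [hαg, Subgroup.mem_subgroupOf] at hy'
    exact hy'
  · obtain ⟨c1, c2, c3, c4⟩ := commOK44
    refine sup_le (sup_le (sup_le ?_ ?_) ?_) ?_
    · rw [← UU_pos]
      apply (relsF4 F).UU_le
      intro s hs c
      obtain ⟨h1, h2⟩ := (goodF4.isPosRoot_iff s).mp hs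
      exact ⟨(relsF4 F).xg_mem_group _ _, Subgroup.mem_centralizer_singleton_iff.mpr (comm_of_ok (c1 s h2 h1) c 1)⟩
    · apply (relsF4 F).rootSubgroup_le
      intro c
      exact ⟨(relsF4 F).xg_mem_group _ _, Subgroup.mem_centralizer_singleton_iff.mpr (comm_of_ok c2 c 1)⟩
    · apply (relsF4 F).rootSubgroup_le
      intro c
      exact ⟨(relsF4 F).xg_mem_group _ _, Subgroup.mem_centralizer_singleton_iff.mpr (comm_of_ok c3 c 1)⟩
    · apply (relsF4 F).rootSubgroup_le
      intro c
      exact ⟨(relsF4 F).xg_mem_group _ _, Subgroup.mem_centralizer_singleton_iff.mpr (comm_of_ok c4 c 1)⟩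

end Cfsg.Agent.Chev
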