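import Cfsg.Agent.Chev.Supp

/-!
# A general scheme for centralizers of products of commuting root elements
-/

set_option autoImplicit false
set_option linter.unusedSectionVars false
set_option linter.unusedVariables false

namespace Cfsg.Agent.Chev
open Cfsg.Lie
open scoped MatrixGroups

variable {D : ChevalleyDatum} {G : Good D} {K : Type*} [Field K]

/-- a permutation of the roots as a function on `ℕ` -/
def permN (σ : Equiv.Perm (Fin D.nroots)) (r : ℕ) : ℕ := if h : r < D.nroots then ((σ ⟨r, h⟩ : Fin D.nroots) : ℕ) else r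

theorem permN_of_lt (σ : Equiv.Perm (Fin D.nroots)) {r : ℕ} (h : r < D.nroots) :
    permN σ r = ((σ ⟨r, h⟩ : Fin D.nroots) : ℕ) := dif_pos h

theorem Good.W_orbit (G : Good D) (ρs : List ℕ) (hρ : ∀ r ∈ ρs, r < D.nroots) (O : List (List ℕ)) (h0 : ρs ∈ O)
    (hstep : ∀ l ∈ O, ∀ i < D.rank, l.map (D.reflectRoot i) ∈ O) :
    ∀ σ ∈ G.W, ρs.map (permN σ) ∈ O := by
  refine G.W_ind_left (p := fun σ => ρs.map (permN σ) ∈ O) ?_ ?_
  · have : ρs.map (permN (1 : Equiv.Perm (Fin D.nroots))) = ρs := by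
      conv_rhs => rw [← List.map_id ρs]
      apply List.map_congr_left
      intro r hr
      rw [permN_of_lt _ (hρ r hr)]
      rfl
    rw [this]
    exact h0
  · intro i hi σ _ ih
    have : ρs.map (permN (G.wP i hi * σ)) = (ρs.map (permN σ)).map (D.reflectRoot i) := by
      rw [List.map_map]
      apply List.map_congr_left
      intro r hr
      rw [permN_of_lt _ (hρ r hr), Equiv.Perm.mul_apply, G.wP_apply, Function.comp_apply, permN_of_lt _ (hρ r hr)]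
    rw [this]
    exact hstep _ ih i hi

namespace Rels
variable (R : Rels D G K)
include R

/-- induction over the stabilizer of a dominant configuration -/
theorem stab_ind (G2 : Good2 D) (J : List ℕ) (Fix : Equiv.Perm (Fin D.nroots) → Prop)
    (h1 : ∀ σ ∈ G.W, Fix σ → ∀ i (hi : i < D.rank), i ∉ J → D.nroots / 2 ≤ ((σ (G.sF i hi) : Fin D.nroots) : ℕ))
    (h2 : ∀ σ, Fix σ → ∀ i ∈ J, ∀ hi : i < D.rank, Fix (σ * G.wP i hi))
    (P : Equiv.Perm (Fin D.nroots) → Prop) (one : P 1)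
    (step : ∀ σ, ∀ i ∈ J, ∀ hi : i < D.rank, P σ → P (σ * G.wP i hi)) (k : ℕ) :
    ∀ σ ∈ G.W, G.nn σ = k → Fix σ → P σ := by
  induction k with
  | zero =>
    intro σ hw hk _
    rw [R.W_eq_one G2 hw hk]
    exact one
  | succ k ih =>
    intro σ hw hk hf
    obtain ⟨i, hi, hneg⟩ := G.exists_simple_neg hw (by omega)
    have hiJ : i ∈ J := by
      by_contra h
      have := h1 σ hw hf i hi h
      omega
    have h3 := G.nn_mul_refl hw i hi
    rw [if_pos hneg, if_neg (by omega)] at h3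
    have h4 := ih (σ * G.wP i hi) (Subgroup.mul_mem _ hw (G.wP_mem i hi)) (by omega) (h2 σ hf i hiJ hi)
    have h5 := step _ i hiJ hi h4
    have e : σ * G.wP i hi * G.wP i hi = σ := by
      rw [mul_assoc]
      nth_rewrite 1 [← G.wP_inv i hi]
      rw [inv_mul_cancel, mul_one]
    rwa [e] at h5

theorem prodL_T_inj (G2 : Good2 D) (T : List ℕ) (hnd : T.Nodup) (hT : ∀ r ∈ T, D.nroots / 2 ≤ r ∧ r < D.nroots)
    (hcomm : ∀ r ∈ T, ∀ s ∈ T, ∀ t u : K, Commute (R.xg r t) (R.xg s u))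
    {a a' : ℕ → K} (e : R.prodL a T = R.prodL a' T) : ∀ r ∈ T, a r = a' r := by
  classical
  have hev := G.even
  intro r hr
  have s3 := R.prodL_sort a T hnd (D.nroots / 2) (D.nroots / 2)
    (fun s hs => ⟨(hT s hs).1, by have := (hT s hs).2; omega⟩) (fun r hr s hs => hcomm r hr s hs _ _)
  have s4 := R.prodL_sort a' T hnd (D.nroots / 2) (D.nroots / 2)
    (fun s hs => ⟨(hT s hs).1, by have := (hT s hs).2; omega⟩) (fun r hr s hs => hcomm r hr s hs _ _)
  have := R.prodFrom_inj G2 (D.nroots / 2) (D.nroots / 2) le_rfl (by omega) _ _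
    (s3.symm.trans (e.trans s4)) r (hT r hr).1 (hT r hr).2
  simpa [hr] using this

/-- the general scheme -/
theorem cent_le_gen (G2 : Good2 D) (v : GL D.Idx K) (M : Subgroup (GL D.Idx K))
    (T : List ℕ) (hnd : T.Nodup) (hT : ∀ r ∈ T, D.nroots / 2 ≤ r ∧ r < D.nroots)
    (hcomm : ∀ r ∈ T, ∀ s ∈ T, ∀ t u : K, Commute (R.xg r t) (R.xg s u))
    (ρ1 ρ2 : ℕ) (h1T : ρ1 ∈ T) (h2T : ρ2 ∈ T)
    (hU : ∀ u ∈ D.posUnipotent K, ∃ a : ℕ → K, a ρ1 ≠ 0 ∧ a ρ2 ≠ 0 ∧ u * v * u⁻¹ = R.prodL a T)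
    (hstab : ∀ σ ∈ G.W, permN σ ρ1 ∈ T → permN σ ρ2 ∈ T →
      (∃ nJ ∈ D.monomialSubgroup K, nJ ∈ M ∧ Commute nJ v ∧ R.IsMono nJ σ) ∧
        UU D K (negP D σ) ≤ M ⊓ Subgroup.centralizer {v})
    (hB : ∀ b ∈ D.borelSubgroup K, Commute b v → b ∈ M)
    {g : GL D.Idx K} (hg : g ∈ D.group K) (hc : Commute g v) : g ∈ M := by
  obtain ⟨b, hb, n, hn, w, hw, hm, u, hu, e⟩ := R.normal_form_exists G2 hg
  have huU : u ∈ D.posUnipotent K := by
    rw [← UU_pos]
    exact UU_mono (fun s hs => (G.isPosRoot_iff s).mpr ⟨hs.2.1, hs.1⟩) hu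
  obtain ⟨u1, hu1, h, hh, rfl⟩ := exists_mul_of_mem_sup R.H_le_normalizer_U hb
  have hm' : R.IsMono (h * n) w := by
    have := IsMono.mul R (IsMono.of_tor R (R.H_le_Tor hh)) hm
    rwa [one_mul] at this
  obtain ⟨a, ha1, ha2, eu⟩ := hU u huU
  obtain ⟨a', _, _, eu1⟩ := hU u1⁻¹ (Subgroup.inv_mem _ hu1)
  rw [inv_inv] at eu1
  have e0 : g * v * g⁻¹ = v := by rw [hc.eq, mul_inv_cancel_right]
  have e1 : (h * n) * R.prodL a T * (h * n)⁻¹ = R.prodL a' T := by
    rw [← eu, ← eu1]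
    nth_rewrite 2 [← e0]
    rw [e]
    group
  have k1 := R.supp G2 hm' T hnd hT hcomm a a' e1 ρ1 h1T ha1 (hT ρ1 h1T).2
  have k2 := R.supp G2 hm' T hnd hT hcomm a a' e1 ρ2 h2T ha2 (hT ρ2 h2T).2
  rw [← permN_of_lt] at k1 k2
  obtain ⟨⟨nJ, hnJ, hnJM, hnJc, hmJ⟩, hUle⟩ := hstab w hw k1 k2
  obtain ⟨huM, huc⟩ := hUle hu
  have huc' : Commute u v := Subgroup.mem_centralizer_singleton_iff.mp huc
  have h1 : h * n * nJ⁻¹ ∈ D.diagonalSubgroup K := by
    apply R.mono_one_mem_H G2 (Subgroup.mul_mem _ (Subgroup.mul_mem _ (R.H_le_N hh) hn) (Subgroup.inv_mem _ hnJ))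
    have := IsMono.mul R hm' (IsMono.inv R hmJ)
    rwa [mul_inv_cancel] at this
  have e2 : u1 * (h * n * nJ⁻¹) = g * u⁻¹ * nJ⁻¹ := by rw [e]; group
  have h2 : u1 * (h * n * nJ⁻¹) ∈ M := by
    apply hB _ (Subgroup.mul_mem _ (R.U_le_B hu1) (R.H_le_B h1))
    rw [e2]
    exact (hc.mul_left huc'.inv_left).mul_left hnJc.inv_left
  have e3 : g = u1 * (h * n * nJ⁻¹) * nJ * u := by rw [e2]; group
  rw [e3]
  exact Subgroup.mul_mem _ (Subgroup.mul_mem _ h2 hnJM) huM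

/-- the action of a torus element on root elements -/
theorem tau_conj (c : Fin D.rank → Kˣ) {r : ℕ} (hr : r < D.nroots) (t : K) :
    tau D K c * R.xg r t = R.xg r (((∏ i : Fin D.rank, c i ^ D.cartan i r : Kˣ) : K) * t) * tau D K c := by
  have hh : tau D K c ∈ D.diagonalSubgroup K := by
    rw [← R.range_tor]; exact ⟨c, rfl⟩
  obtain ⟨χ, c1, c2, c3⟩ := R.H_le_Tor hh
  have hχ : ∀ a, (χ a : K) = (kap D K c a : Kˣ) := by
    intro a
    have : Matrix.diagonal (fun a => (χ a : K)) = Matrix.diagonal (fun a => ((kap D K c a : Kˣ) : K)) := by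
      rw [← c2]; rfl
    exact congrFun (Matrix.diagonal_injective this) a
  have e1 := c3 ⟨r, hr⟩ t
  rw [hχ] at e1
  exact e1

theorem tau_mem_of (M : Subgroup (GL D.Idx K)) (J : List ℕ)
    (hng : ∀ i ∈ J, ∀ u : K, R.ng (D.simple i) u ∈ M) {c : Fin D.rank → Kˣ} (hc : ∀ i : Fin D.rank, (i : ℕ) ∉ J → c i = 1) :
    tau D K c ∈ M := by
  have h3 : c ∈ M.comap (tau D K) := by
    rw [← Finset.univ_prod_mulSingle c]
    apply Subgroup.prod_mem
    intro i _
    by_cases h : (i : ℕ) ∈ J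
    · rw [Subgroup.mem_comap, R.ftau_single, R.hg_eq]
      exact Subgroup.mul_mem _ (hng i h _) (hng i h _)
    · rw [hc i h, Pi.mulSingle_one]
      exact Subgroup.one_mem _
  exact h3

end Rels

end Cfsg.Agent.Chev
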