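import Cfsg.Agent.Chev.CentGen
import Cfsg.Agent.Chev.All2

/-!
# The invariant pairing on the roots of `F₄`
-/

set_option autoImplicit false
set_option maxRecDepth 10000000

namespace Cfsg.Agent.Chev
open Cfsg.Lie

/-- `⟨s, r^∨⟩` -/
def pairF4 (r s : ℕ) : ℤ :=
  (List.range 4).foldl (fun acc i => acc + (chevF4.coroot.getD r #[]).getD i 0 * chevF4.cartan i s) 0

/-- the long roots -/
def lngF4 (r : ℕ) : Bool := (List.range 48).any fun s => decide (pairF4 s r = 2 ∧ s ≠ r)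

theorem pairF4_inv : ∀ i < 4, ∀ r < 48, ∀ s < 48,
    pairF4 (chevF4.reflectRoot i r) (chevF4.reflectRoot i s) = pairF4 r s := by decide +kernel

theorem lngF4_inv : ∀ i < 4, ∀ r < 48, lngF4 (chevF4.reflectRoot i r) = lngF4 r := by decide +kernel

theorem pairF4_W {σ : Equiv.Perm (Fin chevF4.nroots)} (hσ : σ ∈ goodF4.W) :
    ∀ r s : Fin chevF4.nroots, pairF4 (σ r) (σ s) = pairF4 r s ∧ lngF4 (σ r) = lngF4 r := by
  refine goodF4.W_ind_left (p := fun σ => ∀ r s : Fin chevF4.nroots, pairF4 (σ r) (σ s) = pairF4 r s ∧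
    lngF4 (σ r) = lngF4 r) ?_ ?_ σ hσ
  · intro r s; exact ⟨rfl, rfl⟩
  · intro i hi σ _ ih r s
    rw [Equiv.Perm.mul_apply, Equiv.Perm.mul_apply, goodF4.wP_apply, goodF4.wP_apply,
      pairF4_inv i hi _ (σ r).2 _ (σ s).2, lngF4_inv i hi _ (σ r).2]
    exact ih r s

theorem detEF4 : ∀ a ∈ [44, 47], ∀ b ∈ [44, 47], pairF4 a b = pairF4 47 44 → pairF4 b a = pairF4 44 47 →
    lngF4 a = lngF4 47 → a = 47 ∧ b = 44 := by decide +kernel

theorem detFF4 : ∀ a ∈ [39, 40, 44, 45, 46, 47], ∀ b ∈ [39, 40, 44, 45, 46, 47], pairF4 a b = pairF4 39 45 →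
    pairF4 b a = pairF4 45 39 → lngF4 a = lngF4 39 → a = 39 ∧ b = 45 := by decide +kernel

theorem posEF4 : ∀ s < 24, ∀ i ∈ [0, 3], ¬ (pairF4 47 s = pairF4 47 (chevF4.simple i) ∧
    pairF4 44 s = pairF4 44 (chevF4.simple i)) := by decide +kernel

theorem posFF4 : ∀ s < 24, ∀ i ∈ [1, 2], ¬ (pairF4 39 s = pairF4 39 (chevF4.simple i) ∧
    pairF4 45 s = pairF4 45 (chevF4.simple i)) := by decide +kernel

end Cfsg.Agent.Chev
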