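import Cfsg.Agent.Chev.CentF4
import Cfsg.Agent.Chev.CentGen
import Cfsg.Agent.Chev.PairF4

/-!
# Centralizers of the mixed involutions of `F₄` in characteristic 2, I
-/

set_option autoImplicit false
set_option linter.unusedSectionVars false
set_option linter.unusedVariables false
set_option maxRecDepth 1000000

namespace Cfsg.Agent.Chev
open Cfsg.Lie
open scoped MatrixGroups

section
variable {F : Type*} [Field F]

local notation "X" => Rels.xg (relsF4 F)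

theorem stabF4 (ρ1 ρ2 : ℕ) (J I T : List ℕ)
    (hlt : ρ1 < chevF4.nroots ∧ ρ2 < chevF4.nroots)
    (hcov : ∀ i < 4, i ∈ J ∨ i ∈ I)
    (hdet : ∀ a ∈ T, ∀ b ∈ T, pairF4 a b = pairF4 ρ1 ρ2 → pairF4 b a = pairF4 ρ2 ρ1 → lngF4 a = lngF4 ρ1 →
      a = ρ1 ∧ b = ρ2)
    (hpos : ∀ s < 24, ∀ i ∈ I, ¬ (pairF4 ρ1 s = pairF4 ρ1 (chevF4.simple i) ∧
      pairF4 ρ2 s = pairF4 ρ2 (chevF4.simple i)))
    (hrefl : ∀ i ∈ J, chevF4.reflectRoot i ρ1 = ρ1 ∧ chevF4.reflectRoot i ρ2 = ρ2)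
    (P : Equiv.Perm (Fin chevF4.nroots) → Prop) (one : P 1)
    (step : ∀ σ, ∀ i ∈ J, ∀ hi : i < chevF4.rank, P σ → P (σ * goodF4.wP i hi)) :
    ∀ σ ∈ goodF4.W, permN σ ρ1 ∈ T → permN σ ρ2 ∈ T → P σ := by
  intro σ hw k1 k2
  have hfix : permN σ ρ1 = ρ1 ∧ permN σ ρ2 = ρ2 := by
    have inv := pairF4_W hw
    apply hdet _ k1 _ k2
    · rw [permN_of_lt σ hlt.1, permN_of_lt σ hlt.2]; exact (inv ⟨ρ1, hlt.1⟩ ⟨ρ2, hlt.2⟩).1
    · rw [permN_of_lt σ hlt.1, permN_of_lt σ hlt.2]; exact (inv ⟨ρ2, hlt.2⟩ ⟨ρ1, hlt.1⟩).1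
    · rw [permN_of_lt σ hlt.1]; exact (inv ⟨ρ1, hlt.1⟩ ⟨ρ2, hlt.2⟩).2
  refine (relsF4 ℚ).stab_ind good2F4 J (fun τ => permN τ ρ1 = ρ1 ∧ permN τ ρ2 = ρ2) ?_ ?_ P one step
    (goodF4.nn σ) σ hw rfl hfix
  · intro τ hτ hf i hi hiJ
    have hiI : i ∈ I := (hcov i hi).resolve_left hiJ
    by_contra hneg
    have hs : ((τ (goodF4.sF i hi) : Fin chevF4.nroots) : ℕ) < 24 := not_le.mp hneg
    have inv := pairF4_W hτ
    apply hpos _ hs i hiI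
    have f1 := hf.1
    have f2 := hf.2
    rw [permN_of_lt τ hlt.1] at f1
    rw [permN_of_lt τ hlt.2] at f2
    constructor
    · have := (inv ⟨ρ1, hlt.1⟩ (goodF4.sF i hi)).1
      rw [f1] at this
      exact this
    · have := (inv ⟨ρ2, hlt.2⟩ (goodF4.sF i hi)).1
      rw [f2] at this
      exact this
  · intro τ hf i hiJ hi
    constructor
    · rw [permN_of_lt _ hlt.1, Equiv.Perm.mul_apply]
      have : goodF4.wP i hi ⟨ρ1, hlt.1⟩ = ⟨ρ1, hlt.1⟩ := Fin.ext (by rw [goodF4.wP_apply]; exact (hrefl i hiJ).1)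
      rw [this, ← permN_of_lt]
      exact hf.1
    · rw [permN_of_lt _ hlt.2, Equiv.Perm.mul_apply]
      have : goodF4.wP i hi ⟨ρ2, hlt.2⟩ = ⟨ρ2, hlt.2⟩ := Fin.ext (by rw [goodF4.wP_apply]; exact (hrefl i hiJ).2)
      rw [this, ← permN_of_lt]
      exact hf.2

/-- representatives for the stabilizer -/
theorem stab_repF4 (J : List ℕ) (M : Subgroup (GL chevF4.Idx F)) (v : GL chevF4.Idx F)
    (hng : ∀ i ∈ J, (relsF4 F).ng (chevF4.simple i) 1 ∈ M ∧ Commute ((relsF4 F).ng (chevF4.simple i) 1) v) :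
    (∃ nJ ∈ chevF4.monomialSubgroup F, nJ ∈ M ∧ Commute nJ v ∧ (relsF4 F).IsMono nJ 1) ∧
    ∀ σ, ∀ i ∈ J, ∀ hi : i < chevF4.rank,
      (∃ nJ ∈ chevF4.monomialSubgroup F, nJ ∈ M ∧ Commute nJ v ∧ (relsF4 F).IsMono nJ σ) →
      (∃ nJ ∈ chevF4.monomialSubgroup F, nJ ∈ M ∧ Commute nJ v ∧ (relsF4 F).IsMono nJ (σ * goodF4.wP i hi)) := by
  refine ⟨⟨1, Subgroup.one_mem _, Subgroup.one_mem _, Commute.one_left _,
    Rels.IsMono.of_tor (relsF4 F) (Rels.IsTor.one (relsF4 F))⟩, ?_⟩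
  rintro σ i hiJ hi ⟨n, hn, hnM, hnc, hm⟩
  exact ⟨n * (relsF4 F).ng (chevF4.simple i) 1, Subgroup.mul_mem _ hn ((relsF4 F).ng_mem_N (goodF4.simple_lt i hi)),
    Subgroup.mul_mem _ hnM (hng i hiJ).1, hnc.mul_left (hng i hiJ).2,
    Rels.IsMono.mul (relsF4 F) hm (Rels.IsMono.ni (relsF4 F) hi)⟩

theorem ngF4_mem {M : Subgroup (GL chevF4.Idx F)} {r : ℕ} (hp : ∀ c, X r c ∈ M)
    (hn : ∀ c, X (chevF4.neg r) c ∈ M) (u : F) : (relsF4 F).ng r u ∈ M := by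
  rw [(relsF4 F).ng_eq]
  exact Subgroup.mul_mem _ (Subgroup.mul_mem _ (hp _) (hn _)) (hp _)

theorem ngF4_comm {v : GL chevF4.Idx F} {r : ℕ} (hp : ∀ c, Commute (X r c) v)
    (hn : ∀ c, Commute (X (chevF4.neg r) c) v) (u : F) : Commute ((relsF4 F).ng r u) v := by
  rw [(relsF4 F).ng_eq]
  exact ((hp _).mul_left (hn _)).mul_left (hp _)

theorem prodF4 (c : Fin chevF4.rank → Fˣ) (r : ℕ) : ∏ i : Fin chevF4.rank, c i ^ chevF4.cartan i r =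
    c ⟨0, by decide⟩ ^ chevF4.cartan 0 r * c ⟨1, by decide⟩ ^ chevF4.cartan 1 r *
      c ⟨2, by decide⟩ ^ chevF4.cartan 2 r * c ⟨3, by decide⟩ ^ chevF4.cartan 3 r :=
  Fin.prod_univ_four (fun i : Fin 4 => c i ^ chevF4.cartan i r)

end

end Cfsg.Agent.Chev
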