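import Cfsg.Agent.Chev.CentF4b

/-!
# Centralizers of the mixed involutions of `F₄` in characteristic 2, II
-/

set_option autoImplicit false
set_option linter.unusedSectionVars false
set_option linter.unusedVariables false
set_option maxRecDepth 1000000

namespace Cfsg.Agent.Chev
open Cfsg.Lie
open scoped MatrixGroups

section
variable {F : Type*} [Field F] [CharP F 2]

local notation "X" => Rels.xg (relsF4 F)

theorem commU44 {u : GL chevF4.Idx F} (hu : u ∈ chevF4.posUnipotent F) (a : F) : Commute u (X 44 a) := by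
  have : chevF4.posUnipotent F ≤ Subgroup.centralizer {X 44 a} := by
    rw [← UU_pos]
    apply (relsF4 F).UU_le
    intro s hs c
    obtain ⟨h1, h2⟩ := (goodF4.isPosRoot_iff s).mp hs
    exact Subgroup.mem_centralizer_singleton_iff.mpr (comm_of_ok (commOK44.1 s h2 h1) c a)
  exact Subgroup.mem_centralizer_singleton_iff.mp (this hu)

theorem xg_mem_UF4 {r : ℕ} (h1 : 24 ≤ r) (h2 : r < 48) (a : F) : X r a ∈ chevF4.posUnipotent F := by
  rw [← UU_pos]
  exact (relsF4 F).xg_mem_UU ((goodF4.isPosRoot_iff r).mpr ⟨h1, h2⟩) a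

theorem centF4_w_le {M : Subgroup (GL chevF4.Idx F)} (hU : chevF4.posUnipotent F ≤ M)
    (h20 : ∀ c, X 20 c ∈ M) (h22 : ∀ c, X 22 c ∈ M) {g : GL chevF4.Idx F} (hg : g ∈ chevF4.group F)
    (hc : Commute g (X 47 1 * X 44 1)) : g ∈ M := by
  have hcT : ∀ r ∈ [44, 47], ∀ s ∈ [44, 47], ∀ t u : F, Commute (X r t) (X s u) := by
    have key : ∀ r ∈ [44, 47], ∀ s ∈ [44, 47], CommOK r s := by decide +kernel
    exact fun r hr s hs t u => comm_of_ok (key r hr s hs) t u
  have hT : ∀ r ∈ [44, 47], chevF4.nroots / 2 ≤ r ∧ r < chevF4.nroots := by decide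
  have hv : ∀ A B : F, X 47 A * X 44 B = (relsF4 F).prodL (fun r => if r = 44 then B else A) [44, 47] := by
    intro A B
    simp only [Rels.prodL_cons, Rels.prodL_nil, mul_one]
    norm_num
    exact (hcT 47 (by simp) 44 (by simp) A B).eq
  have hvU : ∀ u ∈ chevF4.posUnipotent F, Commute u (X 47 1 * X 44 1) :=
    fun u hu => ((relsF4 F).hi_comm_U hiOKF4 hu 1).mul_right (commU44 hu 1)
  have c20 : ∀ c, Commute (X 20 c) (X 47 1 * X 44 1) := fun c =>
    ((relsF4 F).hi_comm_neg hiOKF4 (i := 1) (by simp) c 1).mul_right (comm_of_ok commOK44.2.1 c 1)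
  have c22 : ∀ c, Commute (X 22 c) (X 47 1 * X 44 1) := fun c =>
    ((relsF4 F).hi_comm_neg hiOKF4 (i := 2) (by simp) c 1).mul_right (comm_of_ok commOK44.2.2.1 c 1)
  have hngM : ∀ i ∈ [1, 2], ∀ u : F, (relsF4 F).ng (chevF4.simple i) u ∈ M := by
    intro i hi u
    simp only [List.mem_cons, List.not_mem_nil, or_false] at hi
    rcases hi with rfl | rfl
    · exact ngF4_mem (r := 27) (fun c => hU (xg_mem_UF4 (by norm_num) (by norm_num) c)) h20 u
    · exact ngF4_mem (r := 25) (fun c => hU (xg_mem_UF4 (by norm_num) (by norm_num) c)) h22 u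
  have hngC : ∀ i ∈ [1, 2], Commute ((relsF4 F).ng (chevF4.simple i) 1) (X 47 1 * X 44 1) := by
    intro i hi
    simp only [List.mem_cons, List.not_mem_nil, or_false] at hi
    rcases hi with rfl | rfl
    · exact ngF4_comm (r := 27) (fun c => hvU _ (xg_mem_UF4 (by norm_num) (by norm_num) c)) c20 1
    · exact ngF4_comm (r := 25) (fun c => hvU _ (xg_mem_UF4 (by norm_num) (by norm_num) c)) c22 1
  refine (relsF4 F).cent_le_gen good2F4 _ M [44, 47] (by decide) hT hcT 47 44 (by simp) (by simp) ?_ ?_ ?_ hg hc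
  · intro u hu
    refine ⟨fun r => if r = 44 then 1 else 1, by simp, by simp, ?_⟩
    rw [← hv, (hvU u hu).eq, mul_inv_cancel_right]
  · intro σ hw k1 k2
    constructor
    · obtain ⟨one, step⟩ := stab_repF4 [1, 2] M (X 47 1 * X 44 1) (fun i hi => ⟨hngM i hi 1, hngC i hi⟩)
      exact stabF4 47 44 [1, 2] [0, 3] [44, 47] ⟨by decide, by decide⟩ (by decide) detEF4 posEF4
        (by decide +kernel) _ one step σ hw k1 k2
    · intro x hx
      have hxU : x ∈ chevF4.posUnipotent F := by
        rw [← UU_pos]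
        exact UU_mono (fun s hs => (goodF4.isPosRoot_iff s).mpr ⟨hs.2.1, hs.1⟩) hx
      exact ⟨hU hxU, Subgroup.mem_centralizer_singleton_iff.mpr (hvU x hxU)⟩
  · intro b hb hcb
    obtain ⟨u1, hu1, h, hh, rfl⟩ := exists_mul_of_mem_sup (relsF4 F).H_le_normalizer_U hb
    have hhc : Commute h (X 47 1 * X 44 1) := by
      have := (hvU u1 hu1).inv_left.mul_left hcb
      rwa [inv_mul_cancel_left] at this
    apply Subgroup.mul_mem _ (hU hu1)
    rw [← (relsF4 F).range_tor] at hh
    obtain ⟨c, rfl⟩ := hh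
    have htau : ((diagG chevF4.Idx F).comp (kap chevF4 F)) c = tau chevF4 F c := rfl
    rw [htau] at hhc ⊢
    have t47 := (relsF4 F).tau_conj c (r := 47) (by decide) 1
    have t44 := (relsF4 F).tau_conj c (r := 44) (by decide) 1
    have e47 : (∏ i : Fin chevF4.rank, c i ^ chevF4.cartan i 47) = c ⟨3, by decide⟩ := by
      rw [prodF4, show chevF4.cartan 0 47 = 0 from by decide +kernel, show chevF4.cartan 1 47 = 0 from by decide +kernel,
        show chevF4.cartan 2 47 = 0 from by decide +kernel, show chevF4.cartan 3 47 = 1 from by decide +kernel]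
      simp
    have e44 : (∏ i : Fin chevF4.rank, c i ^ chevF4.cartan i 44) = c ⟨0, by decide⟩ := by
      rw [prodF4, show chevF4.cartan 0 44 = 1 from by decide +kernel, show chevF4.cartan 1 44 = 0 from by decide +kernel,
        show chevF4.cartan 2 44 = 0 from by decide +kernel, show chevF4.cartan 3 44 = 0 from by decide +kernel]
      simp
    rw [e47, mul_one] at t47
    rw [e44, mul_one] at t44
    have e : X 47 (c ⟨3, by decide⟩ : F) * X 44 (c ⟨0, by decide⟩ : F) = X 47 1 * X 44 1 := by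
      apply mul_right_cancel (b := tau chevF4 F c)
      calc X 47 (c ⟨3, by decide⟩ : F) * X 44 (c ⟨0, by decide⟩ : F) * tau chevF4 F c
          = X 47 (c ⟨3, by decide⟩ : F) * (tau chevF4 F c * X 44 1) := by rw [t44, mul_assoc]
        _ = tau chevF4 F c * X 47 1 * X 44 1 := by rw [← mul_assoc, ← t47]
        _ = tau chevF4 F c * (X 47 1 * X 44 1) := mul_assoc _ _ _
        _ = _ := hhc.eq
    rw [hv, hv] at e
    have inj := (relsF4 F).prodL_T_inj good2F4 [44, 47] (by decide) hT hcT e
    have i44 := inj 44 (by simp)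
    have i47 := inj 47 (by simp)
    norm_num at i44 i47
    apply (relsF4 F).tau_mem_of M [1, 2] hngM
    intro i hi
    have hi4 : (i : ℕ) < 4 := i.2
    simp only [List.mem_cons, List.not_mem_nil, or_false, not_or] at hi
    have h03 : (i : ℕ) = 0 ∨ (i : ℕ) = 3 := by omega
    rcases h03 with h | h
    · have : i = ⟨0, by decide⟩ := Fin.ext h
      rw [this]; exact i44
    · have : i = ⟨3, by decide⟩ := Fin.ext h
      rw [this]; exact i47

theorem centF4_w (w : GL chevF4.Idx F)
    (hw : (w : Matrix chevF4.Idx chevF4.Idx F) = chevF4.x F 47 1 * chevF4.x F 44 1) :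
    chevF4.group F ⊓ Subgroup.centralizer {w} =
      chevF4.posUnipotent F ⊔ chevF4.rootSubgroup F 20 ⊔ chevF4.rootSubgroup F 22 := by
  have hw' : w = X 47 1 * X 44 1 := Units.ext hw
  subst hw'
  apply le_antisymm
  · rintro g ⟨hg, hc⟩
    exact centF4_w_le (le_sup_of_le_left le_sup_left)
      (fun c => Subgroup.mem_sup_left (Subgroup.mem_sup_right ((relsF4 F).xg_mem_rootSubgroup 20 c)))
      (fun c => Subgroup.mem_sup_right ((relsF4 F).xg_mem_rootSubgroup 22 c)) hg
      (Subgroup.mem_centralizer_singleton_iff.mp hc)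
  · refine sup_le (sup_le ?_ ?_) ?_
    · intro u hu
      exact ⟨(relsF4 F).U_le_group hu, Subgroup.mem_centralizer_singleton_iff.mpr
        (((relsF4 F).hi_comm_U hiOKF4 hu 1).mul_right (commU44 hu 1))⟩
    · apply (relsF4 F).rootSubgroup_le
      intro c
      exact ⟨(relsF4 F).xg_mem_group _ _, Subgroup.mem_centralizer_singleton_iff.mpr
        (((relsF4 F).hi_comm_neg hiOKF4 (i := 1) (by simp) c 1).mul_right (comm_of_ok commOK44.2.1 c 1))⟩
    · apply (relsF4 F).rootSubgroup_le
      intro c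
      exact ⟨(relsF4 F).xg_mem_group _ _, Subgroup.mem_centralizer_singleton_iff.mpr
        (((relsF4 F).hi_comm_neg hiOKF4 (i := 2) (by simp) c 1).mul_right (comm_of_ok commOK44.2.2.1 c 1))⟩

end

end Cfsg.Agent.Chev
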