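import Cfsg.Agent.Chev.CentF4c

/-!
# Centralizers of the mixed involutions of `F₄` in characteristic 2, III
-/

set_option autoImplicit false
set_option linter.unusedSectionVars false
set_option linter.unusedVariables false
set_option maxRecDepth 1000000

namespace Cfsg.Agent.Chev
open Cfsg.Lie
open scoped MatrixGroups

def restF4 : List ℕ := [24, 28, 29, 30, 31, 32, 33, 35, 36, 37, 38, 39, 40, 41, 42, 43, 44, 45, 46, 47]

def LvF4 : List ℕ := 27 :: 25 :: 34 :: 26 :: restF4

theorem LvF4_sc : SC chevF4 LvF4 := by decide +kernel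

theorem mem_LvF4 (r : ℕ) : r ∈ LvF4 ↔ chevF4.nroots / 2 ≤ r ∧ r < chevF4.nroots := by
  show r ∈ LvF4 ↔ 24 ≤ r ∧ r < 48
  simp only [LvF4, restF4, List.mem_cons, List.not_mem_nil, or_false]
  omega

theorem restF4_comm : ∀ r ∈ restF4, CommOK r 39 ∧ CommOK r 45 := by decide +kernel

theorem T2F4_comm : ∀ r ∈ [39, 40, 44, 45, 46, 47], ∀ s ∈ [39, 40, 44, 45, 46, 47], CommOK r s := by decide +kernel

theorem EF4_comm : ∀ r ∈ [27, 25, 34, 26], ∀ s ∈ [40, 44, 46, 47], CommOK r s := by decide +kernel

theorem LevF4_comm : ∀ r ∈ [33, 14, 24, 23], CommOK r 39 ∧ CommOK r 45 := by decide +kernel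

/-- the coefficients of a conjugate -/
def cfF4 {F : Type*} [Field F] (A B a b c d : F) : ℕ → F := fun r =>
  if r = 39 then A else if r = 45 then B else if r = 40 then a * A else if r = 46 then b * B
  else if r = 44 then c * A else d * B

section
variable {F : Type*} [Field F]

local notation "X" => Rels.xg (relsF4 F)

theorem swap1F4 {r s k : ℕ} {N : ℤ} (hr : r < 48) (hs : s < 48) (h1 : s ≠ r) (h2 : s ≠ chevF4.neg r)
    (e : chevF4.commTerms r s = [(k, N, 1, 1)]) (c a : F) :
    X r c * X s a = X s a * X k ((N : F) * c * a) * X r c := by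
  have h3 := (relsF4 F).comm_g (r := r) (s := s) hr hs h1 h2 (-c) a
  unfold ChevalleyDatum.commWord at h3
  rw [e] at h3
  simp only [List.map_cons, List.map_nil, Rels.wg_cons, Rels.wg_nil, mul_one] at h3
  have e1 : (N : F) * (- -c) ^ 1 * a ^ 1 = (N : F) * c * a := by ring
  rw [e1, (relsF4 F).xg_inv, neg_neg] at h3
  calc X r c * X s a = (X r c * X s a * X r (-c)) * X r c := by
        rw [mul_assoc _ (X r (-c)), (relsF4 F).xg_add, neg_add_cancel, (relsF4 F).xg_zero, mul_one]
    _ = _ := by rw [h3]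

end

section
variable {F : Type*} [Field F] [CharP F 2]

local notation "X" => Rels.xg (relsF4 F)

theorem conj4F4 (A B a b c d : F) (q : GL chevF4.Idx F) (hq : Commute q (X 39 A * X 45 B)) :
    (X 27 a * (X 25 b * (X 34 c * (X 26 d * q)))) * (X 39 A * X 45 B) =
    (X 39 A * X 45 B * X 40 (a * A) * X 46 (b * B) * X 44 (c * A) * X 47 (d * B)) *
      (X 27 a * (X 25 b * (X 34 c * (X 26 d * q)))) := by
  have C : ∀ {r s : ℕ}, CommOK r s → ∀ t u : F, X r t * X s u = X s u * X r t := fun h t u => (comm_of_ok h t u).eq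
  have s26 : X 26 d * X 45 B = X 45 B * X 47 (d * B) * X 26 d := by
    have := swap1F4 (F := F) (r := 26) (s := 45) (k := 47) (N := 1) (by decide) (by decide) (by decide)
      (by decide +kernel) (by decide +kernel) d B
    simpa using this
  have s25 : X 25 b * X 45 B = X 45 B * X 46 (b * B) * X 25 b := by
    have := swap1F4 (F := F) (r := 25) (s := 45) (k := 46) (N := 1) (by decide) (by decide) (by decide)
      (by decide +kernel) (by decide +kernel) b B
    simpa using this
  have s34 : X 34 c * X 39 A = X 39 A * X 44 (c * A) * X 34 c := by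
    have := swap1F4 (F := F) (r := 34) (s := 39) (k := 44) (N := 1) (by decide) (by decide) (by decide)
      (by decide +kernel) (by decide +kernel) c A
    simpa using this
  have s27 : X 27 a * X 39 A = X 39 A * X 40 (a * A) * X 27 a := by
    have := swap1F4 (F := F) (r := 27) (s := 39) (k := 40) (N := 1) (by decide) (by decide) (by decide)
      (by decide +kernel) (by decide +kernel) a A
    simpa using this
  have k26 : X 26 d * (X 39 A * X 45 B) = (X 39 A * X 45 B) * X 47 (d * B) * X 26 d := by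
    rw [← mul_assoc, C (r := 26) (s := 39) (by decide +kernel), mul_assoc, s26]
    simp only [mul_assoc]
  have k25 : X 25 b * (X 39 A * X 45 B) = (X 39 A * X 45 B) * X 46 (b * B) * X 25 b := by
    rw [← mul_assoc, C (r := 25) (s := 39) (by decide +kernel), mul_assoc, s25]
    simp only [mul_assoc]
  have k34 : X 34 c * (X 39 A * X 45 B) = (X 39 A * X 45 B) * X 44 (c * A) * X 34 c := by
    rw [← mul_assoc, s34, mul_assoc, C (r := 34) (s := 45) (by decide +kernel), mul_assoc (X 39 A),
      ← mul_assoc (X 44 (c * A)), C (r := 44) (s := 45) (by decide +kernel)]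
    simp only [mul_assoc]
  have k27 : X 27 a * (X 39 A * X 45 B) = (X 39 A * X 45 B) * X 40 (a * A) * X 27 a := by
    rw [← mul_assoc, s27, mul_assoc, C (r := 27) (s := 45) (by decide +kernel), mul_assoc (X 39 A),
      ← mul_assoc (X 40 (a * A)), C (r := 40) (s := 45) (by decide +kernel)]
    simp only [mul_assoc]
  set y := X 39 A * X 45 B with hy
  have E := EF4_comm
  calc X 27 a * (X 25 b * (X 34 c * (X 26 d * q))) * y
      = X 27 a * (X 25 b * (X 34 c * (X 26 d * (q * y)))) := by simp only [mul_assoc]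
    _ = X 27 a * (X 25 b * (X 34 c * ((X 26 d * y) * q))) := by rw [hq.eq]; simp only [mul_assoc]
    _ = X 27 a * (X 25 b * ((X 34 c * y) * X 47 (d * B) * X 26 d * q)) := by rw [k26]; simp only [mul_assoc]
    _ = X 27 a * ((X 25 b * y) * X 44 (c * A) * (X 34 c * X 47 (d * B)) * X 26 d * q) := by
        rw [k34]; simp only [mul_assoc]
    _ = X 27 a * ((X 25 b * y) * X 44 (c * A) * X 47 (d * B) * X 34 c * X 26 d * q) := by
        rw [C (E 34 (by simp) 47 (by simp))]; simp only [mul_assoc]
    _ = (X 27 a * y) * X 46 (b * B) * (X 25 b * X 44 (c * A)) * X 47 (d * B) * X 34 c * X 26 d * q := by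
        rw [k25]; simp only [mul_assoc]
    _ = (X 27 a * y) * X 46 (b * B) * X 44 (c * A) * (X 25 b * X 47 (d * B)) * X 34 c * X 26 d * q := by
        rw [C (E 25 (by simp) 44 (by simp))]; simp only [mul_assoc]
    _ = (X 27 a * y) * X 46 (b * B) * X 44 (c * A) * X 47 (d * B) * X 25 b * X 34 c * X 26 d * q := by
        rw [C (E 25 (by simp) 47 (by simp))]; simp only [mul_assoc]
    _ = y * X 40 (a * A) * (X 27 a * X 46 (b * B)) * X 44 (c * A) * X 47 (d * B) * X 25 b * X 34 c * X 26 d * q := by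
        rw [k27]; simp only [mul_assoc]
    _ = y * X 40 (a * A) * X 46 (b * B) * (X 27 a * X 44 (c * A)) * X 47 (d * B) * X 25 b * X 34 c * X 26 d * q := by
        rw [C (E 27 (by simp) 46 (by simp))]; simp only [mul_assoc]
    _ = y * X 40 (a * A) * X 46 (b * B) * X 44 (c * A) * (X 27 a * X 47 (d * B)) * X 25 b * X 34 c * X 26 d * q := by
        rw [C (E 27 (by simp) 44 (by simp))]; simp only [mul_assoc]
    _ = _ := by rw [C (E 27 (by simp) 47 (by simp))]; simp only [mul_assoc]

theorem prodL_cfF4 (A B a b c d : F) : (relsF4 F).prodL (cfF4 A B a b c d) [39, 40, 44, 45, 46, 47] =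
    X 39 A * X 45 B * X 40 (a * A) * X 46 (b * B) * X 44 (c * A) * X 47 (d * B) := by
  have hp : ([39, 40, 44, 45, 46, 47] : List ℕ).Perm [39, 45, 40, 46, 44, 47] := by decide
  rw [(relsF4 F).prodL_perm _ hp (fun r hr s hs => comm_of_ok (T2F4_comm r hr s hs) _ _)]
  simp only [Rels.prodL_cons, Rels.prodL_nil, mul_one, cfF4]
  norm_num
  simp only [mul_assoc]

theorem conjU_F4 {u : GL chevF4.Idx F} (hu : u ∈ chevF4.posUnipotent F) :
    ∃ a b c d : F, ∃ q ∈ UU chevF4 F (fun s => s ∈ restF4), u = X 27 a * (X 25 b * (X 34 c * (X 26 d * q))) ∧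
      ∀ A B : F, u * (X 39 A * X 45 B) * u⁻¹ = (relsF4 F).prodL (cfF4 A B a b c d) [39, 40, 44, 45, 46, 47] := by
  have hneg : ∀ r ∈ LvF4, - goodF4.ht r < 0 := by
    intro r hr
    have h := (mem_LvF4 r).mp hr
    have := (goodF4.ht_pos_iff h.2).mpr h.1
    omega
  have hU : chevF4.posUnipotent F = UU chevF4 F (fun s => s ∈ LvF4 ∧ - goodF4.ht s < 0) := by
    rw [← UU_pos]
    apply UU_congr
    intro s
    rw [goodF4.isPosRoot_iff, ← mem_LvF4]
    exact ⟨fun h => ⟨h, hneg s h⟩, fun h => h.1⟩
  rw [hU] at hu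
  obtain ⟨t, _, rfl⟩ := (relsF4 F).exists_prodL negHtF4_addFn LvF4 LvF4_sc (fun r hr => (mem_LvF4 r).mp hr) u hu
  have hq : (relsF4 F).prodL t restF4 ∈ UU chevF4 F (fun s => s ∈ restF4) :=
    (relsF4 F).prodL_mem t restF4 (fun r hr => Or.inl hr)
  refine ⟨t 27, t 25, t 34, t 26, (relsF4 F).prodL t restF4, hq, ?_, ?_⟩
  · simp only [LvF4, Rels.prodL_cons]
  · intro A B
    have hqc : Commute ((relsF4 F).prodL t restF4) (X 39 A * X 45 B) := by
      have : UU chevF4 F (fun s => s ∈ restF4) ≤ Subgroup.centralizer {X 39 A * X 45 B} := by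
        apply (relsF4 F).UU_le
        intro s hs c
        exact Subgroup.mem_centralizer_singleton_iff.mpr
          ((comm_of_ok (restF4_comm s hs).1 c A).mul_right (comm_of_ok (restF4_comm s hs).2 c B))
      exact Subgroup.mem_centralizer_singleton_iff.mp (this hq)
    have e : (relsF4 F).prodL t LvF4 =
        X 27 (t 27) * (X 25 (t 25) * (X 34 (t 34) * (X 26 (t 26) * (relsF4 F).prodL t restF4))) := by
      simp only [LvF4, Rels.prodL_cons]
    rw [e, conj4F4 A B _ _ _ _ _ hqc, mul_inv_cancel_right, prodL_cfF4]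

end

end Cfsg.Agent.Chev
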