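import Cfsg.Agent.Chev.CentF4d

/-!
# Centralizers of the mixed involutions of `F₄` in characteristic 2, IV
-/

set_option autoImplicit false
set_option linter.unusedSectionVars false
set_option linter.unusedVariables false
set_option maxRecDepth 1000000

namespace Cfsg.Agent.Chev
open Cfsg.Lie
open scoped MatrixGroups

theorem restF4_ok : ∀ s ∈ restF4, 24 ≤ s ∧ s < 48 ∧ s ∉ [27, 25, 34, 26] := by decide

theorem goodF4_tab : ∀ i ∈ [0, 3], ∀ s < 48, (24 ≤ s ∧ s ≠ 33 ∧ s ≠ 24) →
    (24 ≤ chevF4.reflectRoot i s ∧ chevF4.reflectRoot i s ≠ 33 ∧ chevF4.reflectRoot i s ≠ 24) := by decide +kernel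

theorem posCommF4 : ∀ r < 48, 24 ≤ r → r ∉ [27, 25, 34, 26] → CommOK r 39 ∧ CommOK r 45 := by decide +kernel

section
variable {F : Type*} [Field F] [CharP F 2]

local notation "X" => Rels.xg (relsF4 F)

theorem centF4_v_le {M : Subgroup (GL chevF4.Idx F)}
    (hM : ∀ r, 24 ≤ r → r < 48 → r ∉ [27, 25, 34, 26] → ∀ c, X r c ∈ M)
    (h14 : ∀ c, X 14 c ∈ M) (h23 : ∀ c, X 23 c ∈ M) {g : GL chevF4.Idx F} (hg : g ∈ chevF4.group F)
    (hc : Commute g (X 39 1 * X 45 1)) : g ∈ M := by
  have hcT : ∀ r ∈ [39, 40, 44, 45, 46, 47], ∀ s ∈ [39, 40, 44, 45, 46, 47], ∀ t u : F,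
      Commute (X r t) (X s u) := fun r hr s hs t u => comm_of_ok (T2F4_comm r hr s hs) t u
  have hT : ∀ r ∈ [39, 40, 44, 45, 46, 47], chevF4.nroots / 2 ≤ r ∧ r < chevF4.nroots := by decide
  have hrest : UU chevF4 F (fun s => s ∈ restF4) ≤ M := by
    apply (relsF4 F).UU_le
    intro s hs c
    obtain ⟨a1, a2, a3⟩ := restF4_ok s hs
    exact hM s a1 a2 a3 c
  have cLev : ∀ r ∈ [33, 14, 24, 23], ∀ c, Commute (X r c) (X 39 1 * X 45 1) := fun r hr c =>
    (comm_of_ok (LevF4_comm r hr).1 c 1).mul_right (comm_of_ok (LevF4_comm r hr).2 c 1)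
  have hngM : ∀ i ∈ [0, 3], ∀ u : F, (relsF4 F).ng (chevF4.simple i) u ∈ M := by
    intro i hi u
    simp only [List.mem_cons, List.not_mem_nil, or_false] at hi
    rcases hi with rfl | rfl
    · exact ngF4_mem (r := 33) (hM 33 (by norm_num) (by norm_num) (by decide)) h14 u
    · exact ngF4_mem (r := 24) (hM 24 (by norm_num) (by norm_num) (by decide)) h23 u
  have hngC : ∀ i ∈ [0, 3], Commute ((relsF4 F).ng (chevF4.simple i) 1) (X 39 1 * X 45 1) := by
    intro i hi
    simp only [List.mem_cons, List.not_mem_nil, or_false] at hi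
    rcases hi with rfl | rfl
    · exact ngF4_comm (r := 33) (cLev 33 (by simp)) (cLev 14 (by simp)) 1
    · exact ngF4_comm (r := 24) (cLev 24 (by simp)) (cLev 23 (by simp)) 1
  refine (relsF4 F).cent_le_gen good2F4 _ M [39, 40, 44, 45, 46, 47] (by decide) hT hcT 39 45 (by simp) (by simp)
    ?_ ?_ ?_ hg hc
  · intro u hu
    obtain ⟨a, b, c, d, q, hq, _, hconj⟩ := conjU_F4 hu
    exact ⟨cfF4 1 1 a b c d, by simp [cfF4], by simp [cfF4], hconj 1 1⟩
  · intro σ hw k1 k2
    constructor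
    · obtain ⟨one, step⟩ := stab_repF4 [0, 3] M (X 39 1 * X 45 1) (fun i hi => ⟨hngM i hi 1, hngC i hi⟩)
      exact stabF4 39 45 [0, 3] [1, 2] [39, 40, 44, 45, 46, 47] ⟨by decide, by decide⟩ (by decide) detFF4 posFF4
        (by decide +kernel) _ one step σ hw k1 k2
    · have good := stabF4 39 45 [0, 3] [1, 2] [39, 40, 44, 45, 46, 47] ⟨by decide, by decide⟩ (by decide)
        detFF4 posFF4 (by decide +kernel)
        (fun σ => ∀ s : Fin chevF4.nroots, (24 ≤ (s : ℕ) ∧ (s : ℕ) ≠ 33 ∧ (s : ℕ) ≠ 24) →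
          (24 ≤ ((σ s : Fin chevF4.nroots) : ℕ) ∧ ((σ s : Fin chevF4.nroots) : ℕ) ≠ 33 ∧
            ((σ s : Fin chevF4.nroots) : ℕ) ≠ 24))
        (fun s h => h)
        (by
          intro σ i hi hi' ih s hs
          rw [Equiv.Perm.mul_apply]
          apply ih
          rw [goodF4.wP_apply]
          exact goodF4_tab i hi s s.2 hs) σ hw k1 k2
      apply (relsF4 F).UU_le
      rintro s ⟨a1, a2, a3⟩ c
      have a3' : ((σ ⟨s, a1⟩ : Fin chevF4.nroots) : ℕ) < 24 := a3
      have hs : s = 33 ∨ s = 24 := by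
        by_contra hne
        rw [not_or] at hne
        have := (good ⟨s, a1⟩ ⟨a2, hne.1, hne.2⟩).1
        omega
      rcases hs with rfl | rfl
      · exact ⟨hM 33 (by norm_num) (by norm_num) (by decide) c,
          Subgroup.mem_centralizer_singleton_iff.mpr (cLev 33 (by simp) c)⟩
      · exact ⟨hM 24 (by norm_num) (by norm_num) (by decide) c,
          Subgroup.mem_centralizer_singleton_iff.mpr (cLev 24 (by simp) c)⟩
  · intro b hb hcb
    obtain ⟨u1, hu1, h, hh, rfl⟩ := exists_mul_of_mem_sup (relsF4 F).H_le_normalizer_U hb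
    obtain ⟨a, b, c, d, q, hq, eu, hconj⟩ := conjU_F4 hu1
    rw [← (relsF4 F).range_tor] at hh
    obtain ⟨cc, rfl⟩ := hh
    have htau : ((diagG chevF4.Idx F).comp (kap chevF4 F)) cc = tau chevF4 F cc := rfl
    rw [htau] at hcb ⊢
    have t39 := (relsF4 F).tau_conj cc (r := 39) (by decide) 1
    have t45 := (relsF4 F).tau_conj cc (r := 45) (by decide) 1
    have e39 : (∏ i : Fin chevF4.rank, cc i ^ chevF4.cartan i 39) = (cc ⟨1, by decide⟩)⁻¹ * cc ⟨2, by decide⟩ := by
      rw [prodF4, show chevF4.cartan 0 39 = 0 from by decide +kernel, show chevF4.cartan 1 39 = -1 from by decide +kernel,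
        show chevF4.cartan 2 39 = 1 from by decide +kernel, show chevF4.cartan 3 39 = 0 from by decide +kernel]
      simp
    have e45 : (∏ i : Fin chevF4.rank, cc i ^ chevF4.cartan i 45) =
        (cc ⟨1, by decide⟩) ^ 2 * (cc ⟨2, by decide⟩)⁻¹ := by
      rw [prodF4, show chevF4.cartan 0 45 = 0 from by decide +kernel, show chevF4.cartan 1 45 = 2 from by decide +kernel,
        show chevF4.cartan 2 45 = -1 from by decide +kernel, show chevF4.cartan 3 45 = 0 from by decide +kernel]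
      simp
    rw [e39, mul_one] at t39
    rw [e45, mul_one] at t45
    set A : F := (((cc ⟨1, by decide⟩)⁻¹ * cc ⟨2, by decide⟩ : Fˣ) : F) with hA
    set B : F := (((cc ⟨1, by decide⟩) ^ 2 * (cc ⟨2, by decide⟩)⁻¹ : Fˣ) : F) with hB
    have e1 : tau chevF4 F cc * (X 39 1 * X 45 1) = X 39 A * X 45 B * tau chevF4 F cc := by
      rw [← mul_assoc, t39, mul_assoc, t45, mul_assoc]
    have e2 : u1 * (X 39 A * X 45 B) * u1⁻¹ = X 39 1 * X 45 1 := by
      have e3 : u1 * (X 39 A * X 45 B) * tau chevF4 F cc = X 39 1 * X 45 1 * u1 * tau chevF4 F cc := by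
        rw [mul_assoc u1, ← e1, ← mul_assoc, hcb.eq]
        simp only [mul_assoc]
      have e4 := mul_right_cancel e3
      rw [e4, mul_inv_cancel_right]
    have e5 : X 39 1 * X 45 1 = (relsF4 F).prodL (cfF4 1 1 0 0 0 0) [39, 40, 44, 45, 46, 47] := by
      rw [prodL_cfF4]
      simp only [(relsF4 F).xg_zero, mul_one]
    rw [hconj, e5] at e2
    have inj := (relsF4 F).prodL_T_inj good2F4 [39, 40, 44, 45, 46, 47] (by decide) hT hcT e2
    have i39 := inj 39 (by simp)
    have i45 := inj 45 (by simp)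
    have i40 := inj 40 (by simp)
    have i46 := inj 46 (by simp)
    have i44 := inj 44 (by simp)
    have i47 := inj 47 (by simp)
    simp only [cfF4] at i39 i45 i40 i46 i44 i47
    norm_num at i39 i45 i40 i46 i44 i47
    rw [i39] at i40 i44
    rw [i45] at i46 i47
    simp only [one_ne_zero, or_false] at i40 i44 i46 i47
    apply Subgroup.mul_mem
    · rw [eu, i40, i46, i44, i47]
      simp only [(relsF4 F).xg_zero, one_mul]
      exact hrest hq
    · have u39 : (cc ⟨1, by decide⟩)⁻¹ * cc ⟨2, by decide⟩ = 1 := Units.ext i39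
      have u45 : (cc ⟨1, by decide⟩) ^ 2 * (cc ⟨2, by decide⟩)⁻¹ = 1 := Units.ext i45
      have c21 : cc ⟨2, by decide⟩ = cc ⟨1, by decide⟩ := (inv_mul_eq_one.mp u39).symm
      have c1 : cc ⟨1, by decide⟩ = 1 := by
        rw [c21, sq, mul_inv_cancel_right] at u45
        exact u45
      apply (relsF4 F).tau_mem_of M [0, 3] hngM
      intro i hi
      have hi4 : (i : ℕ) < 4 := i.2
      simp only [List.mem_cons, List.not_mem_nil, or_false, not_or] at hi
      have h12 : (i : ℕ) = 1 ∨ (i : ℕ) = 2 := by omega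
      rcases h12 with h | h
      · have : i = ⟨1, by decide⟩ := Fin.ext h
        rw [this]; exact c1
      · have : i = ⟨2, by decide⟩ := Fin.ext h
        rw [this, c21]; exact c1

theorem centF4_v (v : GL chevF4.Idx F)
    (hv : (v : Matrix chevF4.Idx chevF4.Idx F) = chevF4.x F 39 1 * chevF4.x F 45 1) :
    chevF4.group F ⊓ Subgroup.centralizer {v} = chevF4.rootSubgroup F 33 ⊔ chevF4.rootSubgroup F 14 ⊔
      chevF4.rootSubgroup F 24 ⊔ chevF4.rootSubgroup F 23 ⊔
      Subgroup.closure {g : GL chevF4.Idx F | ∃ (r : ℕ) (c : F), chevF4.IsPosRoot r ∧ r ∉ [27, 25, 34, 26] ∧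
        (g : Matrix chevF4.Idx chevF4.Idx F) = chevF4.x F r c} := by
  have hv' : v = X 39 1 * X 45 1 := Units.ext hv
  subst hv'
  have cLev : ∀ r ∈ [33, 14, 24, 23], ∀ c, Commute (X r c) (X 39 1 * X 45 1) := fun r hr c =>
    (comm_of_ok (LevF4_comm r hr).1 c 1).mul_right (comm_of_ok (LevF4_comm r hr).2 c 1)
  apply le_antisymm
  · rintro g ⟨hg, hc⟩
    refine centF4_v_le ?_ ?_ ?_ hg (Subgroup.mem_centralizer_singleton_iff.mp hc)
    · intro r h1 h2 h3 c
      apply Subgroup.mem_sup_right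
      apply Subgroup.subset_closure
      exact ⟨r, c, (goodF4.isPosRoot_iff r).mpr ⟨h1, h2⟩, h3, rfl⟩
    · exact fun c => Subgroup.mem_sup_left (Subgroup.mem_sup_left (Subgroup.mem_sup_left (Subgroup.mem_sup_right
        ((relsF4 F).xg_mem_rootSubgroup 14 c))))
    · exact fun c => Subgroup.mem_sup_left (Subgroup.mem_sup_right ((relsF4 F).xg_mem_rootSubgroup 23 c))
  · refine sup_le (sup_le (sup_le (sup_le ?_ ?_) ?_) ?_) ?_
    · apply (relsF4 F).rootSubgroup_le
      intro c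
      exact ⟨(relsF4 F).xg_mem_group _ _, Subgroup.mem_centralizer_singleton_iff.mpr (cLev 33 (by simp) c)⟩
    · apply (relsF4 F).rootSubgroup_le
      intro c
      exact ⟨(relsF4 F).xg_mem_group _ _, Subgroup.mem_centralizer_singleton_iff.mpr (cLev 14 (by simp) c)⟩
    · apply (relsF4 F).rootSubgroup_le
      intro c
      exact ⟨(relsF4 F).xg_mem_group _ _, Subgroup.mem_centralizer_singleton_iff.mpr (cLev 24 (by simp) c)⟩
    · apply (relsF4 F).rootSubgroup_le
      intro c
      exact ⟨(relsF4 F).xg_mem_group _ _, Subgroup.mem_centralizer_singleton_iff.mpr (cLev 23 (by simp) c)⟩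
    · rw [Subgroup.closure_le]
      rintro g ⟨r, c, h1, h2, h3⟩
      rw [((relsF4 F).eq_xg_iff _ _ _).mp h3]
      obtain ⟨p1, p2⟩ := (goodF4.isPosRoot_iff r).mp h1
      obtain ⟨k1, k2⟩ := posCommF4 r p2 p1 h2
      exact ⟨(relsF4 F).xg_mem_group _ _, Subgroup.mem_centralizer_singleton_iff.mpr
        ((comm_of_ok k1 c 1).mul_right (comm_of_ok k2 c 1))⟩

end

end Cfsg.Agent.Chev
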