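import Cfsg.Agent.Chev.Cent2
import Cfsg.Agent.Chev.TwG6

/-!
# Centralizers of root elements of `G₂` (characteristic not 3)
-/

set_option autoImplicit false
set_option linter.unusedSectionVars false
set_option linter.unusedVariables false
set_option maxRecDepth 1000000

namespace Cfsg.Agent.Chev
open Cfsg.Lie
open scoped MatrixGroups

/-- the Weyl group of `G₂` as lists of images -/
def WLG2 : List (List ℕ) :=
  [[0, 1, 2, 3, 4, 5, 6, 7, 8, 9, 10, 11], [0, 5, 3, 2, 7, 1, 10, 4, 9, 8, 6, 11], [1, 0, 2, 4, 3, 6, 5, 8, 7, 9, 11, 10],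
  [5, 0, 3, 7, 2, 10, 1, 9, 4, 8, 11, 6], [1, 6, 4, 2, 8, 0, 11, 3, 9, 7, 5, 10],
  [5, 10, 7, 3, 9, 0, 11, 2, 8, 4, 1, 6], [6, 1, 4, 8, 2, 11, 0, 9, 3, 7, 10, 5],
  [10, 5, 7, 9, 3, 11, 0, 8, 2, 4, 6, 1], [6, 11, 8, 4, 9, 1, 10, 2, 7, 3, 0, 5],
  [10, 11, 9, 7, 8, 5, 6, 3, 4, 2, 0, 1], [11, 6, 8, 9, 4, 10, 1, 7, 2, 3, 5, 0],
  [11, 10, 9, 8, 7, 6, 5, 4, 3, 2, 1, 0]]

theorem WLG2_step : ∀ l ∈ WLG2, ∀ i < 2, l.map (chevG2.reflectRoot i) ∈ WLG2 := by decide +kernel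

theorem W_enumG2 {w : Equiv.Perm (Fin chevG2.nroots)} (hw : w ∈ goodG2.W) :
    ∃ l ∈ WLG2, ∀ s : Fin chevG2.nroots, l.getD s 0 = ((w s : Fin chevG2.nroots) : ℕ) := by
  have h1 : ∃ l ∈ WLG2, ∀ s : Fin chevG2.nroots, l[(s : ℕ)]? = some ((w s : Fin chevG2.nroots) : ℕ) := by
    refine goodG2.W_ind_left (p := fun w => ∃ l ∈ WLG2, ∀ s : Fin chevG2.nroots,
      l[(s : ℕ)]? = some ((w s : Fin chevG2.nroots) : ℕ)) ?_ ?_ w hw
    · refine ⟨[0, 1, 2, 3, 4, 5, 6, 7, 8, 9, 10, 11], by decide, ?_⟩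
      have key : ∀ s < 12, ([0, 1, 2, 3, 4, 5, 6, 7, 8, 9, 10, 11] : List ℕ)[s]? = some s := by decide
      intro s
      exact key s s.2
    · rintro i hi σ _ ⟨l, hl, h⟩
      refine ⟨l.map (chevG2.reflectRoot i), WLG2_step l hl i hi, fun s => ?_⟩
      rw [Equiv.Perm.mul_apply, goodG2.wP_apply, List.getElem?_map, h s]
      rfl
  obtain ⟨l, hl, h⟩ := h1
  refine ⟨l, hl, fun s => ?_⟩
  rw [List.getD_eq_getElem?_getD, h s]
  rfl

theorem W_caseG2 {w : Equiv.Perm (Fin chevG2.nroots)} (hw : w ∈ goodG2.W) :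
    w = 1 ∨ w = goodG2.wP 1 (by decide) ∨ ((w ⟨9, by decide⟩ : Fin chevG2.nroots) : ℕ) < 6 ∨
    (((w ⟨9, by decide⟩ : Fin chevG2.nroots) : ℕ) = 7 ∧ ((w ⟨10, by decide⟩ : Fin chevG2.nroots) : ℕ) = 10 ∧
      ((w ⟨11, by decide⟩ : Fin chevG2.nroots) : ℕ) = 5) ∨
    (((w ⟨9, by decide⟩ : Fin chevG2.nroots) : ℕ) = 7 ∧ ((w ⟨10, by decide⟩ : Fin chevG2.nroots) : ℕ) = 5 ∧
      ((w ⟨11, by decide⟩ : Fin chevG2.nroots) : ℕ) = 10) ∨
    (((w ⟨9, by decide⟩ : Fin chevG2.nroots) : ℕ) = 8 ∧ ((w ⟨10, by decide⟩ : Fin chevG2.nroots) : ℕ) = 11 ∧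
      ((w ⟨11, by decide⟩ : Fin chevG2.nroots) : ℕ) = 6) ∨
    (((w ⟨9, by decide⟩ : Fin chevG2.nroots) : ℕ) = 8 ∧ ((w ⟨10, by decide⟩ : Fin chevG2.nroots) : ℕ) = 6 ∧
      ((w ⟨11, by decide⟩ : Fin chevG2.nroots) : ℕ) = 11) := by
  obtain ⟨l, hl, h⟩ := W_enumG2 hw
  have key : ∀ l ∈ WLG2, (∀ s < 12, l.getD s 0 = s) ∨ (∀ s < 12, l.getD s 0 = chevG2.reflectRoot 1 s) ∨
      l.getD 9 0 < 6 ∨ (l.getD 9 0 = 7 ∧ l.getD 10 0 = 10 ∧ l.getD 11 0 = 5) ∨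
      (l.getD 9 0 = 7 ∧ l.getD 10 0 = 5 ∧ l.getD 11 0 = 10) ∨
      (l.getD 9 0 = 8 ∧ l.getD 10 0 = 11 ∧ l.getD 11 0 = 6) ∨
      (l.getD 9 0 = 8 ∧ l.getD 10 0 = 6 ∧ l.getD 11 0 = 11) := by decide +kernel
  have h9 := h ⟨9, by decide⟩
  have h10 := h ⟨10, by decide⟩
  have h11 := h ⟨11, by decide⟩
  simp only at h9 h10 h11
  rw [← h9, ← h10, ← h11]
  rcases key l hl with k | k | k | k | k | k | k
  · left
    ext s
    rw [← h s, k s s.2]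
    rfl
  · right; left
    ext s
    rw [← h s, k s s.2]
    rfl
  · exact Or.inr (Or.inr (Or.inl k))
  · exact Or.inr (Or.inr (Or.inr (Or.inl k)))
  · exact Or.inr (Or.inr (Or.inr (Or.inr (Or.inl k))))
  · exact Or.inr (Or.inr (Or.inr (Or.inr (Or.inr (Or.inl k)))))
  · exact Or.inr (Or.inr (Or.inr (Or.inr (Or.inr (Or.inr k)))))

/-- commuting root subgroups, from the table -/
def CommEG2 (r s : ℕ) : Prop := r < 12 ∧ s < 12 ∧ s ≠ r ∧ s ≠ chevG2.neg r ∧ chevG2.commTerms r s = []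

instance (r s : ℕ) : Decidable (CommEG2 r s) := by unfold CommEG2; infer_instance

section
variable {F : Type*} [Field F]

local notation "X" => Rels.xg (relsG2 F)

theorem comm_of_EG2 {r s : ℕ} (h : CommEG2 r s) (t u : F) : Commute (X r t) (X s u) := by
  obtain ⟨h1, h2, h3, h4, h5⟩ := h
  exact (relsG2 F).xg_comm_of_terms h1 h2 h3 h4 h5 t u

theorem swap1G2 {r s k : ℕ} {N : ℤ} (hr : r < 12) (hs : s < 12) (h1 : s ≠ r) (h2 : s ≠ chevG2.neg r)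
    (e : chevG2.commTerms r s = [(k, N, 1, 1)]) (c a : F) :
    X r c * X s a = X s a * X k ((N : F) * c * a) * X r c := by
  have h3 := (relsG2 F).comm_g (r := r) (s := s) hr hs h1 h2 (-c) a
  unfold ChevalleyDatum.commWord at h3
  rw [e] at h3
  simp only [List.map_cons, List.map_nil, Rels.wg_cons, Rels.wg_nil, mul_one] at h3
  have e1 : (N : F) * (- -c) ^ 1 * a ^ 1 = (N : F) * c * a := by ring
  rw [e1, (relsG2 F).xg_inv, neg_neg] at h3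
  calc X r c * X s a = (X r c * X s a * X r (-c)) * X r c := by
        rw [mul_assoc _ (X r (-c)), (relsG2 F).xg_add, neg_add_cancel, (relsG2 F).xg_zero, mul_one]
    _ = _ := by rw [h3]

theorem PU_conj9 (c7 c6 c8 c9 c10 c11 a : F) : PU c7 c6 c8 c9 c10 c11 * X 9 a =
    X 9 a * X 10 (3 * c7 * a) * X 11 (3 * c8 * a) * PU c7 c6 c8 c9 c10 c11 := by
  have k11 : X 11 c11 * X 9 a = X 9 a * X 11 c11 := (comm_of_EG2 (by decide +kernel) _ _).eq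
  have k10 : X 10 c10 * X 9 a = X 9 a * X 10 c10 := (comm_of_EG2 (by decide +kernel) _ _).eq
  have k9 : X 9 c9 * X 9 a = X 9 a * X 9 c9 := by rw [(relsG2 F).xg_add, (relsG2 F).xg_add, add_comm]
  have k6 : X 6 c6 * X 9 a = X 9 a * X 6 c6 := (comm_of_EG2 (by decide +kernel) _ _).eq
  have k8 : X 8 c8 * X 9 a = X 9 a * X 11 (3 * c8 * a) * X 8 c8 := by
    have := swap1G2 (F := F) (r := 8) (s := 9) (k := 11) (N := 3) (by decide) (by decide) (by decide)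
      (by decide +kernel) (by decide +kernel) c8 a
    push_cast at this
    exact this
  have k7 : X 7 c7 * X 9 a = X 9 a * X 10 (3 * c7 * a) * X 7 c7 := by
    have := swap1G2 (F := F) (r := 7) (s := 9) (k := 10) (N := 3) (by decide) (by decide) (by decide)
      (by decide +kernel) (by decide +kernel) c7 a
    push_cast at this
    exact this
  have z6 : X 6 c6 * X 11 (3 * c8 * a) = X 11 (3 * c8 * a) * X 6 c6 := (comm_of_EG2 (by decide +kernel) _ _).eq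
  have z7 : X 7 c7 * X 11 (3 * c8 * a) = X 11 (3 * c8 * a) * X 7 c7 := (comm_of_EG2 (by decide +kernel) _ _).eq
  unfold PU
  calc X 7 c7 * X 6 c6 * X 8 c8 * X 9 c9 * X 10 c10 * X 11 c11 * X 9 a
      = X 7 c7 * X 6 c6 * X 8 c8 * X 9 c9 * X 10 c10 * (X 11 c11 * X 9 a) := by simp only [mul_assoc]
    _ = X 7 c7 * X 6 c6 * X 8 c8 * X 9 c9 * (X 10 c10 * X 9 a) * X 11 c11 := by rw [k11]; simp only [mul_assoc]
    _ = X 7 c7 * X 6 c6 * X 8 c8 * (X 9 c9 * X 9 a) * X 10 c10 * X 11 c11 := by rw [k10]; simp only [mul_assoc]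
    _ = X 7 c7 * X 6 c6 * (X 8 c8 * X 9 a) * X 9 c9 * X 10 c10 * X 11 c11 := by rw [k9]; simp only [mul_assoc]
    _ = X 7 c7 * (X 6 c6 * X 9 a) * X 11 (3 * c8 * a) * X 8 c8 * X 9 c9 * X 10 c10 * X 11 c11 := by
        rw [k8]; simp only [mul_assoc]
    _ = (X 7 c7 * X 9 a) * (X 6 c6 * X 11 (3 * c8 * a)) * X 8 c8 * X 9 c9 * X 10 c10 * X 11 c11 := by
        rw [k6]; simp only [mul_assoc]
    _ = X 9 a * X 10 (3 * c7 * a) * (X 7 c7 * X 11 (3 * c8 * a)) * X 6 c6 * X 8 c8 * X 9 c9 * X 10 c10 *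
          X 11 c11 := by rw [k7, z6]; simp only [mul_assoc]
    _ = _ := by rw [z7]; simp only [mul_assoc]

theorem T3_eq (a b c : F) : X 9 a * X 10 b * X 11 c = PU 0 0 0 a b c := by
  simp only [PU, (relsG2 F).xg_zero, one_mul]

theorem T3_inj [Fintype F] {a b c a' b' c' : F} (h : X 9 a * X 10 b * X 11 c = X 9 a' * X 10 b' * X 11 c') :
    a = a' ∧ b = b' ∧ c = c' := by
  rw [T3_eq, T3_eq] at h
  exact (PU_inj h).2.2.2

theorem T3_mem_U (a b c : F) : X 9 a * X 10 b * X 11 c ∈ chevG2.posUnipotent F := by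
  rw [T3_eq]; exact PU_mem_U _ _ _ _ _ _

theorem xg_mem_VG2 {r : ℕ} (hr : r < 6) (a : F) : X r a ∈ chevG2.negUnipotent F := by
  rw [← UU_neg]
  exact (relsG2 F).xg_mem_UU ((goodG2.isNegRoot_iff r).mpr hr) a

theorem xg_mem_UG2 {r : ℕ} (h1 : 6 ≤ r) (h2 : r < 12) (a : F) : X r a ∈ chevG2.posUnipotent F := by
  rw [← UU_pos]
  exact (relsG2 F).xg_mem_UU ((goodG2.isPosRoot_iff r).mpr ⟨h1, h2⟩) a

theorem T7G2 [Fintype F] {c p q α β : F} (e : X 7 c * X 10 p * X 5 q = X 9 1 * X 10 α * X 11 β) : c = 0 := by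
  have hq : X 5 q ∈ chevG2.borelSubgroup F ⊓ chevG2.negUnipotent F := by
    refine ⟨(relsG2 F).U_le_B ?_, xg_mem_VG2 (by norm_num) q⟩
    have : X 5 q = (X 7 c * X 10 p)⁻¹ * (X 9 1 * X 10 α * X 11 β) := by rw [← e]; group
    rw [this]
    exact Subgroup.mul_mem _ (Subgroup.inv_mem _ (Subgroup.mul_mem _ (xg_mem_UG2 (by norm_num) (by norm_num) _)
      (xg_mem_UG2 (by norm_num) (by norm_num) _))) (T3_mem_U _ _ _)
  rw [(relsG2 F).B_inf_V, Subgroup.mem_bot] at hq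
  rw [hq, mul_one] at e
  have : PU c 0 0 0 p 0 = PU 0 0 0 1 α β := by
    simp only [PU, (relsG2 F).xg_zero, mul_one, one_mul]
    exact e
  exact (PU_inj this).1

theorem T8G2 [Fintype F] {c p q α β : F} (e : X 8 c * X 11 p * X 6 q = X 9 1 * X 10 α * X 11 β) : c = 0 := by
  have : PU 0 q c 0 0 p = PU 0 0 0 1 α β := by
    simp only [PU, (relsG2 F).xg_zero, mul_one, one_mul]
    rw [← e, mul_assoc]
    exact ((comm_of_EG2 (r := 6) (s := 8) (by decide +kernel) q c).mul_right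
      (comm_of_EG2 (r := 6) (s := 11) (by decide +kernel) q p)).eq
  exact (PU_inj this).2.2.1

theorem w_detG2 [Fintype F] {m : GL chevG2.Idx F} {w : Equiv.Perm (Fin chevG2.nroots)} (hw : w ∈ goodG2.W)
    (hm : (relsG2 F).IsMono m w) {α β α' β' : F}
    (e : m * (X 9 1 * X 10 α * X 11 β) * m⁻¹ = X 9 1 * X 10 α' * X 11 β') :
    w = 1 ∨ w = goodG2.wP 1 (by decide) := by
  obtain ⟨k9, hk9, e9⟩ := hm.conj ⟨9, by decide⟩
  obtain ⟨k10, hk10, e10⟩ := hm.conj ⟨10, by decide⟩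
  obtain ⟨k11, hk11, e11⟩ := hm.conj ⟨11, by decide⟩
  have hk : k9 * 1 ≠ 0 := by rwa [mul_one]
  have E : X ((w ⟨9, by decide⟩ : Fin chevG2.nroots) : ℕ) (k9 * 1) *
      X ((w ⟨10, by decide⟩ : Fin chevG2.nroots) : ℕ) (k10 * α) *
      X ((w ⟨11, by decide⟩ : Fin chevG2.nroots) : ℕ) (k11 * β) = X 9 1 * X 10 α' * X 11 β' := by
    rw [← e9, ← e10, ← e11, ← e]; group
  have E' : X ((w ⟨9, by decide⟩ : Fin chevG2.nroots) : ℕ) (k9 * 1) *
      X ((w ⟨11, by decide⟩ : Fin chevG2.nroots) : ℕ) (k11 * β) *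
      X ((w ⟨10, by decide⟩ : Fin chevG2.nroots) : ℕ) (k10 * α) = X 9 1 * X 10 α' * X 11 β' := by
    rw [← e9, ← e10, ← e11, ← e, mul_assoc (X 9 1),
      (comm_of_EG2 (r := 10) (s := 11) (by decide +kernel) α β).eq]
    group
  rcases W_caseG2 hw with h | h | h | ⟨a, b, c⟩ | ⟨a, b, c⟩ | ⟨a, b, c⟩ | ⟨a, b, c⟩
  · exact Or.inl h
  · exact Or.inr h
  · exfalso
    have split : ∀ (r : Fin chevG2.nroots) (a : F), ∃ a1 a2, a = a1 + a2 ∧
        m * X r a1 * m⁻¹ ∈ chevG2.negUnipotent F ∧ m * X r a2 * m⁻¹ ∈ chevG2.posUnipotent F := by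
      intro r a
      obtain ⟨k, _, ek⟩ := hm.conj r
      by_cases hs : ((w r : Fin chevG2.nroots) : ℕ) < 6
      · refine ⟨a, 0, (add_zero a).symm, ?_, ?_⟩
        · rw [ek]; exact xg_mem_VG2 hs _
        · rw [(relsG2 F).xg_zero, mul_one, mul_inv_cancel]; exact Subgroup.one_mem _
      · refine ⟨0, a, (zero_add a).symm, ?_, ?_⟩
        · rw [(relsG2 F).xg_zero, mul_one, mul_inv_cancel]; exact Subgroup.one_mem _
        · rw [ek]; exact xg_mem_UG2 (not_lt.mp hs) (w r).2 _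
    obtain ⟨α1, α2, hα, hα1, hα2⟩ := split ⟨10, by decide⟩ α
    obtain ⟨β1, β2, hβ, hβ1, hβ2⟩ := split ⟨11, by decide⟩ β
    have hy : X 9 1 * X 10 α * X 11 β = (X 9 1 * X 10 α1 * X 11 β1) * (X 10 α2 * X 11 β2) := by
      rw [hα, hβ, ← (relsG2 F).xg_add, ← (relsG2 F).xg_add]
      have := (comm_of_EG2 (r := 10) (s := 11) (by decide +kernel) α2 β1).eq
      simp only [mul_assoc]
      rw [← mul_assoc (X 10 α2) (X 11 β1), this]
      simp only [mul_assoc]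
    have hV : m * (X 9 1 * X 10 α1 * X 11 β1) * m⁻¹ ∈ chevG2.negUnipotent F := by
      have : m * (X 9 1 * X 10 α1 * X 11 β1) * m⁻¹ =
          (m * X 9 1 * m⁻¹) * (m * X 10 α1 * m⁻¹) * (m * X 11 β1 * m⁻¹) := by group
      rw [this]
      refine Subgroup.mul_mem _ (Subgroup.mul_mem _ ?_ hα1) hβ1
      have e9' := e9 1
      simp only at e9'
      rw [e9']
      exact xg_mem_VG2 h _
    have hU : m * (X 9 1 * X 10 α1 * X 11 β1) * m⁻¹ ∈ chevG2.posUnipotent F := by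
      have : m * (X 9 1 * X 10 α1 * X 11 β1) * m⁻¹ = (m * (X 9 1 * X 10 α * X 11 β) * m⁻¹) *
          ((m * X 10 α2 * m⁻¹) * (m * X 11 β2 * m⁻¹))⁻¹ := by rw [hy]; group
      rw [this, e]
      exact Subgroup.mul_mem _ (T3_mem_U _ _ _) (Subgroup.inv_mem _ (Subgroup.mul_mem _ hα2 hβ2))
    have h1 : m * (X 9 1 * X 10 α1 * X 11 β1) * m⁻¹ ∈ chevG2.borelSubgroup F ⊓ chevG2.negUnipotent F :=
      ⟨(relsG2 F).U_le_B hU, hV⟩
    rw [(relsG2 F).B_inf_V, Subgroup.mem_bot, conj_eq_one_iff] at h1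
    have h2 : X 9 1 * X 10 α1 * X 11 β1 = X 9 0 * X 10 0 * X 11 0 := by
      rw [h1]; simp only [(relsG2 F).xg_zero, mul_one]
    exact one_ne_zero (T3_inj h2).1
  · rw [a, b, c] at E
    exact absurd (T7G2 E) hk
  · rw [a, b, c] at E'
    exact absurd (T7G2 E') hk
  · rw [a, b, c] at E
    exact absurd (T8G2 E) hk
  · rw [a, b, c] at E'
    exact absurd (T8G2 E') hk

end

end Cfsg.Agent.Chev
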