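import Cfsg.Agent.Chev.CentG2

/-!
# Centralizers of root elements of `G₂` (characteristic not 3), II
-/

set_option autoImplicit false
set_option linter.unusedSectionVars false
set_option linter.unusedVariables false
set_option maxRecDepth 1000000

namespace Cfsg.Agent.Chev
open Cfsg.Lie
open scoped MatrixGroups

section
variable {F : Type*} [Field F]

local notation "X" => Rels.xg (relsG2 F)

theorem ng6_mem {M : Subgroup (GL chevG2.Idx F)} (h6 : ∀ c, X 6 c ∈ M) (h5 : ∀ c, X 5 c ∈ M) (u : F) :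
    (relsG2 F).ng 6 u ∈ M := by
  rw [(relsG2 F).ng_eq]
  have : chevG2.neg 6 = 5 := by decide +kernel
  rw [this]
  exact Subgroup.mul_mem _ (Subgroup.mul_mem _ (h6 _) (h5 _)) (h6 _)

theorem ng6_comm (u a : F) : Commute ((relsG2 F).ng 6 u) (X 9 a) := by
  rw [(relsG2 F).ng_eq]
  have : chevG2.neg 6 = 5 := by decide +kernel
  rw [this]
  have h6 : ∀ c, Commute (X 6 c) (X 9 a) := fun c => comm_of_EG2 (by decide +kernel) _ _
  have h5 : ∀ c, Commute (X 5 c) (X 9 a) := fun c => comm_of_EG2 (by decide +kernel) _ _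
  exact ((h6 _).mul_left (h5 _)).mul_left (h6 _)

theorem H_cent9 {M : Subgroup (GL chevG2.Idx F)} (h6 : ∀ c, X 6 c ∈ M) (h5 : ∀ c, X 5 c ∈ M)
    {h : GL chevG2.Idx F} (hh : h ∈ chevG2.diagonalSubgroup F) (hc : Commute h (X 9 1)) : h ∈ M := by
  obtain ⟨χ, c1, c2, c3⟩ := (relsG2 F).H_le_Tor hh
  rw [← (relsG2 F).range_tor] at hh
  obtain ⟨c, rfl⟩ := hh
  have hχ : ∀ a, (χ a : F) = (kap chevG2 F c a : Fˣ) := by
    intro a
    have : Matrix.diagonal (fun a => (χ a : F)) = Matrix.diagonal (fun a => ((kap chevG2 F c a : Fˣ) : F)) := by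
      rw [← c2]; rfl
    exact congrFun (Matrix.diagonal_injective this) a
  have e1 := c3 ⟨9, by decide⟩ 1
  have e2 : X 9 1 = X 9 (χ (Sum.inr ⟨9, by decide⟩) * 1) := by
    apply mul_right_cancel (b := ((diagG chevG2.Idx F).comp (kap chevG2 F)) c)
    rw [← e1]
    exact hc.eq.symm
  have e3 : X 9 (1 - χ (Sum.inr ⟨9, by decide⟩) * 1) = 1 := by
    rw [sub_eq_add_neg, ← (relsG2 F).xg_add, ← (relsG2 F).xg_inv, ← e2, mul_inv_cancel]
  rw [(relsG2 F).xg_eq_one_iff (by decide), mul_one, hχ] at e3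
  have e4 : (kap chevG2 F c (Sum.inr ⟨9, by decide⟩) : Fˣ) = c ⟨0, by decide⟩ := by
    show ∏ i : Fin chevG2.rank, c i ^ chevG2.cartan i 9 = _
    rw [Finset.prod_eq_single ⟨0, by decide⟩]
    · show c ⟨0, by decide⟩ ^ chevG2.cartan 0 9 = _
      have : chevG2.cartan 0 9 = 1 := by decide +kernel
      rw [this, zpow_one]
    · intro i _ hi
      have hi2 : (i : ℕ) < 2 := i.2
      have hi1 : (i : ℕ) = 1 := by
        have : (i : ℕ) ≠ 0 := fun h => hi (Fin.ext h)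
        omega
      have : chevG2.cartan 1 9 = 0 := by decide +kernel
      rw [hi1, this, zpow_zero]
    · intro h; exact absurd (Finset.mem_univ _) h
  rw [e4] at e3
  have e5 : c ⟨0, by decide⟩ = 1 := Units.ext (sub_eq_zero.mp e3).symm
  have h3 : c ∈ M.comap (tau chevG2 F) := by
    rw [← Finset.univ_prod_mulSingle c]
    apply Subgroup.prod_mem
    intro i _
    by_cases hi : (i : ℕ) = 0
    · have : i = ⟨0, by decide⟩ := Fin.ext hi
      rw [this, e5, Pi.mulSingle_one]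
      exact Subgroup.one_mem _
    · have hi2 : (i : ℕ) < 2 := i.2
      have hi1 : (i : ℕ) = 1 := by omega
      rw [Subgroup.mem_comap, (relsG2 F).ftau_single, (relsG2 F).hg_eq, hi1]
      exact Subgroup.mul_mem _ (ng6_mem h6 h5 _) (ng6_mem h6 h5 _)
  exact h3

theorem borel_cent9 [Fintype F] (h3 : (3 : F) ≠ 0) {M : Subgroup (GL chevG2.Idx F)}
    (h9 : ∀ c, X 9 c ∈ M) (h10 : ∀ c, X 10 c ∈ M) (h11 : ∀ c, X 11 c ∈ M)
    (h6 : ∀ c, X 6 c ∈ M) (h5 : ∀ c, X 5 c ∈ M)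
    {b : GL chevG2.Idx F} (hb : b ∈ chevG2.borelSubgroup F) (hc : Commute b (X 9 1)) : b ∈ M := by
  obtain ⟨u1, hu1, h, hh, rfl⟩ := exists_mul_of_mem_sup (relsG2 F).H_le_normalizer_U hb
  obtain ⟨χ, c1, c2, c3⟩ := (relsG2 F).H_le_Tor hh
  obtain ⟨c7, c6, c8, c9, c10, c11, rfl⟩ := exists_PU hu1
  have e1 := c3 ⟨9, by decide⟩ 1
  simp only at e1
  set k : F := χ (Sum.inr ⟨9, by decide⟩) * 1 with hk
  have e2 : X 9 k * X 10 (3 * c7 * k) * X 11 (3 * c8 * k) = X 9 1 * X 10 0 * X 11 0 := by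
    apply mul_right_cancel (b := PU c7 c6 c8 c9 c10 c11 * h)
    rw [← mul_assoc, ← PU_conj9, mul_assoc (PU c7 c6 c8 c9 c10 c11), ← e1, ← mul_assoc, hc.eq]
    simp only [(relsG2 F).xg_zero, mul_one]
  obtain ⟨k1, k2, k3⟩ := T3_inj e2
  have d7 : c7 = 0 := by
    rw [k1, mul_one] at k2
    exact (mul_eq_zero.mp k2).resolve_left h3
  have d8 : c8 = 0 := by
    rw [k1, mul_one] at k3
    exact (mul_eq_zero.mp k3).resolve_left h3
  have hhc : Commute h (X 9 1) := by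
    show _ * _ = _ * _
    rw [e1, k1]
  apply Subgroup.mul_mem _ _ (H_cent9 h6 h5 hh hhc)
  rw [d7, d8]
  unfold PU
  rw [(relsG2 F).xg_zero, (relsG2 F).xg_zero, one_mul, mul_one]
  exact Subgroup.mul_mem _ (Subgroup.mul_mem _ (Subgroup.mul_mem _ (h6 _) (h9 _)) (h10 _)) (h11 _)

theorem U_conj9 {u : GL chevG2.Idx F} (hu : u ∈ chevG2.posUnipotent F) :
    ∃ α β : F, u * X 9 1 * u⁻¹ = X 9 1 * X 10 α * X 11 β := by
  obtain ⟨c7, c6, c8, c9, c10, c11, rfl⟩ := exists_PU hu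
  exact ⟨_, _, by rw [PU_conj9, mul_inv_cancel_right]⟩

theorem cent9_le [Fintype F] (h3 : (3 : F) ≠ 0) {M : Subgroup (GL chevG2.Idx F)}
    (h9 : ∀ c, X 9 c ∈ M) (h10 : ∀ c, X 10 c ∈ M) (h11 : ∀ c, X 11 c ∈ M)
    (h6 : ∀ c, X 6 c ∈ M) (h5 : ∀ c, X 5 c ∈ M)
    {g : GL chevG2.Idx F} (hg : g ∈ chevG2.group F) (hc : Commute g (X 9 1)) : g ∈ M := by
  obtain ⟨b, hb, n, hn, w, hw, hm, u, hu, e⟩ := (relsG2 F).normal_form_exists good2G2 hg
  have huU : u ∈ chevG2.posUnipotent F := by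
    rw [← UU_pos]
    exact UU_mono (fun s hs => (goodG2.isPosRoot_iff s).mpr ⟨hs.2.1, hs.1⟩) hu
  obtain ⟨u1, hu1, h, hh, rfl⟩ := exists_mul_of_mem_sup (relsG2 F).H_le_normalizer_U hb
  have hm' : (relsG2 F).IsMono (h * n) w := by
    have := Rels.IsMono.mul (relsG2 F) (Rels.IsMono.of_tor (relsG2 F) ((relsG2 F).H_le_Tor hh)) hm
    rwa [one_mul] at this
  obtain ⟨α, β, eu⟩ := U_conj9 huU
  obtain ⟨α', β', eu1⟩ := U_conj9 (Subgroup.inv_mem _ hu1)
  rw [inv_inv] at eu1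
  have e0 : g * X 9 1 * g⁻¹ = X 9 1 := by rw [hc.eq, mul_inv_cancel_right]
  have e1 : (h * n) * (X 9 1 * X 10 α * X 11 β) * (h * n)⁻¹ = X 9 1 * X 10 α' * X 11 β' := by
    rw [← eu, ← eu1]
    nth_rewrite 2 [← e0]
    rw [e]
    group
  have key : ∃ nJ ∈ chevG2.monomialSubgroup F, nJ ∈ M ∧ Commute nJ (X 9 1) ∧ (relsG2 F).IsMono nJ w ∧
      UU chevG2 F (negP chevG2 w) ≤ M ⊓ Subgroup.centralizer {X 9 1} := by
    rcases w_detG2 hw hm' e1 with rfl | rfl
    · refine ⟨1, Subgroup.one_mem _, Subgroup.one_mem _, Commute.one_left _,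
        Rels.IsMono.of_tor (relsG2 F) (Rels.IsTor.one (relsG2 F)), ?_⟩
      apply (relsG2 F).UU_le
      rintro s ⟨a1, a2, a3⟩ c
      exfalso
      simp only [Equiv.Perm.coe_one, id_eq] at a3
      omega
    · refine ⟨(relsG2 F).ng 6 1, (relsG2 F).ng_mem_N (by decide), ng6_mem h6 h5 1, ng6_comm 1 1,
        Rels.IsMono.ni (relsG2 F) (i := 1) (by decide), ?_⟩
      apply (relsG2 F).UU_le
      rintro s ⟨a1, a2, a3⟩ c
      rw [goodG2.wP_apply] at a3
      have k : ∀ s < 12, 6 ≤ s → chevG2.reflectRoot 1 s < 6 → s = 6 := by decide +kernel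
      have hs : s = 6 := k s a1 a2 a3
      subst hs
      exact ⟨h6 c, Subgroup.mem_centralizer_singleton_iff.mpr (comm_of_EG2 (by decide +kernel) _ _)⟩
  obtain ⟨nJ, hnJ, hnJM, hnJc, hmJ, hUle⟩ := key
  obtain ⟨huM, huc⟩ := hUle hu
  have huc' : Commute u (X 9 1) := Subgroup.mem_centralizer_singleton_iff.mp huc
  have h1 : h * n * nJ⁻¹ ∈ chevG2.diagonalSubgroup F := by
    apply (relsG2 F).mono_one_mem_H good2G2 (Subgroup.mul_mem _ (Subgroup.mul_mem _ ((relsG2 F).H_le_N hh) hn)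
      (Subgroup.inv_mem _ hnJ))
    have := Rels.IsMono.mul (relsG2 F) hm' (Rels.IsMono.inv (relsG2 F) hmJ)
    rwa [mul_inv_cancel] at this
  have e2 : u1 * (h * n * nJ⁻¹) = g * u⁻¹ * nJ⁻¹ := by rw [e]; group
  have h2 : u1 * (h * n * nJ⁻¹) ∈ M := by
    apply borel_cent9 h3 h9 h10 h11 h6 h5
      (Subgroup.mul_mem _ ((relsG2 F).U_le_B hu1) ((relsG2 F).H_le_B h1))
    rw [e2]
    exact (hc.mul_left huc'.inv_left).mul_left hnJc.inv_left
  have e3 : g = u1 * (h * n * nJ⁻¹) * nJ * u := by rw [e2]; group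
  rw [e3]
  exact Subgroup.mul_mem _ (Subgroup.mul_mem _ h2 hnJM) huM

theorem centG2_short [Fintype F] (h3 : (3 : F) ≠ 0) (t : GL chevG2.Idx F)
    (ht : (t : Matrix chevG2.Idx chevG2.Idx F) = chevG2.x F 9 1) :
    chevG2.group F ⊓ Subgroup.centralizer {t} = chevG2.rootSubgroup F 9 ⊔ chevG2.rootSubgroup F 10 ⊔
      chevG2.rootSubgroup F 11 ⊔ chevG2.rootSubgroup F 6 ⊔ chevG2.rootSubgroup F 5 := by
  have ht' : t = X 9 1 := ((relsG2 F).eq_xg_iff _ _ _).mp ht
  subst ht'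
  apply le_antisymm
  · rintro g ⟨hg, hc⟩
    refine cent9_le h3 ?_ ?_ ?_ ?_ ?_ hg (Subgroup.mem_centralizer_singleton_iff.mp hc)
    · exact fun c => Subgroup.mem_sup_left (Subgroup.mem_sup_left (Subgroup.mem_sup_left (Subgroup.mem_sup_left
        ((relsG2 F).xg_mem_rootSubgroup 9 c))))
    · exact fun c => Subgroup.mem_sup_left (Subgroup.mem_sup_left (Subgroup.mem_sup_left (Subgroup.mem_sup_right
        ((relsG2 F).xg_mem_rootSubgroup 10 c))))
    · exact fun c => Subgroup.mem_sup_left (Subgroup.mem_sup_left (Subgroup.mem_sup_right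
        ((relsG2 F).xg_mem_rootSubgroup 11 c)))
    · exact fun c => Subgroup.mem_sup_left (Subgroup.mem_sup_right ((relsG2 F).xg_mem_rootSubgroup 6 c))
    · exact fun c => Subgroup.mem_sup_right ((relsG2 F).xg_mem_rootSubgroup 5 c)
  · refine sup_le (sup_le (sup_le (sup_le ?_ ?_) ?_) ?_) ?_
    · apply (relsG2 F).rootSubgroup_le
      intro c
      refine ⟨(relsG2 F).xg_mem_group _ _, Subgroup.mem_centralizer_singleton_iff.mpr ?_⟩
      show _ * _ = _ * _
      rw [(relsG2 F).xg_add, (relsG2 F).xg_add, add_comm]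
    · apply (relsG2 F).rootSubgroup_le
      intro c
      exact ⟨(relsG2 F).xg_mem_group _ _, Subgroup.mem_centralizer_singleton_iff.mpr
        (comm_of_EG2 (by decide +kernel) _ _)⟩
    · apply (relsG2 F).rootSubgroup_le
      intro c
      exact ⟨(relsG2 F).xg_mem_group _ _, Subgroup.mem_centralizer_singleton_iff.mpr
        (comm_of_EG2 (by decide +kernel) _ _)⟩
    · apply (relsG2 F).rootSubgroup_le
      intro c
      exact ⟨(relsG2 F).xg_mem_group _ _, Subgroup.mem_centralizer_singleton_iff.mpr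
        (comm_of_EG2 (by decide +kernel) _ _)⟩
    · apply (relsG2 F).rootSubgroup_le
      intro c
      exact ⟨(relsG2 F).xg_mem_group _ _, Subgroup.mem_centralizer_singleton_iff.mpr
        (comm_of_EG2 (by decide +kernel) _ _)⟩

theorem centG2_long (z : GL chevG2.Idx F) (hz : (z : Matrix chevG2.Idx chevG2.Idx F) = chevG2.x F 11 1) :
    chevG2.group F ⊓ Subgroup.centralizer {z} = chevG2.posUnipotent F ⊔ chevG2.rootSubgroup F 4 := by
  have hz' : z = X 11 1 := ((relsG2 F).eq_xg_iff _ _ _).mp hz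
  subst hz'
  apply le_antisymm
  · rintro g ⟨hg, hc⟩
    refine (relsG2 F).hi_cent_le hiOKG2 good2G2 le_sup_left ?_ hg (Subgroup.mem_centralizer_singleton_iff.mp hc)
    intro i hi c
    simp only [List.mem_cons, List.not_mem_nil, or_false] at hi
    subst hi
    exact Subgroup.mem_sup_right ((relsG2 F).xg_mem_rootSubgroup 4 c)
  · refine sup_le ?_ ?_
    · intro u hu
      exact ⟨(relsG2 F).U_le_group hu, Subgroup.mem_centralizer_singleton_iff.mpr ((relsG2 F).hi_comm_U hiOKG2 hu 1)⟩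
    · apply (relsG2 F).rootSubgroup_le
      intro c
      exact ⟨(relsG2 F).xg_mem_group _ _, Subgroup.mem_centralizer_singleton_iff.mpr
        ((relsG2 F).hi_comm_neg hiOKG2 (i := 0) (by simp) c 1)⟩

end

end Cfsg.Agent.Chev
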