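import Cfsg.Agent.Chev.Cent

/-!
# Pairs of conjugates of the root subgroup of the highest root, in characteristic 2
-/

set_option autoImplicit false
set_option linter.unusedSectionVars false
set_option linter.unusedVariables false

namespace Cfsg.Agent.Chev
open Cfsg.Lie
open scoped MatrixGroups

/-- every suffix of the list is normalized by the preceding root subgroup -/
def SCn (D : ChevalleyDatum) : List ℕ → Prop
  | [] => True
  | r :: L => (r < D.nroots ∧ ∀ s ∈ L, s < D.nroots ∧ s ≠ r ∧ s ≠ D.neg r ∧ ∀ c ∈ D.commTerms r s, c.1 ∈ L) ∧ SCn D L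

instance (D : ChevalleyDatum) : ∀ L, Decidable (SCn D L)
  | [] => isTrue trivial
  | r :: L => by
    unfold SCn
    haveI := instDecidableSCn D L
    infer_instance

/-- table facts about pairs of long roots -/
structure PairOK (D : ChevalleyDatum) (isL : ℕ → Bool) : Prop where
  hi : isL (D.nroots - 1) = true
  refl : ∀ i < D.rank, ∀ s < D.nroots, isL s = true → isL (D.reflectRoot i s) = true
  neg : D.neg (D.nroots - 1) = 0
  pair : ∀ s < D.nroots, isL s = true → s ≠ 0 → s ≠ D.nroots - 1 →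
    SCn D ((D.nroots - 1) :: s :: (D.commTerms (D.nroots - 1) s).map Prod.fst)

variable {D : ChevalleyDatum} {G : Good D} {K : Type*} [Field K]

namespace Rels
variable (R : Rels D G K)
include R

theorem root_pgroup [CharP K 2] (r : ℕ) : IsPGroup 2 ↥(D.rootSubgroup K r) := by
  rintro ⟨x, hx⟩
  obtain ⟨t, rfl⟩ := (R.mem_rootSubgroup r x).mp hx
  refine ⟨1, Subtype.ext ?_⟩
  show (R.xg r t) ^ 2 ^ 1 = 1
  rw [pow_one, sq, R.xg_add, CharTwo.add_self_eq_zero, R.xg_zero]

theorem UU_pgroup [CharP K 2] : ∀ L : List ℕ, SCn D L → IsPGroup 2 ↥(UU D K (fun s => s ∈ L)) := by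
  intro L
  induction L with
  | nil =>
    intro _
    have : UU D K (fun s => s ∈ ([] : List ℕ)) ≤ ⊥ := by
      apply R.UU_le
      intro s hs u
      simp at hs
    exact IsPGroup.to_le IsPGroup.of_bot this
  | cons r L ih =>
    rintro ⟨⟨hr, h⟩, hL⟩
    have h1 : UU D K (fun s => s ∈ r :: L) ≤ D.rootSubgroup K r ⊔ UU D K (fun s => s ∈ L) := by
      apply R.UU_le
      intro s hs u
      rcases List.mem_cons.mp hs with e | e
      · subst e; exact Subgroup.mem_sup_left (R.xg_mem_rootSubgroup _ u)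
      · exact Subgroup.mem_sup_right (R.xg_mem_UU (p := fun s => s ∈ L) e u)
    have h2 : D.rootSubgroup K r ≤ Subgroup.normalizer (UU D K (fun s => s ∈ L) : Set (GL D.Idx K)) := by
      apply R.rootSubgroup_le
      intro t
      exact R.xg_normalizes _ r hr (fun s hs => h s hs) t
    exact IsPGroup.to_le (IsPGroup.to_sup_of_normal_right' (R.root_pgroup r) (ih hL) h2) h1

theorem map_conj_root_of_comm {u : GL D.Idx K} {r : ℕ} (h : ∀ a, Commute u (R.xg r a)) :
    (D.rootSubgroup K r).map (MulAut.conj u).toMonoidHom = D.rootSubgroup K r := by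
  ext x
  constructor
  · rintro ⟨y, hy, rfl⟩
    obtain ⟨a, rfl⟩ := (R.mem_rootSubgroup r y).mp hy
    show u * R.xg r a * u⁻¹ ∈ _
    rw [(h a).eq, mul_inv_cancel_right]
    exact R.xg_mem_rootSubgroup r a
  · intro hx
    obtain ⟨a, rfl⟩ := (R.mem_rootSubgroup r x).mp hx
    refine ⟨R.xg r a, R.xg_mem_rootSubgroup r a, ?_⟩
    show u * R.xg r a * u⁻¹ = _
    rw [(h a).eq, mul_inv_cancel_right]

theorem long_orbit {isL : ℕ → Bool} (P : PairOK D isL) {w : Equiv.Perm (Fin D.nroots)} (hw : w ∈ G.W) :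
    ∀ s : Fin D.nroots, isL s = true → isL (w s) = true := by
  refine G.W_ind_left (p := fun w => ∀ s : Fin D.nroots, isL s = true → isL (w s) = true)
    (fun s hs => hs) ?_ w hw
  intro i hi w _ ih s hs
  rw [Equiv.Perm.mul_apply, G.wP_apply]
  exact P.refl i hi _ (w s).2 (ih s hs)

theorem hi_pair [CharP K 2] (G2 : Good2 D) {J : List ℕ} {j0 β : ℕ} (T : HiOK D J j0 β) {isL : ℕ → Bool}
    (P : PairOK D isL) {g : GL D.Idx K} (hg : g ∈ D.group K) :
    IsPGroup 2 ↥(D.rootSubgroup K (D.nroots - 1) ⊔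
      (D.rootSubgroup K (D.nroots - 1)).map (MulAut.conj g).toMonoidHom) ∨
    ∃ h ∈ D.group K, (D.rootSubgroup K (D.nroots - 1) ⊔
      (D.rootSubgroup K (D.nroots - 1)).map (MulAut.conj g).toMonoidHom).map (MulAut.conj h).toMonoidHom =
        D.rootSubgroup K (D.nroots - 1) ⊔ D.rootSubgroup K 0 := by
  obtain ⟨b, hb, n, hn, w, hw, hm, u, hu, e⟩ := R.normal_form_exists G2 hg
  have huU : u ∈ D.posUnipotent K := by
    rw [← UU_pos]
    exact UU_mono (fun s hs => (G.isPosRoot_iff s).mpr ⟨hs.2.1, hs.1⟩) hu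
  obtain ⟨u1, hu1, h, hh, rfl⟩ := exists_mul_of_mem_sup R.H_le_normalizer_U hb
  have hm' : R.IsMono (h * n) w := by
    have := IsMono.mul R (IsMono.of_tor R (R.H_le_Tor hh)) hm
    rwa [one_mul] at this
  obtain ⟨c, hc0, ec⟩ := hm'.conj ⟨D.nroots - 1, R.hi_lt T⟩
  set s : ℕ := ((w ⟨D.nroots - 1, R.hi_lt T⟩ : Fin D.nroots) : ℕ) with hs
  have hsl : s < D.nroots := (w ⟨D.nroots - 1, R.hi_lt T⟩).2
  have hconj : ∀ a, g * R.xg (D.nroots - 1) a * g⁻¹ = u1 * R.xg s (c * a) * u1⁻¹ := by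
    intro a
    have e1 : g * R.xg (D.nroots - 1) a * g⁻¹ =
        u1 * ((h * n) * (u * R.xg (D.nroots - 1) a * u⁻¹) * (h * n)⁻¹) * u1⁻¹ := by rw [e]; group
    rw [e1, (R.hi_comm_U T huU a).eq, mul_inv_cancel_right]
    congr 2
    exact ec a
  have hmap : (D.rootSubgroup K (D.nroots - 1)).map (MulAut.conj g).toMonoidHom =
      (D.rootSubgroup K s).map (MulAut.conj u1).toMonoidHom := by
    ext x
    constructor
    · rintro ⟨y, hy, rfl⟩
      obtain ⟨a, rfl⟩ := (R.mem_rootSubgroup _ y).mp hy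
      exact ⟨R.xg s (c * a), R.xg_mem_rootSubgroup _ _, (hconj a).symm⟩
    · rintro ⟨y, hy, rfl⟩
      obtain ⟨a, rfl⟩ := (R.mem_rootSubgroup _ y).mp hy
      refine ⟨R.xg (D.nroots - 1) (c⁻¹ * a), R.xg_mem_rootSubgroup _ _, ?_⟩
      show g * R.xg (D.nroots - 1) (c⁻¹ * a) * g⁻¹ = u1 * R.xg s a * u1⁻¹
      rw [hconj, mul_inv_cancel_left₀ hc0]
  have hkey : D.rootSubgroup K (D.nroots - 1) ⊔
      (D.rootSubgroup K (D.nroots - 1)).map (MulAut.conj g).toMonoidHom =
      (D.rootSubgroup K (D.nroots - 1) ⊔ D.rootSubgroup K s).map (MulAut.conj u1).toMonoidHom := by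
    rw [Subgroup.map_sup, R.map_conj_root_of_comm (fun a => R.hi_comm_U T hu1 a), hmap]
  rw [hkey]
  by_cases h0 : s = 0
  · right
    refine ⟨u1⁻¹, Subgroup.inv_mem _ (R.U_le_group hu1), ?_⟩
    rw [Subgroup.map_map, h0]
    have : (MulAut.conj u1⁻¹).toMonoidHom.comp (MulAut.conj u1).toMonoidHom = MonoidHom.id (GL D.Idx K) := by
      ext1 x
      show u1⁻¹ * (u1 * x * u1⁻¹) * u1⁻¹⁻¹ = x
      group
    rw [this, Subgroup.map_id]
  · left
    apply IsPGroup.map
    by_cases h1 : s = D.nroots - 1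
    · rw [h1, sup_idem]
      exact R.root_pgroup _
    · have hL : isL s = true := R.long_orbit P hw ⟨D.nroots - 1, R.hi_lt T⟩ P.hi
      have h2 := R.UU_pgroup _ (P.pair s hsl hL h0 h1)
      refine IsPGroup.to_le h2 (sup_le ?_ ?_)
      · apply R.rootSubgroup_le
        intro t
        exact R.xg_mem_UU (p := fun r => r ∈ _) List.mem_cons_self t
      · apply R.rootSubgroup_le
        intro t
        exact R.xg_mem_UU (p := fun r => r ∈ _) (List.mem_cons_of_mem _ List.mem_cons_self) t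

end Rels

end Cfsg.Agent.Chev
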