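import Cfsg.Agent.Chev.Pair
import Cfsg.Agent.Chev.Cent2

/-!
# Pairs of long root subgroups: tables
-/

set_option autoImplicit false
set_option maxRecDepth 1000000

namespace Cfsg.Agent.Chev
open Cfsg.Lie

theorem hiOKD4 : HiOK chevD4 [0, 2, 3] 1 22 :=
  ⟨by decide +kernel, by decide +kernel, by decide +kernel, by decide +kernel, by decide +kernel, by decide +kernel,
    by decide +kernel, by decide +kernel, by decide +kernel, by decide +kernel⟩

theorem pairOKG2 : PairOK chevG2 (fun s => decide (s ∈ [0, 1, 5, 6, 10, 11])) :=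
  ⟨by decide +kernel, by decide +kernel, by decide +kernel, by decide +kernel⟩

theorem pairOKD4 : PairOK chevD4 (fun _ => true) :=
  ⟨rfl, fun _ _ _ _ _ => rfl, by decide +kernel, by decide +kernel⟩

theorem pairOKE6 : PairOK chevE6 (fun _ => true) :=
  ⟨rfl, fun _ _ _ _ _ => rfl, by decide +kernel, by decide +kernel⟩

theorem pairOKE7 : PairOK chevE7 (fun _ => true) :=
  ⟨rfl, fun _ _ _ _ _ => rfl, by decide +kernel, by decide +kernel⟩

theorem pairOKE8 : PairOK chevE8 (fun _ => true) :=
  ⟨rfl, fun _ _ _ _ _ => rfl, by decide +kernel, by decide +kernel⟩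

end Cfsg.Agent.Chev
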