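import Cfsg.Agent.Chev.FldFix

/-!
# Centralizers and normalizers of subfield subgroups
-/

set_option autoImplicit false
set_option linter.unusedSectionVars false
set_option linter.unusedVariables false

namespace Cfsg.Agent.Chev
open Cfsg.Lie
open scoped MatrixGroups

variable {D : ChevalleyDatum} {G : Good D} {K : Type*} [Field K]

namespace Rels
variable (R : Rels D G K)
include R

theorem exists_mono_word_mem {M : Subgroup (GL D.Idx K)} (hM : ∀ i < D.rank, R.ng (D.simple i) 1 ∈ M)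
    (L : List ℕ) (hL : ∀ i ∈ L, i < D.rank) :
    ∃ g ∈ D.monomialSubgroup K, g ∈ M ∧ ∃ σ, R.IsMono g σ ∧
      ∀ s : Fin D.nroots, ((σ s : Fin D.nroots) : ℕ) = L.foldr D.reflectRoot s := by
  induction L with
  | nil => exact ⟨1, Subgroup.one_mem _, Subgroup.one_mem _, 1, IsMono.of_tor R (IsTor.one R), fun s => rfl⟩
  | cons i L ih =>
    obtain ⟨g, hg, hgM, σ, hσ, e⟩ := ih (fun j hj => hL j (List.mem_cons_of_mem _ hj))
    have hi := hL i List.mem_cons_self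
    refine ⟨R.ng (D.simple i) 1 * g, Subgroup.mul_mem _ (R.ng_mem_N (G.simple_lt i hi)) hg,
      Subgroup.mul_mem _ (hM i hi) hgM, G.wP i hi * σ,
      IsMono.mul R (IsMono.ni R hi) hσ, fun s => ?_⟩
    simp only [Equiv.Perm.mul_apply, List.foldr_cons, G.wP_apply, e]

/-- an element of the group commuting with all `x_r(1)` is trivial -/
theorem cent_trivial (G2 : Good2 D) {g : GL D.Idx K} (hg : g ∈ D.group K)
    (hc : ∀ r < D.nroots, Commute g (R.xg r 1)) : g = 1 := by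
  -- step 1
  have hB : g ∈ D.borelSubgroup K := by
    obtain ⟨b, hb, n, hn, w, hw, hm, u, hu, e⟩ := R.normal_form_exists G2 hg
    have hk : G.nn w = 0 := by
      by_contra hk
      obtain ⟨i, hi, hneg⟩ := G.exists_simple_neg hw hk
      have hl := G.simple_lt i hi
      have hy : R.xg (D.simple i) 1 ∈ UU D K (negP D w) :=
        R.xg_mem_UU (p := negP D w) ⟨hl, G.simple_pos hi, hneg⟩ 1
      have e1 : (R.xg (D.simple i) 1 * b) * n * u = b * n * (u * R.xg (D.simple i) 1) := by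
        have := (hc _ hl).eq
        rw [e] at this
        calc (R.xg (D.simple i) 1 * b) * n * u = R.xg (D.simple i) 1 * (b * n * u) := by group
          _ = b * n * u * R.xg (D.simple i) 1 := this.symm
          _ = _ := by group
      obtain ⟨_, e2⟩ := R.normal_form_unique (Subgroup.mul_mem _ (R.Um_le_B w hy) hb) hb hm hu
        (Subgroup.mul_mem _ hu hy) e1
      have e3 : R.xg (D.simple i) 1 = 1 := by
        have := congrArg (fun z => u⁻¹ * z) e2
        simp only [inv_mul_cancel, inv_mul_cancel_left] at this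
        exact this.symm
      rw [R.xg_eq_one_iff hl] at e3
      exact one_ne_zero e3
    have hw1 := R.W_eq_one G2 hw hk
    rw [hw1] at hm
    rw [e]
    exact Subgroup.mul_mem _ (Subgroup.mul_mem _ hb (R.H_le_B (R.mono_one_mem_H G2 hn hm))) (R.Um_le_B w hu)
  -- step 2
  have hcn : ∀ i < D.rank, R.ng (D.simple i) 1 ∈ Subgroup.centralizer {g} := by
    intro i hi
    rw [Subgroup.mem_centralizer_singleton_iff, R.ng_eq]
    have hl := G.simple_lt i hi
    have h1 := (hc _ hl).symm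
    have h2 : Commute (R.xg (D.neg (D.simple i)) (-1⁻¹)) g := by
      rw [inv_one, ← R.xg_inv]
      exact (hc _ (G.neg_lt hl)).symm.inv_left
    exact ((h1.mul_left h2).mul_left h1).eq
  have hH : g ∈ D.diagonalSubgroup K := by
    obtain ⟨L, hL, hneg⟩ := G2.w0
    obtain ⟨n0, hn0, hn0c, σ0, hσ0, e0⟩ := R.exists_mono_word_mem hcn L hL
    have hcomm : n0 * g = g * n0 := Subgroup.mem_centralizer_singleton_iff.mp hn0c
    obtain ⟨u, hu, h, hh, e⟩ := exists_mul_of_mem_sup R.H_le_normalizer_U hB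
    have h3 : n0 * u * n0⁻¹ ∈ D.negUnipotent K :=
      IsMono.conj_UU R hσ0 (p := D.IsPosRoot) (q := D.IsNegRoot) (fun s hs => hs.1)
        (fun s hs => by
          rw [G.isNegRoot_iff, e0]
          exact hneg s ((G.isPosRoot_iff s).mp hs).1 s.2) u hu
    have h4 : n0 * h * n0⁻¹ ∈ D.diagonalSubgroup K :=
      (Subgroup.mem_normalizer_iff.mp (R.N_le_normalizer_H G2 hn0) _).mp hh
    have h5 : g = (n0 * u * n0⁻¹) * (n0 * h * n0⁻¹) := by
      have : g = n0 * g * n0⁻¹ := by rw [hcomm, mul_inv_cancel_right]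
      rw [this, e]; group
    have h6 : g ∈ D.borelSubgroup K ⊓ (D.negUnipotent K ⊔ D.diagonalSubgroup K) :=
      ⟨hB, h5 ▸ Subgroup.mul_mem _ (Subgroup.mem_sup_left h3) (Subgroup.mem_sup_right h4)⟩
    rwa [R.B_inf_VH] at h6
  -- step 3
  obtain ⟨χ, c1, c2, c3⟩ := R.H_le_Tor hH
  have hχ : ∀ s : Fin D.nroots, χ (Sum.inr s) = 1 := by
    intro s
    have e1 := c3 s 1
    rw [(hc s s.2).eq] at e1
    have e2 := mul_right_cancel e1
    have e3 : R.xg s (1 - χ (Sum.inr s) * 1) = 1 := by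
      rw [sub_eq_add_neg, ← R.xg_add, ← R.xg_inv, ← e2, mul_inv_cancel]
    rw [R.xg_eq_one_iff s.2, mul_one, sub_eq_zero] at e3
    exact Units.ext e3.symm
  apply Units.ext
  rw [c2]
  have : (fun a => ((χ a : Kˣ) : K)) = fun _ => 1 := by
    funext a
    rcases a with i | s
    · rw [c1]; rfl
    · rw [hχ]; rfl
  rw [this]
  simp

theorem N_fix_le' (G2 : Good2 D) (σ : K →+* K) {M : Subgroup (GL D.Idx K)}
    (hM : ∀ r < D.nroots, ∀ t, σ t = t → R.xg r t ∈ M)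
    (hH : ∀ h ∈ D.diagonalSubgroup K, Matrix.GeneralLinearGroup.map σ h = h → h ∈ M)
    {n : GL D.Idx K} (hn : n ∈ D.monomialSubgroup K)
    (hfix : Matrix.GeneralLinearGroup.map σ n = n) : n ∈ M := by
  obtain ⟨w, hw, hm⟩ := R.N_mono G2 hn
  obtain ⟨n', hn', hn'M, hf', hm'⟩ := R.exists_N_fix σ hM hw
  have h1 : n * n'⁻¹ ∈ D.diagonalSubgroup K := by
    apply R.mono_one_mem_H G2 (Subgroup.mul_mem _ hn (Subgroup.inv_mem _ hn'))
    have := IsMono.mul R hm (IsMono.inv R hm')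
    rwa [mul_inv_cancel] at this
  have h2 : n * n'⁻¹ ∈ M := hH _ h1 (by rw [map_mul, map_inv, hfix, hf'])
  have := Subgroup.mul_mem _ h2 hn'M
  rwa [inv_mul_cancel_right] at this

theorem fix_le' (G2 : Good2 D) (σ : K →+* K) {M : Subgroup (GL D.Idx K)}
    (hM : ∀ r < D.nroots, ∀ t, σ t = t → R.xg r t ∈ M)
    (hH : ∀ h ∈ D.diagonalSubgroup K, Matrix.GeneralLinearGroup.map σ h = h → h ∈ M)
    {g : GL D.Idx K} (hg : g ∈ D.group K)
    (hfix : Matrix.GeneralLinearGroup.map σ g = g) : g ∈ M := by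
  set sg := Matrix.GeneralLinearGroup.map (n := D.Idx) σ with hsg
  obtain ⟨b, hb, n, hn, w, hw, hm, u, hu, e⟩ := R.normal_form_exists G2 hg
  have huU : u ∈ D.posUnipotent K := by
    rw [← UU_pos]
    exact UU_mono (fun s hs => (G.isPosRoot_iff s).mpr ⟨hs.2.1, hs.1⟩) hu
  have e2 : b * n * u = sg b * sg n * sg u := by
    rw [← map_mul, ← map_mul, ← e, hfix]
  have h1 := R.bruhat_unique_GL G2 hn (R.fsg_N G2 σ hn) hb (R.U_le_B huU) (R.fsg_B σ hb)
    (R.U_le_B (R.fsg_UU σ _ huU)) e2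
  have h2 : sg n * n⁻¹ ∈ D.diagonalSubgroup K := by
    have := (Subgroup.mem_normalizer_iff.mp (R.N_le_normalizer_H G2 hn) _).mp h1
    have e3 : n * (n⁻¹ * sg n) * n⁻¹ = sg n * n⁻¹ := by group
    rwa [e3] at this
  have hsu : sg u ∈ UU D K (negP D w) := R.fsg_UU σ _ hu
  have e3 : b * n * u = (sg b * (sg n * n⁻¹)) * n * sg u := by rw [e2]; group
  obtain ⟨e4, e5⟩ := R.normal_form_unique hb
    (Subgroup.mul_mem _ (R.fsg_B σ hb) (R.H_le_B h2)) hm hu hsu e3
  obtain ⟨u1, hu1, h, hh, rfl⟩ := exists_mul_of_mem_sup R.H_le_normalizer_U hb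
  rw [map_mul] at e4
  have e6 : u1⁻¹ * sg u1 = h * (sg h * (sg n * n⁻¹))⁻¹ := by
    calc u1⁻¹ * sg u1 = u1⁻¹ * (sg u1 * sg h * (sg n * n⁻¹)) * (sg h * (sg n * n⁻¹))⁻¹ := by group
      _ = _ := by rw [← e4]; group
  have h3 : u1⁻¹ * sg u1 ∈ D.posUnipotent K ⊓ D.diagonalSubgroup K :=
    ⟨Subgroup.mul_mem _ (Subgroup.inv_mem _ hu1) (R.fsg_UU σ _ hu1),
      e6 ▸ Subgroup.mul_mem _ hh (Subgroup.inv_mem _ (Subgroup.mul_mem _ (R.fsg_H σ hh) h2))⟩
  rw [R.U_inf_H, Subgroup.mem_bot] at h3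
  have hu1f : sg u1 = u1 := (inv_mul_eq_one.mp h3).symm
  have hnf : sg (h * n) = h * n := by
    have e7 : h * n = u1⁻¹ * g * u⁻¹ := by rw [e]; group
    rw [e7, map_mul, map_mul, map_inv, map_inv, hu1f, hfix, ← e5]
  rw [e]
  have e8 : u1 * h * n * u = u1 * (h * n) * u := by group
  rw [e8]
  exact Subgroup.mul_mem _ (Subgroup.mul_mem _ (R.U_fix_le G2 σ hM hu1 hu1f)
    (R.N_fix_le' G2 σ hM hH (Subgroup.mul_mem _ (R.H_le_N hh) hn) hnf)) (R.U_fix_le G2 σ hM huU e5.symm)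

theorem H_comm {h h' : GL D.Idx K} (hh : h ∈ D.diagonalSubgroup K) (hh' : h' ∈ D.diagonalSubgroup K) :
    h * h' = h' * h := by
  rw [← R.range_tor] at hh hh'
  obtain ⟨c, rfl⟩ := hh
  obtain ⟨c', rfl⟩ := hh'
  rw [← map_mul, ← map_mul, mul_comm]

theorem fsg_group (σ : K →+* K) {g : GL D.Idx K} (hg : g ∈ D.group K) :
    Matrix.GeneralLinearGroup.map σ g ∈ D.group K := by
  have : D.group K ≤ (D.group K).comap (Matrix.GeneralLinearGroup.map σ) :=
    R.group_le (fun r _ t => by rw [Subgroup.mem_comap, R.frob_xg]; exact R.xg_mem_group _ _)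
  exact this hg

/-- the group generated by the fixed root elements -/
def Lfix (σ : K →+* K) : Subgroup (GL D.Idx K) :=
  Subgroup.closure {x | ∃ r < D.nroots, ∃ t, σ t = t ∧ x = R.xg r t}

theorem H_conj_Lfix (σ : K →+* K) {h : GL D.Idx K} (hh : h ∈ D.diagonalSubgroup K)
    (hf : Matrix.GeneralLinearGroup.map σ h = h) : ∀ x ∈ R.Lfix σ, h * x * h⁻¹ ∈ R.Lfix σ := by
  obtain ⟨χ, c1, c2, c3⟩ := R.H_le_Tor hh
  apply conj_mem_closure
  rintro x ⟨r, hr, t, ht, rfl⟩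
  have e1 : h * R.xg r t * h⁻¹ = R.xg r (χ (Sum.inr ⟨r, hr⟩) * t) := by
    rw [c3 ⟨r, hr⟩ t]; group
  rw [e1]
  refine Subgroup.subset_closure ⟨r, hr, _, ?_, rfl⟩
  have e2 : σ (χ (Sum.inr ⟨r, hr⟩) : K) = χ (Sum.inr ⟨r, hr⟩) := by
    have := congrArg (fun g : GL D.Idx K => (g : Matrix D.Idx D.Idx K) (Sum.inr ⟨r, hr⟩) (Sum.inr ⟨r, hr⟩)) hf
    simp only [Matrix.GeneralLinearGroup.map_apply] at this
    rw [c2, Matrix.diagonal_apply_eq] at this
    exact this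
  rw [map_mul, e2, ht]

theorem subfield (G2 : Good2 D) (σ : K →+* K) (Kg : Subgroup (GL D.Idx K)) (hKG : Kg ≤ D.group K)
    (hLK : ∀ r t, σ t = t → R.xg r t ∈ Kg) (hKfix : ∀ g ∈ Kg, Matrix.GeneralLinearGroup.map σ g = g) :
    D.group K ⊓ Subgroup.centralizer (Kg : Set (GL D.Idx K)) = ⊥ ∧
    ∀ g ∈ D.group K, (g ∈ Subgroup.normalizer (Kg : Set (GL D.Idx K)) ↔ Matrix.GeneralLinearGroup.map σ g = g) := by
  have h1 : D.group K ⊓ Subgroup.centralizer (Kg : Set (GL D.Idx K)) = ⊥ := by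
    rw [eq_bot_iff]
    rintro g ⟨hg, hc⟩
    rw [Subgroup.mem_bot]
    apply R.cent_trivial G2 hg
    intro r _
    exact (Subgroup.mem_centralizer_iff.mp hc _ (hLK r 1 (map_one σ))).symm
  refine ⟨h1, fun g hg => ⟨fun hn => ?_, fun hf => ?_⟩⟩
  · have hz : g⁻¹ * Matrix.GeneralLinearGroup.map σ g ∈
        D.group K ⊓ Subgroup.centralizer (Kg : Set (GL D.Idx K)) := by
      refine ⟨Subgroup.mul_mem _ (Subgroup.inv_mem _ hg) (R.fsg_group σ hg), ?_⟩
      apply Subgroup.mem_centralizer_iff.mpr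
      intro x hx
      have e1 := hKfix _ ((Subgroup.mem_normalizer_iff.mp hn x).mp hx)
      rw [map_mul, map_mul, map_inv, hKfix x hx] at e1
      set s := Matrix.GeneralLinearGroup.map σ g with hs
      calc x * (g⁻¹ * s) = g⁻¹ * (g * x * g⁻¹) * s := by group
        _ = g⁻¹ * (s * x * s⁻¹) * s := by rw [e1]
        _ = _ := by group
    rw [h1, Subgroup.mem_bot] at hz
    exact (inv_mul_eq_one.mp hz).symm
  · -- decomposition of the fixed points
    let Hf : Subgroup (GL D.Idx K) := D.diagonalSubgroup K ⊓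
      MonoidHom.eqLocus (Matrix.GeneralLinearGroup.map σ) (MonoidHom.id (GL D.Idx K))
    have hLK' : R.Lfix σ ≤ Kg := by
      unfold Lfix
      rw [Subgroup.closure_le]
      rintro x ⟨r, _, t, ht, rfl⟩
      exact hLK r t ht
    have hnorm : Hf ≤ Subgroup.normalizer (R.Lfix σ : Set (GL D.Idx K)) := by
      rintro h ⟨hh, hf⟩
      rw [Subgroup.mem_normalizer_iff]
      intro x
      refine ⟨R.H_conj_Lfix σ hh hf x, fun hx => ?_⟩
      have := R.H_conj_Lfix σ (Subgroup.inv_mem _ hh) (by rw [map_inv]; exact congrArg _ hf) _ hx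
      have e : h⁻¹ * (h * x * h⁻¹) * h⁻¹⁻¹ = x := by group
      rwa [e] at this
    have hdec : ∀ y ∈ D.group K, Matrix.GeneralLinearGroup.map σ y = y →
        ∃ l ∈ R.Lfix σ, ∃ h ∈ Hf, y = l * h := by
      intro y hy hyf
      apply exists_mul_of_mem_sup hnorm
      have b1 : ∀ r < D.nroots, ∀ t, σ t = t → R.xg r t ∈ R.Lfix σ ⊔ Hf := fun r hr t ht =>
        Subgroup.mem_sup_left (Subgroup.subset_closure ⟨r, hr, t, ht, rfl⟩)
      have b2 : ∀ h ∈ D.diagonalSubgroup K, Matrix.GeneralLinearGroup.map σ h = h → h ∈ R.Lfix σ ⊔ Hf :=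
        fun h hh hf => Subgroup.mem_sup_right (show h ∈ Hf from ⟨hh, hf⟩)
      exact R.fix_le' G2 σ b1 b2 hy hyf
    have key : ∀ y ∈ D.group K, Matrix.GeneralLinearGroup.map σ y = y → ∀ x ∈ Kg, y * x * y⁻¹ ∈ Kg := by
      intro y hy hyf x hx
      obtain ⟨l1, hl1, t1, ht1, rfl⟩ := hdec y hy hyf
      obtain ⟨l2, hl2, t2, ht2, rfl⟩ := hdec x (hKG hx) (hKfix x hx)
      have ht2K : t2 ∈ Kg := by
        have := Subgroup.mul_mem _ (Subgroup.inv_mem _ (hLK' hl2)) hx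
        rwa [inv_mul_cancel_left] at this
      have a1 : t1 * l2 * t1⁻¹ ∈ R.Lfix σ := R.H_conj_Lfix σ ht1.1 ht1.2 _ hl2
      have a2 : t2 * l1⁻¹ * t2⁻¹ ∈ R.Lfix σ := R.H_conj_Lfix σ ht2.1 ht2.2 _ (Subgroup.inv_mem _ hl1)
      have e : l1 * t1 * (l2 * t2) * (l1 * t1)⁻¹ = l1 * (t1 * l2 * t1⁻¹) * (t2 * l1⁻¹ * t2⁻¹) * t2 := by
        have hc := R.H_comm ht1.1 ht2.1
        calc l1 * t1 * (l2 * t2) * (l1 * t1)⁻¹ = l1 * (t1 * l2 * t1⁻¹) * ((t1 * t2) * t1⁻¹) * l1⁻¹ := by group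
          _ = l1 * (t1 * l2 * t1⁻¹) * ((t2 * t1) * t1⁻¹) * l1⁻¹ := by rw [hc]
          _ = _ := by group
      rw [e]
      exact Subgroup.mul_mem _ (hLK' (Subgroup.mul_mem _ (Subgroup.mul_mem _ hl1 a1) a2)) ht2K
    rw [Subgroup.mem_normalizer_iff]
    intro x
    refine ⟨key g hg hf x, fun hx => ?_⟩
    have := key g⁻¹ (Subgroup.inv_mem _ hg) (by rw [map_inv, hf]) _ hx
    have e : g⁻¹ * (g * x * g⁻¹) * g⁻¹⁻¹ = x := by group
    rwa [e] at this

end Rels

end Cfsg.Agent.Chev
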