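import Cfsg.Agent.Chev.Tw1
import Cfsg.Agent.Chev.Cent

/-!
# Supports of products of commuting root elements under monomial conjugation
-/

set_option autoImplicit false
set_option linter.unusedSectionVars false
set_option linter.unusedVariables false

namespace Cfsg.Agent.Chev
open Cfsg.Lie
open scoped MatrixGroups

variable {D : ChevalleyDatum} {G : Good D} {K : Type*} [Field K]

namespace Rels
variable (R : Rels D G K)
include R

theorem prodL_filter (t : ℕ → K) (p : ℕ → Bool) : ∀ L : List ℕ, (∀ r ∈ L, p r = false → t r = 0) →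
    R.prodL t L = R.prodL t (L.filter p) := by
  intro L
  induction L with
  | nil => intro _; rfl
  | cons r L ih =>
    intro h
    have ih' := ih (fun s hs => h s (List.mem_cons_of_mem _ hs))
    by_cases hp : p r = true
    · rw [List.filter_cons_of_pos hp, R.prodL_cons, R.prodL_cons, ih']
    · have hp' : p r = false := by simpa using hp
      rw [List.filter_cons_of_neg hp, R.prodL_cons, h r List.mem_cons_self hp', R.xg_zero, one_mul, ih']

theorem prodFrom_eq_prodL (t : ℕ → K) (k m : ℕ) : R.prodFrom t k m = R.prodL t (List.range' k m) := rfl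

/-- sorting a product of commuting root elements -/
theorem prodL_sort (c : ℕ → K) (S : List ℕ) (hnd : S.Nodup) (k m : ℕ) (hS : ∀ r ∈ S, k ≤ r ∧ r < k + m)
    (hc : ∀ r ∈ S, ∀ s ∈ S, Commute (R.xg r (c r)) (R.xg s (c s))) :
    R.prodL c S = R.prodFrom (fun r => if r ∈ S then c r else 0) k m := by
  classical
  have f1 : R.prodL (fun r => if r ∈ S then c r else 0) (List.range' k m) =
      R.prodL (fun r => if r ∈ S then c r else 0) ((List.range' k m).filter (fun r => decide (r ∈ S))) := by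
    apply R.prodL_filter
    intro r _ h
    have : r ∉ S := by simpa using h
    rw [if_neg this]
  rw [prodFrom_eq_prodL, f1]
  have hperm : S.Perm ((List.range' k m).filter (fun r => decide (r ∈ S))) := by
    rw [List.perm_ext_iff_of_nodup hnd (List.Nodup.filter _ (List.nodup_range' (step := 1) (by norm_num)))]
    intro a
    simp only [List.mem_filter, List.mem_range'_1, decide_eq_true_eq]
    exact ⟨fun h => ⟨hS a h, h⟩, fun h => h.2⟩
  rw [R.prodL_perm c hperm hc]
  apply R.prodL_congr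
  intro r hr
  have : r ∈ S := by simpa using (List.mem_filter.mp hr).2
  rw [if_pos this]

theorem conj_prodL {m : GL D.Idx K} {σ' : ℕ → ℕ} {b : ℕ → K} (a : ℕ → K) :
    ∀ L : List ℕ, (∀ r ∈ L, m * R.xg r (a r) * m⁻¹ = R.xg (σ' r) (b (σ' r))) →
    m * R.prodL a L * m⁻¹ = R.prodL b (L.map σ') := by
  intro L
  induction L with
  | nil => intro _; simp [prodL_nil]
  | cons r L ih =>
    intro h
    rw [List.map_cons, R.prodL_cons, R.prodL_cons, ← ih (fun s hs => h s (List.mem_cons_of_mem _ hs)),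
      ← h r List.mem_cons_self]
    group

theorem supp (G2 : Good2 D) {m : GL D.Idx K} {σ : Equiv.Perm (Fin D.nroots)} (hm : R.IsMono m σ)
    (T : List ℕ) (hnd : T.Nodup) (hT : ∀ r ∈ T, D.nroots / 2 ≤ r ∧ r < D.nroots)
    (hcomm : ∀ r ∈ T, ∀ s ∈ T, ∀ t u : K, Commute (R.xg r t) (R.xg s u))
    (a a' : ℕ → K) (e : m * R.prodL a T * m⁻¹ = R.prodL a' T)
    (r0 : ℕ) (hr0 : r0 ∈ T) (ha : a r0 ≠ 0) (h0 : r0 < D.nroots) :
    ((σ ⟨r0, h0⟩ : Fin D.nroots) : ℕ) ∈ T := by
  classical
  have hev := G.even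
  let σ' : ℕ → ℕ := fun r => if h : r < D.nroots then ((σ ⟨r, h⟩ : Fin D.nroots) : ℕ) else r
  have hσ' : ∀ r (h : r < D.nroots), σ' r = ((σ ⟨r, h⟩ : Fin D.nroots) : ℕ) := fun r h => dif_pos h
  have hσlt : ∀ r, r < D.nroots → σ' r < D.nroots := fun r h => by rw [hσ' r h]; exact (σ ⟨r, h⟩).2
  choose kk hk0 hk using fun r : Fin D.nroots => hm.conj r
  let b : ℕ → K := fun s => if h : s < D.nroots then kk (σ⁻¹ ⟨s, h⟩) * a ((σ⁻¹ ⟨s, h⟩ : Fin D.nroots) : ℕ) else 0
  have hb : ∀ r (h : r < D.nroots), b (σ' r) = kk ⟨r, h⟩ * a r := by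
    intro r h
    simp only [b]
    rw [dif_pos (hσlt r h)]
    have : σ⁻¹ ⟨σ' r, hσlt r h⟩ = ⟨r, h⟩ := by
      rw [Equiv.Perm.inv_eq_iff_eq]
      exact Fin.ext (hσ' r h)
    rw [this]
  have hconj : ∀ r ∈ T, m * R.xg r (a r) * m⁻¹ = R.xg (σ' r) (b (σ' r)) := by
    intro r hr
    have h := (hT r hr).2
    rw [hb r h, hσ' r h]
    exact hk ⟨r, h⟩ (a r)
  set Tp := T.filter (fun r => decide (D.nroots / 2 ≤ σ' r)) with hTp
  set Tn := T.filter (fun r => !decide (D.nroots / 2 ≤ σ' r)) with hTn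
  have hperm : (Tp ++ Tn).Perm T := List.filter_append_perm _ T
  have e1 : R.prodL a T = R.prodL a Tp * R.prodL a Tn := by
    rw [← R.prodL_append]
    exact R.prodL_perm a hperm.symm (fun r hr s hs => hcomm r hr s hs _ _)
  have cp : m * R.prodL a Tp * m⁻¹ = R.prodL b (Tp.map σ') :=
    R.conj_prodL a Tp (fun r hr => hconj r (List.mem_of_mem_filter hr))
  have cn : m * R.prodL a Tn * m⁻¹ = R.prodL b (Tn.map σ') :=
    R.conj_prodL a Tn (fun r hr => hconj r (List.mem_of_mem_filter hr))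
  have hpos : ∀ s ∈ Tp.map σ', D.nroots / 2 ≤ s ∧ s < D.nroots := by
    intro s hs
    obtain ⟨r, hr, rfl⟩ := List.mem_map.mp hs
    have h1 := List.mem_filter.mp hr
    exact ⟨by simpa using h1.2, hσlt r (hT r h1.1).2⟩
  have hpU : R.prodL b (Tp.map σ') ∈ D.posUnipotent K := by
    rw [← UU_pos]
    apply R.prodL_mem
    intro s hs
    exact Or.inl ((G.isPosRoot_iff _).mpr (hpos s hs))
  have hnV : R.prodL b (Tn.map σ') ∈ D.negUnipotent K := by
    rw [← UU_neg]
    apply R.prodL_mem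
    intro s hs
    left
    obtain ⟨r, hr, rfl⟩ := List.mem_map.mp hs
    have h1 := List.mem_filter.mp hr
    exact (G.isNegRoot_iff _).mpr (by simpa using h1.2)
  have hy'U : R.prodL a' T ∈ D.posUnipotent K := by
    rw [← UU_pos]
    apply R.prodL_mem
    intro s hs
    exact Or.inl ((G.isPosRoot_iff _).mpr (hT s hs))
  have hn1 : R.prodL b (Tn.map σ') = 1 := by
    have h1 : R.prodL b (Tn.map σ') ∈ D.borelSubgroup K ⊓ D.negUnipotent K := by
      refine ⟨R.U_le_B ?_, hnV⟩
      have : R.prodL b (Tn.map σ') = (R.prodL b (Tp.map σ'))⁻¹ * R.prodL a' T := by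
        rw [← e, e1, ← cp, ← cn]; group
      rw [this]
      exact Subgroup.mul_mem _ (Subgroup.inv_mem _ hpU) hy'U
    rwa [R.B_inf_V, Subgroup.mem_bot] at h1
  have hn2 : R.prodL a Tn = 1 := by
    rw [← cn] at hn1
    exact conj_eq_one_iff.mp hn1
  have hTn0 : ∀ r ∈ Tn, a r = 0 := by
    intro r hr
    have hrT := List.mem_of_mem_filter hr
    have s1 := R.prodL_sort a Tn (hnd.filter _) (D.nroots / 2) (D.nroots / 2)
      (fun r hr => ⟨(hT r (List.mem_of_mem_filter hr)).1, by
        have := (hT r (List.mem_of_mem_filter hr)).2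
        omega⟩)
      (fun r hr s hs => hcomm r (List.mem_of_mem_filter hr) s (List.mem_of_mem_filter hs) _ _)
    rw [hn2] at s1
    have s2 : R.prodFrom (fun _ => (0 : K)) (D.nroots / 2) (D.nroots / 2) = 1 :=
      R.prodFrom_eq_one _ _ (fun _ _ => rfl)
    have := R.prodFrom_inj G2 (D.nroots / 2) (D.nroots / 2) le_rfl (by omega) _ _ (s1.symm.trans s2.symm) r
      (hT r hrT).1 (hT r hrT).2
    simpa [hr] using this
  have hr0p : r0 ∈ Tp := by
    by_contra hcon
    have : r0 ∈ Tn := by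
      rw [hTn, List.mem_filter]
      rw [hTp, List.mem_filter] at hcon
      refine ⟨hr0, ?_⟩
      by_contra h2
      exact hcon ⟨hr0, by simpa using h2⟩
    exact ha (hTn0 r0 this)
  have e2 : R.prodL b (Tp.map σ') = R.prodL a' T := by rw [← cp, ← e, e1, hn2, mul_one]
  have hnodup : (Tp.map σ').Nodup := by
    apply List.Nodup.map_on _ (hnd.filter _)
    intro x hx y hy hxy
    have hx' := (hT x (List.mem_of_mem_filter hx)).2
    have hy' := (hT y (List.mem_of_mem_filter hy)).2
    rw [hσ' x hx', hσ' y hy'] at hxy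
    have := σ.injective (Fin.ext hxy)
    exact congrArg Fin.val this
  have s3 := R.prodL_sort b (Tp.map σ') hnodup (D.nroots / 2) (D.nroots / 2)
    (fun s hs => ⟨(hpos s hs).1, by have := (hpos s hs).2; omega⟩)
    (by
      intro s hs s' hs'
      obtain ⟨r, hr, rfl⟩ := List.mem_map.mp hs
      obtain ⟨r', hr', rfl⟩ := List.mem_map.mp hs'
      rw [← hconj r (List.mem_of_mem_filter hr), ← hconj r' (List.mem_of_mem_filter hr')]
      exact (Commute.conj_iff m).mpr (hcomm r (List.mem_of_mem_filter hr) r' (List.mem_of_mem_filter hr') _ _))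
  have s4 := R.prodL_sort a' T hnd (D.nroots / 2) (D.nroots / 2)
    (fun s hs => ⟨(hT s hs).1, by have := (hT s hs).2; omega⟩) (fun r hr s hs => hcomm r hr s hs _ _)
  have hfin := R.prodFrom_inj G2 (D.nroots / 2) (D.nroots / 2) le_rfl (by omega) _ _
    (s3.symm.trans (e2.trans s4)) (σ' r0) (hpos _ (List.mem_map_of_mem hr0p)).1 (hσlt r0 h0)
  by_contra hnot
  rw [← hσ' r0 h0] at hnot
  simp only [if_pos (List.mem_map_of_mem (f := σ') hr0p), if_neg hnot] at hfin
  rw [hb r0 h0] at hfin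
  exact (mul_ne_zero (hk0 _) ha) hfin

end Rels

end Cfsg.Agent.Chev
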