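import Cfsg.Agent.Chev.TwG2
import Cfsg.Agent.S1054

/-!
# The special graph automorphism of `F₄` in characteristic 2, I: tables
-/

set_option autoImplicit false
set_option linter.unusedSectionVars false
set_option linter.unusedVariables false
set_option maxRecDepth 1000000

namespace Cfsg.Agent.Chev
open Cfsg.Lie
open scoped MatrixGroups

def idxF4 (k : ℕ) : Fin 4 ⊕ Fin 48 :=
  if h : k < 4 then Sum.inl ⟨k, h⟩ else if h2 : k - 4 < 48 then Sum.inr ⟨k - 4, h2⟩ else Sum.inl 0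

def eLF4 : List ℕ := [1, 0, 7, 11, 12, 13, 15, 22, 14, 16, 23, 17, 24, 18, 37, 31, 38, 32, 39, 41, 33, 40, 42, 43, 44, 48]

def eRF4 : List ℕ := [2, 3, 4, 5, 6, 8, 9, 10, 19, 20, 21, 25, 26, 27, 28, 29, 30, 34, 35, 36, 45, 46, 47, 49, 50, 51]

def eFunF4 : Fin 26 ⊕ Fin 26 → Fin 4 ⊕ Fin 48 :=
  Sum.elim (fun a => idxF4 (eLF4.getD a 0)) (fun a => idxF4 (eRF4.getD a 0))

theorem eFunF4_bij : Function.Bijective eFunF4 := by decide +kernel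

noncomputable def eF4 : Fin 26 ⊕ Fin 26 ≃ chevF4.Idx := Equiv.ofBijective eFunF4 eFunF4_bij

/-- the symmetry of the root system -/
def rhoF4 : ℕ → ℕ := fun r => ([3, 7, 8, 0, 9, 11, 18, 1, 2, 4, 15, 5, 16, 21, 23, 10, 12, 19, 6, 17, 22, 13, 20, 14, 33, 27, 34,
  25, 30, 41, 28, 35, 37, 24, 26, 31, 42, 32, 43, 45, 46, 29, 36, 38, 47, 39, 40, 44] : List ℕ).getD r 0

/-- 2 on short roots, 1 on long roots -/
def lamF4 : ℕ → ℕ := fun r => ([1, 1, 1, 2, 1, 1, 1, 2, 2, 2, 2, 2, 2, 2, 2, 1, 1, 1, 2, 2, 2, 1, 1, 1, 1, 1, 1, 2, 2, 2, 1, 1, 1,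
  2, 2, 2, 2, 2, 2, 2, 2, 1, 1, 1, 2, 1, 1, 1] : List ℕ).getD r 0

theorem rhoF4_lt : ∀ r < 48, rhoF4 r < 48 := by decide

theorem chkBTF4 : ∀ (r : Fin 48) (a b : Fin 26),
    peqMod 2 3 (xPoly chevF4 r (eFunF4 (Sum.inr a)) (eFunF4 (Sum.inl b))) [] = true := by decide +kernel

theorem chkRelF4 : ∀ (r : Fin 48) (a b : Fin 26),
    peqMod 2 5 (xPoly chevF4 r (eFunF4 (Sum.inr a)) (eFunF4 (Sum.inr b)))
      ((xPoly chevF4 ⟨rhoF4 r, rhoF4_lt r r.2⟩ (eFunF4 (Sum.inl a)) (eFunF4 (Sum.inl b))).map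
        fun km => (lamF4 r * km.1, km.2)) = true := by decide +kernel

end Cfsg.Agent.Chev
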