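import Cfsg.Agent.Chev.TwF1

/-!
# The special graph automorphism of `F₄` in characteristic 2, III: the endomorphism `σ`
-/

set_option autoImplicit false
set_option linter.unusedSectionVars false
set_option linter.unusedVariables false
set_option maxRecDepth 100000

namespace Cfsg.Agent.Chev
open Cfsg.Lie
open scoped MatrixGroups

section
variable {K : Type*} [Field K] [CharP K 2]

theorem eF4_apply (x : Fin 26 ⊕ Fin 26) : eF4 x = eFunF4 x := rfl

theorem BT_xF4 (r : ℕ) (t : K) : BT eF4 (chevF4.x K r t) := by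
  by_cases hr : r < chevF4.nroots
  · intro a b
    unfold ChevalleyDatum.x
    rw [dif_pos hr, xMat_eq_pe]
    have := pe_eq_of_peqMod (F := K) 2 (chkBTF4 ⟨r, hr⟩ a b) t
    exact this.trans (by simp [pe])
  · unfold ChevalleyDatum.x
    rw [dif_neg hr]
    exact BT_one _

theorem Rel_xF4 (r : ℕ) (hr : r < 48) (t : K) :
    Qm eF4 (chevF4.x K r t) = Am eF4 (chevF4.x K (rhoF4 r) (t ^ lamF4 r)) := by
  ext a b
  rw [Qm_apply, Am_apply]
  unfold ChevalleyDatum.x
  rw [dif_pos (show r < chevF4.nroots from hr), dif_pos (show rhoF4 r < chevF4.nroots from rhoF4_lt r hr),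
    xMat_eq_pe, xMat_eq_pe, pe_pow]
  exact pe_eq_of_peqMod (F := K) 2 (chkRelF4 ⟨r, hr⟩ a b) t

theorem x_mapF4 (φ : K →+* K) (r : ℕ) (t : K) : (chevF4.x K r t).map φ = chevF4.x K r (φ t) :=
  congrArg Units.val ((relsF4 K).frob_xg φ r t)

theorem Qm_map (φ : K →+* K) (M : Matrix chevF4.Idx chevF4.Idx K) : (Qm eF4 M).map φ = Qm eF4 (M.map φ) := rfl

theorem BT_groupF4 : ∀ g ∈ chevF4.group K, BT eF4 (g : Matrix chevF4.Idx chevF4.Idx K) := by
  have key : ∀ g ∈ chevF4.group K, BT eF4 (g : Matrix chevF4.Idx chevF4.Idx K) ∧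
      BT eF4 ((g⁻¹ : GL chevF4.Idx K) : Matrix chevF4.Idx chevF4.Idx K) := by
    intro g hg
    unfold ChevalleyDatum.group at hg
    induction hg using Subgroup.closure_induction with
    | mem x hx =>
      obtain ⟨r, t, hx⟩ := hx
      have e1 : x = (relsF4 K).xg r t := by
        apply Units.ext
        rw [hx, Rels.coe_xg]
        unfold ChevalleyDatum.x
        rw [dif_pos r.2]
      rw [e1, (relsF4 K).xg_inv]
      exact ⟨BT_xF4 _ _, BT_xF4 _ _⟩
    | one => rw [inv_one]; exact ⟨BT_one _, BT_one _⟩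
    | mul x y _ _ hx hy =>
      rw [mul_inv_rev, Units.val_mul, Units.val_mul]
      exact ⟨BT_mul _ hx.1 hy.1, BT_mul _ hy.2 hx.2⟩
    | inv x _ hx => rw [inv_inv]; exact ⟨hx.2, hx.1⟩
  exact fun g hg => (key g hg).1

/-- the representation on the submodule -/
noncomputable def homAF4 (K : Type*) [Field K] [CharP K 2] : ↥(chevF4.group K) →* Matrix (Fin 26) (Fin 26) K where
  toFun g := Am eF4 ((g : GL chevF4.Idx K) : Matrix chevF4.Idx chevF4.Idx K)
  map_one' := Am_one _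
  map_mul' a b := by
    rw [Subgroup.coe_mul, Units.val_mul]
    exact Am_mul _ (BT_groupF4 _ b.2)

theorem faithfulF4 : ∀ g ∈ chevF4.group K, Am eF4 (g : Matrix chevF4.Idx chevF4.Idx K) = 1 → g = 1 := by
  intro g hg h
  have hs := (Cfsg.Agent.S1054.result (F := K) chevF4 (by simp)).1
  have hk : (⟨g, hg⟩ : ↥(chevF4.group K)) ∈ (homAF4 K).ker := h
  rcases hs.eq_bot_or_eq_top_of_normal (homAF4 K).ker inferInstance with h1 | h1
  · rw [h1, Subgroup.mem_bot] at hk
    exact congrArg Subtype.val hk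
  · exfalso
    have h2 : (⟨(relsF4 K).xg 33 1, (relsF4 K).xg_mem_group _ _⟩ : ↥(chevF4.group K)) ∈ (homAF4 K).ker := by
      rw [h1]; trivial
    have h3 : Am eF4 (chevF4.x K 33 1) = 1 := h2
    have h4 := congrFun (congrFun h3 14) 0
    rw [Am_apply, Matrix.one_apply_ne (by decide)] at h4
    unfold ChevalleyDatum.x at h4
    rw [dif_pos (by decide), xMat_eq_pe] at h4
    have h5 : xPoly chevF4 ⟨33, by decide⟩ (eF4 (Sum.inl 14)) (eF4 (Sum.inl 0)) = [(1, 1)] := by decide +kernel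
    rw [h5] at h4
    simp [pe] at h4

theorem totalF4 (φ : K →+* K) : ∀ g ∈ chevF4.group K, ∃ g' ∈ chevF4.group K,
    (Qm eF4 (g : Matrix chevF4.Idx chevF4.Idx K)).map φ = Am eF4 (g' : Matrix chevF4.Idx chevF4.Idx K) := by
  have key : ∀ g ∈ chevF4.group K, ∃ g' ∈ chevF4.group K,
      (Qm eF4 (g : Matrix chevF4.Idx chevF4.Idx K)).map φ = Am eF4 (g' : Matrix chevF4.Idx chevF4.Idx K) ∧
      (Qm eF4 ((g⁻¹ : GL chevF4.Idx K) : Matrix chevF4.Idx chevF4.Idx K)).map φ =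
        Am eF4 ((g'⁻¹ : GL chevF4.Idx K) : Matrix chevF4.Idx chevF4.Idx K) := by
    intro g hg
    have hg0 := hg
    unfold ChevalleyDatum.group at hg
    induction hg using Subgroup.closure_induction with
    | mem x hx =>
      obtain ⟨r, t, hx⟩ := hx
      have e1 : x = (relsF4 K).xg r t := by
        apply Units.ext
        rw [hx, Rels.coe_xg]
        unfold ChevalleyDatum.x
        rw [dif_pos r.2]
      have hgen : ∀ u : K, (Qm eF4 (((relsF4 K).xg r u : GL chevF4.Idx K) : Matrix chevF4.Idx chevF4.Idx K)).map φ =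
          Am eF4 (((relsF4 K).xg (rhoF4 r) (φ u ^ lamF4 r) : GL chevF4.Idx K) : Matrix chevF4.Idx chevF4.Idx K) := by
        intro u
        rw [Rels.coe_xg, Rels.coe_xg, Qm_map, x_mapF4, Rel_xF4 r r.2]
      refine ⟨(relsF4 K).xg (rhoF4 r) (φ t ^ lamF4 r), (relsF4 K).xg_mem_group _ _, ?_, ?_⟩
      · rw [e1]; exact hgen t
      · rw [e1, (relsF4 K).xg_inv, (relsF4 K).xg_inv, hgen, CharTwo.neg_eq, CharTwo.neg_eq]
    | one => exact ⟨1, Subgroup.one_mem _, by simp [Qm_one, Am_one], by simp [Qm_one, Am_one]⟩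
    | mul x y hx' hy' hx hy =>
      have hxG : x ∈ chevF4.group K := hx'
      have hyG : y ∈ chevF4.group K := hy'
      obtain ⟨x', hx1, hx2, hx3⟩ := hx hxG
      obtain ⟨y', hy1, hy2, hy3⟩ := hy hyG
      refine ⟨x' * y', Subgroup.mul_mem _ hx1 hy1, ?_, ?_⟩
      · rw [Units.val_mul, Units.val_mul, Qm_mul _ (BT_groupF4 _ hxG), Am_mul _ (BT_groupF4 _ hy1), Matrix.map_mul,
          hx2, hy2]
      · rw [mul_inv_rev, mul_inv_rev, Units.val_mul, Units.val_mul,
          Qm_mul _ (BT_groupF4 _ (Subgroup.inv_mem _ hyG)), Am_mul _ (BT_groupF4 _ (Subgroup.inv_mem _ hx1)),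
          Matrix.map_mul, hx3, hy3]
    | inv x hx' hx =>
      have hxG : x ∈ chevF4.group K := hx'
      obtain ⟨x', hx1, hx2, hx3⟩ := hx hxG
      exact ⟨x'⁻¹, Subgroup.inv_mem _ hx1, hx3, by rw [inv_inv, inv_inv]; exact hx2⟩
  intro g hg
  obtain ⟨g', h1, h2, _⟩ := key g hg
  exact ⟨g', h1, h2⟩

/-- the endomorphism `x_r(t) ↦ x_{ρ r}(φ(t)^{λ(r)})` -/
theorem exists_sigmaF4 (φ : K →+* K) : ∃ σ : ↥(chevF4.group K) →* ↥(chevF4.group K),
    ∀ (r : ℕ) (t : K), r < 48 → ((σ ⟨(relsF4 K).xg r t, (relsF4 K).xg_mem_group r t⟩ : ↥(chevF4.group K)) : GL chevF4.Idx K) =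
      (relsF4 K).xg (rhoF4 r) (φ t ^ lamF4 r) := by
  obtain ⟨σ, hσ⟩ := exists_sigma eF4 φ (chevF4.group K) BT_groupF4 faithfulF4 (totalF4 φ)
  refine ⟨σ, fun r t hr => ?_⟩
  have := (hσ ⟨(relsF4 K).xg r t, (relsF4 K).xg_mem_group r t⟩
    ⟨(relsF4 K).xg (rhoF4 r) (φ t ^ lamF4 r), (relsF4 K).xg_mem_group _ _⟩).mpr (by
      show (Qm eF4 (chevF4.x K r t)).map φ = Am eF4 (chevF4.x K (rhoF4 r) (φ t ^ lamF4 r))
      rw [Qm_map, x_mapF4, Rel_xF4 r hr])
  rw [this]

end

end Cfsg.Agent.Chev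

namespace Cfsg.Agent.Chev
open Cfsg.Lie
open scoped MatrixGroups

theorem graph_autF4 {K : Type*} [Field K] [CharP K 2] (hperf : ∀ x : K, ∃ y : K, y ^ 2 = x) :
    ∃ α : ↥(chevF4.group K) ≃* ↥(chevF4.group K), ∀ (r : ℕ) (t : K), r < 48 →
      ((α ⟨(relsF4 K).xg r t, (relsF4 K).xg_mem_group r t⟩ : ↥(chevF4.group K)) : GL chevF4.Idx K) =
      (relsF4 K).xg (rhoF4 r) (t ^ lamF4 r) := by
  obtain ⟨σ, hσ⟩ := exists_sigmaF4 (RingHom.id K)
  have hs := (Cfsg.Agent.S1054.result (F := K) chevF4 (by simp)).1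
  have hinj : Function.Injective σ := by
    rw [injective_iff_map_eq_one]
    intro g hg
    have hk : g ∈ σ.ker := hg
    rcases hs.eq_bot_or_eq_top_of_normal σ.ker inferInstance with h1 | h1
    · rw [h1, Subgroup.mem_bot] at hk
      exact hk
    · exfalso
      have h2 : (⟨(relsF4 K).xg 24 1, (relsF4 K).xg_mem_group _ _⟩ : ↥(chevF4.group K)) ∈ σ.ker := by
        rw [h1]; trivial
      have h3 := congrArg Subtype.val (MonoidHom.mem_ker.mp h2)
      rw [hσ 24 1 (by decide)] at h3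
      have h4 : (relsF4 K).xg 33 1 = 1 := by simpa [rhoF4, lamF4] using h3
      exact one_ne_zero (((relsF4 K).xg_eq_one_iff (r := 33) (by decide) 1).mp h4)
  have hsurj : Function.Surjective σ := by
    rw [← MonoidHom.range_eq_top, eq_top_iff]
    rintro ⟨g, hg⟩ _
    have key : chevF4.group K ≤ (σ.range).map (chevF4.group K).subtype := by
      unfold ChevalleyDatum.group
      rw [Subgroup.closure_le]
      rintro x ⟨r, t, hx⟩
      have e1 : x = (relsF4 K).xg r t := by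
        apply Units.ext
        rw [hx, Rels.coe_xg]
        unfold ChevalleyDatum.x
        rw [dif_pos r.2]
      have hr2 : ∀ r : Fin 48, rhoF4 (rhoF4 r) = r := by decide
      have hl : ∀ r : Fin 48, lamF4 (rhoF4 r) = 1 ∨ lamF4 (rhoF4 r) = 2 := by decide
      obtain ⟨y, hy⟩ : ∃ y : K, y ^ lamF4 (rhoF4 r) = t := by
        rcases hl r with h | h
        · exact ⟨t, by rw [h, pow_one]⟩
        · rw [h]; exact hperf t
      refine ⟨σ ⟨(relsF4 K).xg (rhoF4 r) y, (relsF4 K).xg_mem_group _ _⟩, ⟨_, rfl⟩, ?_⟩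
      show ((σ _ : ↥(chevF4.group K)) : GL chevF4.Idx K) = x
      rw [hσ _ _ (rhoF4_lt r r.2), e1, hr2 r]
      simp [hy]
    obtain ⟨y, hy, e⟩ := key hg
    have : y = ⟨g, hg⟩ := Subtype.ext e
    rwa [← this]
  refine ⟨MulEquiv.ofBijective σ ⟨hinj, hsurj⟩, fun r t hr => ?_⟩
  have := hσ r t hr
  rw [RingHom.id_apply] at this
  exact this

end Cfsg.Agent.Chev
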