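import Cfsg.Agent.Chev.TwF2
import Cfsg.Agent.Chev.Card

/-!
# The Ree groups `²F₄`: the twisting endomorphism and its action on the standard subgroups
-/

set_option autoImplicit false
set_option linter.unusedSectionVars false
set_option linter.unusedVariables false
set_option maxRecDepth 100000

namespace Cfsg.Agent.Chev
open Cfsg.Lie
open scoped MatrixGroups

/-- the data of the twisting -/
structure Ree4 (K : Type*) [Field K] where
  θ : ℕ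
  φ : K →+* K
  phi_eq : ∀ a, φ a = a ^ θ
  phi_phi : ∀ a, φ (φ a) ^ 2 = a
  σ : ↥(chevF4.group K) →* ↥(chevF4.group K)
  sig_xg : ∀ (r : ℕ) (t : K), r < 48 →
    ((σ ⟨(relsF4 K).xg r t, (relsF4 K).xg_mem_group r t⟩ : ↥(chevF4.group K)) : GL chevF4.Idx K) =
      (relsF4 K).xg (rhoF4 r) (φ t ^ lamF4 r)

theorem rhoF4_neg : ∀ r < 48, rhoF4 (chevF4.neg r) = chevF4.neg (rhoF4 r) := by decide +kernel
theorem lamF4_neg : ∀ r < 48, lamF4 (chevF4.neg r) = lamF4 r := by decide +kernel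
theorem rhoF4_rho : ∀ r < 48, rhoF4 (rhoF4 r) = r := by decide +kernel
theorem rhoF4_pos : ∀ r < 48, 24 ≤ r → 24 ≤ rhoF4 r := by decide +kernel
theorem rhoF4_negative : ∀ r < 24, rhoF4 r < 24 := by decide +kernel
theorem lamF4_mul : ∀ r < 48, lamF4 r * lamF4 (rhoF4 r) = 2 := by decide +kernel

/-- the symmetry as a permutation -/
def rhoPF4 : Equiv.Perm (Fin chevF4.nroots) where
  toFun r := ⟨rhoF4 r, rhoF4_lt r r.2⟩
  invFun r := ⟨rhoF4 r, rhoF4_lt r r.2⟩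
  left_inv r := Fin.ext (rhoF4_rho r r.2)
  right_inv r := Fin.ext (rhoF4_rho r r.2)

theorem rhoPF4_apply (r : Fin chevF4.nroots) : ((rhoPF4 r : Fin chevF4.nroots) : ℕ) = rhoF4 r := rfl

theorem rhoPF4_inv : rhoPF4⁻¹ = rhoPF4 := rfl

namespace Ree4
variable {K : Type*} [Field K] [CharP K 2] (S : Ree4 K)

local notation "GG" => chevF4.group K

open Classical in
/-- the endomorphism, extended by `1` outside the group -/
noncomputable def sg (g : GL chevF4.Idx K) : GL chevF4.Idx K :=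
  if h : g ∈ chevF4.group K then (S.σ ⟨g, h⟩ : GL chevF4.Idx K) else 1

theorem sg_of_mem {g : GL chevF4.Idx K} (h : g ∈ GG) : S.sg g = (S.σ ⟨g, h⟩ : GL chevF4.Idx K) := by
  unfold sg; rw [dif_pos h]

theorem sg_mem (g : GL chevF4.Idx K) : S.sg g ∈ GG := by
  unfold sg
  split_ifs with h
  · exact (S.σ ⟨g, h⟩).2
  · exact Subgroup.one_mem _

theorem sg_mul {g g' : GL chevF4.Idx K} (h : g ∈ GG) (h' : g' ∈ GG) : S.sg (g * g') = S.sg g * S.sg g' := by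
  rw [S.sg_of_mem h, S.sg_of_mem h', S.sg_of_mem (Subgroup.mul_mem _ h h'), ← Subgroup.coe_mul, ← map_mul]
  rfl

theorem sg_one : S.sg 1 = 1 := by
  rw [S.sg_of_mem (Subgroup.one_mem _)]
  have : (⟨1, Subgroup.one_mem _⟩ : ↥GG) = 1 := rfl
  rw [this, map_one]; rfl

theorem sg_inv {g : GL chevF4.Idx K} (h : g ∈ GG) : S.sg g⁻¹ = (S.sg g)⁻¹ := by
  rw [eq_inv_iff_mul_eq_one, ← S.sg_mul (Subgroup.inv_mem _ h) h, inv_mul_cancel, S.sg_one]

theorem sg_xg {r : ℕ} (hr : r < 48) (t : K) : S.sg ((relsF4 K).xg r t) = (relsF4 K).xg (rhoF4 r) (S.φ t ^ lamF4 r) := by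
  rw [S.sg_of_mem ((relsF4 K).xg_mem_group r t)]
  exact S.sig_xg r t hr

/-- the fixed points -/
def Γ : Subgroup (GL chevF4.Idx K) where
  carrier := {g | g ∈ GG ∧ S.sg g = g}
  one_mem' := ⟨Subgroup.one_mem _, S.sg_one⟩
  mul_mem' := fun ha hb => ⟨Subgroup.mul_mem _ ha.1 hb.1, by rw [S.sg_mul ha.1 hb.1, ha.2, hb.2]⟩
  inv_mem' := fun ha => ⟨Subgroup.inv_mem _ ha.1, by rw [S.sg_inv ha.1, ha.2]⟩

theorem sg_closure {s : Set (GL chevF4.Idx K)} {Y : Subgroup (GL chevF4.Idx K)}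
    (h : ∀ x ∈ s, x ∈ GG ∧ S.sg x ∈ Y) : ∀ x ∈ Subgroup.closure s, x ∈ GG ∧ S.sg x ∈ Y := by
  intro x hx
  induction hx using Subgroup.closure_induction with
  | mem x hx => exact h x hx
  | one => exact ⟨Subgroup.one_mem _, by rw [S.sg_one]; exact Subgroup.one_mem _⟩
  | mul x y _ _ hx hy =>
    exact ⟨Subgroup.mul_mem _ hx.1 hy.1, by rw [S.sg_mul hx.1 hy.1]; exact Subgroup.mul_mem _ hx.2 hy.2⟩
  | inv x _ hx => exact ⟨Subgroup.inv_mem _ hx.1, by rw [S.sg_inv hx.1]; exact Subgroup.inv_mem _ hx.2⟩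

theorem sg_UU {p q : ℕ → Prop} (h : ∀ s, p s → s < 48 ∧ q (rhoF4 s)) :
    ∀ u ∈ UU chevF4 K p, S.sg u ∈ UU chevF4 K q := by
  intro u hu
  refine (S.sg_closure (Y := UU chevF4 K q) ?_ u hu).2
  rintro x ⟨s, t, hs, hx⟩
  rw [((relsF4 K).eq_xg_iff _ _ _).mp hx]
  exact ⟨(relsF4 K).xg_mem_group _ _, by rw [S.sg_xg (h s hs).1]; exact (relsF4 K).xg_mem_UU (h s hs).2 _⟩

theorem sg_U : ∀ u ∈ chevF4.posUnipotent K, S.sg u ∈ chevF4.posUnipotent K := by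
  apply S.sg_UU
  intro s hs
  rw [goodF4.isPosRoot_iff] at hs ⊢
  exact ⟨hs.2, rhoF4_pos s hs.2 hs.1, rhoF4_lt s hs.2⟩

theorem sg_wg (w : List (ℕ × K)) (hw : ∀ p ∈ w, p.1 < 48) :
    S.sg ((relsF4 K).wg w) = (relsF4 K).wg (w.map fun p => (rhoF4 p.1, S.φ p.2 ^ lamF4 p.1)) := by
  induction w with
  | nil => exact S.sg_one
  | cons p w ih =>
    rw [(relsF4 K).wg_cons, S.sg_mul ((relsF4 K).xg_mem_group _ _) ((relsF4 K).wg_mem_group _), S.sg_xg (hw p List.mem_cons_self),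
      ih (fun x hx => hw x (List.mem_cons_of_mem _ hx)), List.map_cons, (relsF4 K).wg_cons]

theorem sg_ng {r : ℕ} (hr : r < 48) (t : K) : S.sg ((relsF4 K).ng r t) = (relsF4 K).ng (rhoF4 r) (S.φ t ^ lamF4 r) := by
  have hn : chevF4.neg r < 48 := goodF4.neg_lt hr
  rw [(relsF4 K).ng_eq, (relsF4 K).ng_eq, S.sg_mul (Subgroup.mul_mem _ ((relsF4 K).xg_mem_group _ _) ((relsF4 K).xg_mem_group _ _)) ((relsF4 K).xg_mem_group _ _),
    S.sg_mul ((relsF4 K).xg_mem_group _ _) ((relsF4 K).xg_mem_group _ _), S.sg_xg hr, S.sg_xg hn, rhoF4_neg r hr, lamF4_neg r hr,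
    CharTwo.neg_eq, CharTwo.neg_eq, map_inv₀, inv_pow]

theorem ng_mem_group (r : ℕ) (t : K) : (relsF4 K).ng r t ∈ GG := (relsF4 K).wg_mem_group _

theorem sg_hg {r : ℕ} (hr : r < 48) (t : K) : S.sg ((relsF4 K).hg r t) = (relsF4 K).hg (rhoF4 r) (S.φ t ^ lamF4 r) := by
  rw [(relsF4 K).hg_eq, (relsF4 K).hg_eq, S.sg_mul (Ree4.ng_mem_group _ _) (Ree4.ng_mem_group _ _), S.sg_ng hr, S.sg_ng hr, CharTwo.neg_eq, map_one,
    one_pow]

theorem sg_H : ∀ h ∈ chevF4.diagonalSubgroup K, S.sg h ∈ chevF4.diagonalSubgroup K := by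
  intro h hh
  refine (S.sg_closure (Y := chevF4.diagonalSubgroup K) ?_ h hh).2
  rintro g ⟨r, t, hr, ht, hg⟩
  have hg' : g = (relsF4 K).hg r t := ((relsF4 K).eq_wg_iff _ _).mp hg
  rw [hg']
  refine ⟨(relsF4 K).wg_mem_group _, ?_⟩
  rw [S.sg_hg hr]
  exact (relsF4 K).hg_mem_H (rhoF4_lt r hr) (pow_ne_zero _ ((map_ne_zero S.φ).mpr ht))

theorem sg_B : ∀ b ∈ chevF4.borelSubgroup K, S.sg b ∈ chevF4.borelSubgroup K := by
  intro b hb
  obtain ⟨u, hu, h, hh, rfl⟩ := exists_mul_of_mem_sup (relsF4 K).H_le_normalizer_U hb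
  rw [S.sg_mul ((relsF4 K).U_le_group hu) ((relsF4 K).H_le_group hh)]
  exact Subgroup.mul_mem _ ((relsF4 K).U_le_B (S.sg_U u hu)) ((relsF4 K).H_le_B (S.sg_H h hh))

theorem wP_conjF4 : ∀ i (hi : i < chevF4.rank), ∃ hj : 3 - i < chevF4.rank,
    rhoPF4 * goodF4.wP i hi * rhoPF4⁻¹ = goodF4.wP (3 - i) hj ∧ rhoF4 (chevF4.simple i) = chevF4.simple (3 - i) := by
  intro i hi
  have h2 : i < 4 := hi
  have key : ∀ i < 4, ∀ s : Fin 48, rhoF4 (chevF4.reflectRoot i (rhoF4 s)) = chevF4.reflectRoot (3 - i) s := by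
    decide +kernel
  have key2 : ∀ i < 4, rhoF4 (chevF4.simple i) = chevF4.simple (3 - i) := by decide +kernel
  refine ⟨by show 3 - i < 4; omega, ?_, key2 i h2⟩
  ext s
  rw [rhoPF4_inv, Equiv.Perm.mul_apply, Equiv.Perm.mul_apply, rhoPF4_apply, goodF4.wP_apply, goodF4.wP_apply,
    rhoPF4_apply]
  exact key i h2 s

/-- the monomial elements on which `σ` acts as expected -/
def MonS : Subgroup (GL chevF4.Idx K) where
  carrier := {n | n ∈ chevF4.monomialSubgroup K ∧ S.sg n ∈ chevF4.monomialSubgroup K ∧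
    ∃ w, (relsF4 K).IsMono n w ∧ (relsF4 K).IsMono (S.sg n) (rhoPF4 * w * rhoPF4⁻¹)}
  one_mem' := ⟨Subgroup.one_mem _, by rw [S.sg_one]; exact Subgroup.one_mem _, 1,
    Rels.IsMono.of_tor (relsF4 K) (Rels.IsTor.one (relsF4 K)), by
      rw [S.sg_one, mul_one, mul_inv_cancel]; exact Rels.IsMono.of_tor (relsF4 K) (Rels.IsTor.one (relsF4 K))⟩
  mul_mem' := by
    rintro a b ⟨ha, ha', w, h1, h2⟩ ⟨hb, hb', w', h1', h2'⟩
    refine ⟨Subgroup.mul_mem _ ha hb, ?_, w * w', Rels.IsMono.mul (relsF4 K) h1 h1', ?_⟩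
    · rw [S.sg_mul ((relsF4 K).N_le_group ha) ((relsF4 K).N_le_group hb)]; exact Subgroup.mul_mem _ ha' hb'
    · rw [S.sg_mul ((relsF4 K).N_le_group ha) ((relsF4 K).N_le_group hb)]
      have := Rels.IsMono.mul (relsF4 K) h2 h2'
      have e : rhoPF4 * w * rhoPF4⁻¹ * (rhoPF4 * w' * rhoPF4⁻¹) = rhoPF4 * (w * w') * rhoPF4⁻¹ := by group
      rwa [e] at this
  inv_mem' := by
    rintro a ⟨ha, ha', w, h1, h2⟩
    refine ⟨Subgroup.inv_mem _ ha, ?_, w⁻¹, Rels.IsMono.inv (relsF4 K) h1, ?_⟩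
    · rw [S.sg_inv ((relsF4 K).N_le_group ha)]; exact Subgroup.inv_mem _ ha'
    · rw [S.sg_inv ((relsF4 K).N_le_group ha)]
      have := Rels.IsMono.inv (relsF4 K) h2
      have e : (rhoPF4 * w * rhoPF4⁻¹)⁻¹ = rhoPF4 * w⁻¹ * rhoPF4⁻¹ := by group
      rwa [e] at this

theorem N_le_MonS : chevF4.monomialSubgroup K ≤ S.MonS := by
  rw [(relsF4 K).N_eq_N0 good2F4]
  unfold Rels.N0
  apply sup_le
  · intro h hh
    refine ⟨(relsF4 K).H_le_N hh, (relsF4 K).H_le_N (S.sg_H h hh), 1, Rels.IsMono.of_tor (relsF4 K) ((relsF4 K).H_le_Tor hh), ?_⟩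
    rw [mul_one, mul_inv_cancel]
    exact Rels.IsMono.of_tor (relsF4 K) ((relsF4 K).H_le_Tor (S.sg_H h hh))
  · rw [Subgroup.closure_le]
    rintro g ⟨i, hi, hg⟩
    have hg' : g = (relsF4 K).ng (chevF4.simple i) 1 := ((relsF4 K).eq_wg_iff _ _).mp hg
    obtain ⟨hj, e1, e2⟩ := wP_conjF4 i hi
    have e3 : S.sg g = (relsF4 K).ng (chevF4.simple (3 - i)) 1 := by
      rw [hg', S.sg_ng (goodF4.simple_lt i hi), map_one, one_pow, e2]
    refine ⟨hg' ▸ (relsF4 K).ng_mem_N (goodF4.simple_lt i hi), e3 ▸ (relsF4 K).ng_mem_N (goodF4.simple_lt _ hj), goodF4.wP i hi,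
      hg' ▸ Rels.IsMono.ni (relsF4 K) hi, ?_⟩
    rw [e3, e1]
    exact Rels.IsMono.ni (relsF4 K) hj

theorem sg_N : ∀ n ∈ chevF4.monomialSubgroup K, S.sg n ∈ chevF4.monomialSubgroup K :=
  fun n hn => (S.N_le_MonS hn).2.1

theorem sg_mono {n : GL chevF4.Idx K} (hn : n ∈ chevF4.monomialSubgroup K) {w : Equiv.Perm (Fin chevF4.nroots)}
    (hm : (relsF4 K).IsMono n w) : (relsF4 K).IsMono (S.sg n) (rhoPF4 * w * rhoPF4⁻¹) := by
  obtain ⟨_, _, w', h1, h2⟩ := S.N_le_MonS hn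
  rw [Rels.IsMono.unique (relsF4 K) hm h1]
  exact h2

end Ree4

end Cfsg.Agent.Chev
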