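import Cfsg.Agent.Chev.TwF3

/-!
# The Ree groups `²F₄`: an identity over the prime field
-/

set_option autoImplicit false
set_option linter.unusedSectionVars false
set_option linter.unusedVariables false
set_option maxRecDepth 1000000

namespace Cfsg.Agent.Chev
open Cfsg.Lie
open scoped MatrixGroups

/-- all coefficients vanish modulo 2 -/
noncomputable def isZero2 (v : Vec) : Bool :=
  List.rec (motive := fun _ => Bool) true
    (fun σ _ ih => Bool.rec false ih (Nat.beq (Nat.mod (Nat.add σ.p σ.n) 2) 0)) v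

theorem isZero2_cons (σ : Tm) (v : Vec) :
    isZero2 (σ :: v) = Bool.rec false (isZero2 v) (Nat.beq (Nat.mod (Nat.add σ.p σ.n) 2) 0) := rfl

theorem ev_of_isZero2 {F : Type*} [CommRing F] [CharP F 2] (a b : F) (v : Vec) (h : isZero2 v = true) (x : ℕ) :
    ev a b v x = 0 := by
  induction v with
  | nil => rfl
  | cons σ v ih =>
    rw [isZero2_cons] at h
    cases h1 : Nat.beq (Nat.mod (Nat.add σ.p σ.n) 2) 0 with
    | false => rw [h1] at h; exact absurd h (by simp)
    | true =>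
      rw [h1] at h
      have h2 : (σ.p + σ.n) % 2 = 0 := (nbeq_iff _ _).mp h1
      have h3 : ((σ.p + σ.n : ℕ) : F) = 0 := (CharP.cast_eq_zero_iff F 2 _).mpr (Nat.dvd_of_mod_eq_zero h2)
      have h4 : (2 : F) = 0 := by exact_mod_cast (CharP.cast_eq_zero F 2)
      have h5 : (σ.p : F) - (σ.n : F) = 0 := by
        push_cast at h3
        linear_combination h3 - (σ.n : F) * h4
      simp [ev_cons, Tm.val, h5, ih h]

noncomputable def vecEq2 (v w : Vec) : Bool := isZero2 (insAllNeg w (insAll v []))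

theorem ev_eq_of_vecEq2 {F : Type*} [CommRing F] [CharP F 2] (a b : F) (v w : Vec) (h : vecEq2 v w = true) (x : ℕ) :
    ev a b v x = ev a b w x := by
  have := ev_of_isZero2 a b _ h x
  rw [ev_insAllNeg, ev_insAll] at this
  simp only [ev_nil, add_zero] at this
  linear_combination this

noncomputable def apsEq2 (aps₁ aps₂ : List (Vec → Vec)) (m : ℕ) : Bool :=
  allBelow (fun k => vecEq2 (applyAll aps₁ (unitV k)) (applyAll aps₂ (unitV k))) m

theorem prod_eq_of_apsEq2 {l n : ℕ} {F : Type*} [CommRing F] [CharP F 2] (a b : F) (aps₁ aps₂ : List (Vec → Vec))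
    (Ms₁ Ms₂ : List (Matrix (Fin l ⊕ Fin n) (Fin l ⊕ Fin n) F))
    (h₁ : RepAL a b aps₁ Ms₁) (h₂ : RepAL a b aps₂ Ms₂) (h : apsEq2 aps₁ aps₂ (l + n) = true) :
    Ms₁.prod = Ms₂.prod := by
  ext row col
  rw [prodA_apply_eq a b aps₁ Ms₁ h₁, prodA_apply_eq a b aps₂ Ms₂ h₂]
  exact ev_eq_of_vecEq2 a b _ _ ((allBelow_iff _ _).mp h _ (code_lt col)) _

/-- the constant `1` -/
noncomputable def pOne : Vec := [⟨0, 0, 0, 1, 0⟩]

theorem pv_pOne {F : Type*} [Field F] : pv (0 : F) 0 pOne = 1 := by simp [pOne, Tm.val]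

noncomputable def apsW4 (w : List ℕ) : List (Vec → Vec) :=
  List.rec (motive := fun _ => List (Vec → Vec)) [] (fun p _ ih => pkF4.X p pOne :: ih) w

theorem apsW4_cons (p : ℕ) (w : List ℕ) : apsW4 (p :: w) = pkF4.X p pOne :: apsW4 w := rfl

theorem repAL_apsW4 {F : Type*} [Field F] (w : List ℕ) (hw : ∀ p ∈ w, p < 48) :
    RepAL (l := chevF4.rank) (n := chevF4.nroots) (0 : F) 0 (apsW4 w) (w.map fun p => chevF4.x F p 1) := by
  induction w with
  | nil => trivial
  | cons p w ih =>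
    rw [apsW4_cons, List.map_cons]
    refine ⟨?_, ih (fun x hx => hw x (List.mem_cons_of_mem _ hx))⟩
    rw [← pv_pOne]
    exact fastF4.repA 0 0 p (hw p List.mem_cons_self) _

theorem wg_eq_of_chk2 {F : Type*} [Field F] [CharP F 2] (w₁ w₂ : List ℕ) (h₁ : ∀ p ∈ w₁, p < 48)
    (h₂ : ∀ p ∈ w₂, p < 48) (h : apsEq2 (apsW4 w₁) (apsW4 w₂) 52 = true) :
    (relsF4 F).wg (w₁.map fun p => (p, (1 : F))) = (relsF4 F).wg (w₂.map fun p => (p, (1 : F))) := by
  apply Units.ext
  rw [(relsF4 F).coe_wg, (relsF4 F).coe_wg]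
  unfold ChevalleyDatum.wordMat
  rw [List.map_map, List.map_map]
  exact prod_eq_of_apsEq2 (l := chevF4.rank) (n := chevF4.nroots) (0 : F) 0 _ _ _ _ (repAL_apsW4 w₁ h₁) (repAL_apsW4 w₂ h₂) h

/-- `x_S(0,1) x_{-S}(1,1) x_S(1,0)` -/
def wordL2 : List ℕ := [28, 30, 20, 22, 17, 27, 25, 28]

/-- `n_a n_b n_a n_b` -/
def wordR2 : List ℕ := [27, 20, 27, 25, 22, 25, 27, 20, 27, 25, 22, 25]

theorem chk_word2 : apsEq2 (apsW4 wordL2) (apsW4 wordR2) 52 = true := by decide +kernel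

end Cfsg.Agent.Chev
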