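import Cfsg.Agent.Chev.TwF4
import Cfsg.Agent.Chev.Tw5

/-!
# The Ree groups `²F₄`: the fixed points in `U`, block by block
-/

set_option autoImplicit false
set_option linter.unusedSectionVars false
set_option linter.unusedVariables false
set_option maxRecDepth 1000000

namespace Cfsg.Agent.Chev
open Cfsg.Lie
open scoped MatrixGroups

theorem SC_suffix {D : ChevalleyDatum} : ∀ (P L : List ℕ), SC D (P ++ L) → SC D L
  | [], _, h => h
  | _ :: P, L, h => SC_suffix P L h.2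

/-- the classes of positive roots, in a convex order -/
def clsF4 : List (List ℕ) :=
  [[33, 24], [34, 26, 36, 42], [38, 43], [29, 41, 44, 47], [39, 45], [35, 31, 40, 46], [37, 32], [27, 25, 28, 30]]

def LF4 : List ℕ := clsF4.flatten
def LF4r : List ℕ := clsF4.reverse.flatten

theorem LF4_sc : SC chevF4 LF4 := by decide +kernel
theorem LF4r_sc : SC chevF4 LF4r := by decide +kernel

theorem mem_LF4 (r : ℕ) : r ∈ LF4 ↔ chevF4.nroots / 2 ≤ r ∧ r < chevF4.nroots := by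
  show r ∈ LF4 ↔ 24 ≤ r ∧ r < 48
  constructor
  · intro h
    have : ∀ r ∈ LF4, 24 ≤ r ∧ r < 48 := by decide
    exact this r h
  · rintro ⟨h1, h2⟩
    have : ∀ r < 48, 24 ≤ r → r ∈ LF4 := by decide
    exact this r h2 h1

theorem mem_LF4r (r : ℕ) : r ∈ LF4r ↔ chevF4.nroots / 2 ≤ r ∧ r < chevF4.nroots := by
  rw [← mem_LF4]
  have : LF4r.Perm LF4 := by decide
  exact this.mem_iff

theorem LF4_nodup : LF4.Nodup := by decide
theorem LF4r_nodup : LF4r.Nodup := by decide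

theorem cls_ok : ∀ C ∈ clsF4, SC chevF4 C ∧ ∀ r ∈ C, rhoF4 r ∈ C := by decide +kernel

theorem negHtF4_addFn : AddFn chevF4 (fun r => - goodF4.ht r) where
  neg := fun r hr => by rw [goodF4.ht_addFn.neg r hr]
  ent := fun r hr s hs k e he => by
    have := goodF4.ht_addFn.ent r hr s hs k e he
    rw [this]; ring

namespace Ree4
variable {K : Type*} [Field K] [Fintype K] [CharP K 2] (S : Ree4 K)

/-- admissible orders of the positive roots -/
structure Adm (L : List ℕ) : Prop where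
  sc : SC chevF4 L
  mem : ∀ r, r ∈ L ↔ chevF4.nroots / 2 ≤ r ∧ r < chevF4.nroots
  nodup : L.Nodup

omit [Fintype K] [CharP K 2] in
theorem UUl_le_U {L : List ℕ} (A : Adm L) {C : List ℕ} (hC : ∀ r ∈ C, r ∈ L) :
    UU chevF4 K (fun s => s ∈ C) ≤ chevF4.posUnipotent K := by
  rw [← UU_pos]
  apply UU_mono
  intro s hs
  rw [goodF4.isPosRoot_iff]
  exact (A.mem s).mp (hC s hs)

omit [Fintype K] [CharP K 2] in
theorem exists_prodl {L : List ℕ} (A : Adm L) {C : List ℕ} (hC : ∀ r ∈ C, r ∈ L) (hSC : SC chevF4 C)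
    {g : GL chevF4.Idx K} (hg : g ∈ UU chevF4 K (fun s => s ∈ C)) : ∃ t : ℕ → K, g = (relsF4 K).prodL t C := by
  have h1 : g ∈ UU chevF4 K (fun s => s ∈ C ∧ True) := by
    have : UU chevF4 K (fun s => s ∈ C) = UU chevF4 K (fun s => s ∈ C ∧ True) := UU_congr (fun s => by simp)
    rwa [← this]
  obtain ⟨t, _, e⟩ := (relsF4 K).exists_prodP (fun _ => True) (fun _ _ _ _ _ _ _ _ _ => trivial) C hSC
    (fun r hr => (A.mem r).mp (hC r hr)) g h1
  exact ⟨t, e⟩

omit [CharP K 2] in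
theorem UU_inf_bot {L : List ℕ} (A : Adm L) {P C Q : List ℕ} (e : P ++ (C ++ Q) = L) (hC : SC chevF4 C) :
    UU chevF4 K (fun s => s ∈ C) ⊓ UU chevF4 K (fun s => s ∈ Q) = ⊥ := by
  classical
  have hCL : ∀ r ∈ C, r ∈ L := fun r hr => by rw [← e]; simp [hr]
  have hQL : ∀ r ∈ Q, r ∈ L := fun r hr => by rw [← e]; simp [hr]
  have hQ : SC chevF4 Q := by
    have h1 := A.sc
    rw [← e, ← List.append_assoc] at h1
    exact SC_suffix _ _ h1
  have hnd := A.nodup
  rw [← e] at hnd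
  have hnd2 := (List.nodup_append.mp hnd).2.1
  have hPd : ∀ r ∈ P, r ∉ C ∧ r ∉ Q := by
    intro r hr
    have := (List.nodup_append.mp hnd).2.2 r hr
    exact ⟨fun h => this r (by simp [h]) rfl, fun h => this r (by simp [h]) rfl⟩
  have hCQ : ∀ r ∈ C, r ∉ Q := fun r hr h => (List.nodup_append.mp hnd2).2.2 r hr r h rfl
  rw [eq_bot_iff]
  rintro x ⟨hx1, hx2⟩
  obtain ⟨t, e1⟩ := exists_prodl A hCL hC hx1
  obtain ⟨t', e2⟩ := exists_prodl A hQL hQ hx2
  let T : ℕ → K := fun r => if r ∈ C then t r else 0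
  let T' : ℕ → K := fun r => if r ∈ Q then t' r else 0
  have h1 : (relsF4 K).prodL T L = x := by
    rw [← e, (relsF4 K).prodL_append, (relsF4 K).prodL_append,
      (relsF4 K).prodL_eq_one (t := T) (L := P) (fun r hr => if_neg (hPd r hr).1),
      (relsF4 K).prodL_eq_one (t := T) (L := Q) (fun r hr => if_neg (fun h => hCQ r h hr)), one_mul, mul_one, e1]
    exact (relsF4 K).prodL_congr (fun r hr => if_pos hr)
  have h2 : (relsF4 K).prodL T' L = x := by
    rw [← e, (relsF4 K).prodL_append, (relsF4 K).prodL_append,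
      (relsF4 K).prodL_eq_one (t := T') (L := P) (fun r hr => if_neg (hPd r hr).2),
      (relsF4 K).prodL_eq_one (t := T') (L := C) (fun r hr => if_neg (hCQ r hr)), one_mul, one_mul, e2]
    exact (relsF4 K).prodL_congr (fun r hr => if_pos hr)
  have hlt : ∀ r ∈ L, - goodF4.ht r < 0 := by
    intro r hr
    have h := (A.mem r).mp hr
    have := (goodF4.ht_pos_iff h.2).mpr h.1
    omega
  have h3 := (relsF4 K).prodL_inj good2F4 negHtF4_addFn L A.sc A.mem
    (fun r hr h => absurd (hlt r hr) h) (fun r hr h => absurd (hlt r hr) h) (h1.trans h2.symm)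
  rw [Subgroup.mem_bot, e1]
  apply (relsF4 K).prodL_eq_one
  intro r hr
  have := h3 r (hCL r hr)
  simp only [T, T', if_pos hr, if_neg (hCQ r hr)] at this
  exact this

theorem split {L : List ℕ} (A : Adm L) {P C Q : List ℕ} (e : P ++ (C ++ Q) = L) (hC : SC chevF4 C)
    (hρC : ∀ r ∈ C, rhoF4 r ∈ C) (hρQ : ∀ r ∈ Q, rhoF4 r ∈ Q) {g : GL chevF4.Idx K}
    (hg : g ∈ UU chevF4 K (fun s => s ∈ C ++ Q) ⊓ S.Γ) :
    ∃ a ∈ UU chevF4 K (fun s => s ∈ C) ⊓ S.Γ, ∃ b ∈ UU chevF4 K (fun s => s ∈ Q) ⊓ S.Γ, g = a * b := by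
  have hCL : ∀ r ∈ C, r ∈ L := fun r hr => by rw [← e]; simp [hr]
  have hQL : ∀ r ∈ Q, r ∈ L := fun r hr => by rw [← e]; simp [hr]
  have hCQL : ∀ r ∈ C ++ Q, r ∈ L := fun r hr => by rw [← e]; exact List.mem_append_right _ hr
  have hSC : SC chevF4 (C ++ Q) := by
    have h1 := A.sc
    rw [← e] at h1
    exact SC_suffix _ _ h1
  obtain ⟨t, e1⟩ := exists_prodl A hCQL hSC hg.1
  rw [(relsF4 K).prodL_append] at e1
  set a := (relsF4 K).prodL t C with ha
  set b := (relsF4 K).prodL t Q with hb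
  have haU : a ∈ UU chevF4 K (fun s => s ∈ C) := (relsF4 K).prodL_mem t C (fun r hr => Or.inl hr)
  have hbU : b ∈ UU chevF4 K (fun s => s ∈ Q) := (relsF4 K).prodL_mem t Q (fun r hr => Or.inl hr)
  have haG := (relsF4 K).U_le_group (UUl_le_U A hCL haU)
  have hbG := (relsF4 K).U_le_group (UUl_le_U A hQL hbU)
  have hsa : S.sg a ∈ UU chevF4 K (fun s => s ∈ C) :=
    S.sg_UU (fun s hs => ⟨((A.mem s).mp (hCL s hs)).2, hρC s hs⟩) a haU
  have hsb : S.sg b ∈ UU chevF4 K (fun s => s ∈ Q) :=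
    S.sg_UU (fun s hs => ⟨((A.mem s).mp (hQL s hs)).2, hρQ s hs⟩) b hbU
  have h1 := hg.2.2
  rw [e1, S.sg_mul haG hbG] at h1
  have h2 : a⁻¹ * S.sg a = b * (S.sg b)⁻¹ := by
    calc a⁻¹ * S.sg a = a⁻¹ * (S.sg a * S.sg b) * (S.sg b)⁻¹ := by group
      _ = _ := by rw [h1]; group
  have h3 : a⁻¹ * S.sg a ∈ UU chevF4 K (fun s => s ∈ C) ⊓ UU chevF4 K (fun s => s ∈ Q) :=
    ⟨Subgroup.mul_mem _ (Subgroup.inv_mem _ haU) hsa, h2 ▸ Subgroup.mul_mem _ hbU (Subgroup.inv_mem _ hsb)⟩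
  rw [UU_inf_bot A e hC, Subgroup.mem_bot] at h3
  have h4 : S.sg a = a := (inv_mul_eq_one.mp h3).symm
  have h5 : S.sg b = b := by
    rw [h3] at h2
    exact (mul_inv_eq_one.mp h2.symm).symm
  exact ⟨a, ⟨haU, haG, h4⟩, b, ⟨hbU, hbG, h5⟩, e1⟩

/-- the fixed points of a union of classes are generated by the fixed points of the classes -/
theorem blocks_le {L : List ℕ} (A : Adm L) (Y : Subgroup (GL chevF4.Idx K)) : ∀ (cs : List (List ℕ)) (P : List ℕ),
    P ++ cs.flatten = L → (∀ C ∈ cs, SC chevF4 C ∧ ∀ r ∈ C, rhoF4 r ∈ C) →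
    (∀ C ∈ cs, UU chevF4 K (fun s => s ∈ C) ⊓ S.Γ ≤ Y) → UU chevF4 K (fun s => s ∈ cs.flatten) ⊓ S.Γ ≤ Y := by
  intro cs
  induction cs with
  | nil =>
    intro P _ _ _ g hg
    have : UU chevF4 K (fun s => s ∈ ([] : List (List ℕ)).flatten) ≤ ⊥ := by
      apply (relsF4 K).UU_le
      intro s hs
      simp at hs
    rw [Subgroup.mem_bot.mp (this hg.1)]
    exact Subgroup.one_mem _
  | cons C cs ih =>
    intro P e hok hY g hg
    rw [List.flatten_cons] at e hg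
    have hρQ : ∀ r ∈ cs.flatten, rhoF4 r ∈ cs.flatten := by
      intro r hr
      obtain ⟨C', hC', hr'⟩ := List.mem_flatten.mp hr
      exact List.mem_flatten.mpr ⟨C', hC', (hok C' (List.mem_cons_of_mem _ hC')).2 r hr'⟩
    obtain ⟨a, ha, b, hb, rfl⟩ := S.split A e (hok C List.mem_cons_self).1 (hok C List.mem_cons_self).2 hρQ hg
    exact Subgroup.mul_mem _ (hY C List.mem_cons_self ha)
      (ih (P ++ C) (by rw [List.append_assoc]; exact e) (fun C' h => hok C' (List.mem_cons_of_mem _ h))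
        (fun C' h => hY C' (List.mem_cons_of_mem _ h)) hb)

theorem card_blocks {L : List ℕ} (A : Adm L) : ∀ (cs : List (List ℕ)) (P : List ℕ),
    P ++ cs.flatten = L → (∀ C ∈ cs, SC chevF4 C ∧ ∀ r ∈ C, rhoF4 r ∈ C) →
    Nat.card ↥(UU chevF4 K (fun s => s ∈ cs.flatten) ⊓ S.Γ) =
      (cs.map fun C => Nat.card ↥(UU chevF4 K (fun s => s ∈ C) ⊓ S.Γ)).prod := by
  intro cs
  induction cs with
  | nil =>
    intro P _ _
    have : UU chevF4 K (fun s => s ∈ ([] : List (List ℕ)).flatten) ⊓ S.Γ = ⊥ := by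
      rw [eq_bot_iff]
      refine inf_le_left.trans ?_
      apply (relsF4 K).UU_le
      intro s hs
      simp at hs
    rw [this]
    simp
  | cons C cs ih =>
    intro P e hok
    rw [List.flatten_cons] at e
    have hρQ : ∀ r ∈ cs.flatten, rhoF4 r ∈ cs.flatten := by
      intro r hr
      obtain ⟨C', hC', hr'⟩ := List.mem_flatten.mp hr
      exact List.mem_flatten.mpr ⟨C', hC', (hok C' (List.mem_cons_of_mem _ hC')).2 r hr'⟩
    rw [List.map_cons, List.prod_cons, ← ih (P ++ C) (by rw [List.append_assoc]; exact e)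
      (fun C' h => hok C' (List.mem_cons_of_mem _ h)), List.flatten_cons, ← Nat.card_prod]
    let ψ : ↥(UU chevF4 K (fun s => s ∈ C) ⊓ S.Γ) × ↥(UU chevF4 K (fun s => s ∈ cs.flatten) ⊓ S.Γ) →
        ↥(UU chevF4 K (fun s => s ∈ C ++ cs.flatten) ⊓ S.Γ) := fun x =>
      ⟨x.1.1 * x.2.1, Subgroup.mul_mem _ (UU_mono (fun s hs => List.mem_append_left _ hs) x.1.2.1)
        (UU_mono (fun s hs => List.mem_append_right _ hs) x.2.2.1), Subgroup.mul_mem _ x.1.2.2 x.2.2.2⟩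
    have hψ : Function.Bijective ψ := by
      constructor
      · rintro ⟨a, b⟩ ⟨a', b'⟩ h
        have e1 : a.1 * b.1 = a'.1 * b'.1 := congrArg Subtype.val h
        have e2 : a'.1⁻¹ * a.1 = b'.1 * b.1⁻¹ := by
          calc a'.1⁻¹ * a.1 = a'.1⁻¹ * (a.1 * b.1) * b.1⁻¹ := by group
            _ = _ := by rw [e1]; group
        have h1 : a'.1⁻¹ * a.1 ∈ UU chevF4 K (fun s => s ∈ C) ⊓ UU chevF4 K (fun s => s ∈ cs.flatten) :=
          ⟨Subgroup.mul_mem _ (Subgroup.inv_mem _ a'.2.1) a.2.1,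
            e2 ▸ Subgroup.mul_mem _ b'.2.1 (Subgroup.inv_mem _ b.2.1)⟩
        rw [UU_inf_bot A e (hok C List.mem_cons_self).1, Subgroup.mem_bot] at h1
        have h2 : a = a' := Subtype.ext (inv_mul_eq_one.mp h1).symm
        have h3 : b = b' := by
          apply Subtype.ext
          rw [h1] at e2
          exact (mul_inv_eq_one.mp e2.symm).symm
        rw [h2, h3]
      · rintro ⟨g, hg⟩
        obtain ⟨a, ha, b, hb, rfl⟩ := S.split A e (hok C List.mem_cons_self).1 (hok C List.mem_cons_self).2 hρQ hg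
        exact ⟨⟨⟨a, ha⟩, ⟨b, hb⟩⟩, rfl⟩
    exact (Nat.card_congr (Equiv.ofBijective ψ hψ)).symm

end Ree4

theorem admF4 : Ree4.Adm LF4 := ⟨LF4_sc, mem_LF4, LF4_nodup⟩
theorem admF4r : Ree4.Adm LF4r := ⟨LF4r_sc, mem_LF4r, LF4r_nodup⟩

end Cfsg.Agent.Chev
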