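import Cfsg.Agent.Chev.TwG18

/-!
# The Ree groups `²G₂`: stabilizers of three points
-/

set_option autoImplicit false
set_option linter.unusedSectionVars false
set_option linter.unusedVariables false
set_option maxRecDepth 100000

namespace Cfsg.Agent.Chev
open Cfsg.Lie
open scoped MatrixGroups

namespace Ree
variable {K : Type*} [Field K] [Fintype K] [CharP K 3] (S : Ree K)

omit [CharP K 3] in
theorem mono_w0_inv {n : GL chevG2.Idx K} (hm : (relsG2 K).IsMono n w0G2) : (relsG2 K).IsMono n⁻¹ w0G2 :=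
  Rels.IsMono.inv (relsG2 K) hm

omit [CharP K 3] in
/-- `B ∩ n B n⁻¹ = H` for `n` of type `w₀` -/
theorem B_inf_conj {n g : GL chevG2.Idx K} (hn : n ∈ chevG2.monomialSubgroup K) (hm : (relsG2 K).IsMono n w0G2)
    (h1 : g ∈ chevG2.borelSubgroup K) (h2 : n⁻¹ * g * n ∈ chevG2.borelSubgroup K) : g ∈ chevG2.diagonalSubgroup K := by
  obtain ⟨u, hu, h, hh, e'⟩ := exists_mul_of_mem_sup (relsG2 K).H_le_normalizer_U h2
  have h3 : n * u * n⁻¹ ∈ chevG2.negUnipotent K := mono_w0_conj_U hm u hu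
  have h4 : n * h * n⁻¹ ∈ chevG2.diagonalSubgroup K :=
    (Subgroup.mem_normalizer_iff.mp ((relsG2 K).N_le_normalizer_H good2G2 hn) _).mp hh
  have h5 : g = (n * u * n⁻¹) * (n * h * n⁻¹) := by
    have : g = n * (n⁻¹ * g * n) * n⁻¹ := by group
    rw [this, e']; group
  have h6 : g ∈ chevG2.borelSubgroup K ⊓ (chevG2.negUnipotent K ⊔ chevG2.diagonalSubgroup K) :=
    ⟨h1, h5 ▸ Subgroup.mul_mem _ (Subgroup.mem_sup_left h3) (Subgroup.mem_sup_right h4)⟩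
  rwa [(relsG2 K).B_inf_VH] at h6

theorem three_pt (hq : Fintype.card K % 4 = 3) {c d : GL chevG2.Idx K} (hc : c ∈ S.G1) (hd : d ∈ S.G1)
    (hcB : c ∉ chevG2.borelSubgroup K) (hdB : d ∉ chevG2.borelSubgroup K) (hcd : c⁻¹ * d ∉ chevG2.borelSubgroup K) :
    ∃ t0 : GL chevG2.Idx K, ∀ g ∈ S.G1, g ∈ chevG2.borelSubgroup K → c⁻¹ * g * c ∈ chevG2.borelSubgroup K →
      d⁻¹ * g * d ∈ chevG2.borelSubgroup K → g = 1 ∨ g = t0 := by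
  rcases S.G1_decomp hc with h | ⟨u1, hu1, n, hn, hm, u2, hu2, rfl⟩
  · exact absurd h.1 hcB
  rcases S.G1_decomp hd with h | ⟨u3, hu3, n', hn', hm', u4, hu4, rfl⟩
  · exact absurd h.1 hdB
  refine ⟨u1 * S.hR (-1) * u1⁻¹, ?_⟩
  intro g hg h1 h2 h3
  have hU : ∀ {x : GL chevG2.Idx K}, x ∈ chevG2.posUnipotent K ⊓ S.G1 → x ∈ chevG2.borelSubgroup K :=
    fun hx => (relsG2 K).U_le_B hx.1
  -- the conjugate `g''`
  set g2 := u1⁻¹ * g * u1 with hg2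
  have hg2B : g2 ∈ chevG2.borelSubgroup K :=
    Subgroup.mul_mem _ (Subgroup.mul_mem _ (Subgroup.inv_mem _ (hU hu1)) h1) (hU hu1)
  have hg2G : g2 ∈ S.G1 := Subgroup.mul_mem _ (Subgroup.mul_mem _ (Subgroup.inv_mem _ hu1.2) hg) hu1.2
  have hg2n : n⁻¹ * g2 * n ∈ chevG2.borelSubgroup K := by
    have := Subgroup.mul_mem _ (Subgroup.mul_mem _ (hU hu2) h2) (Subgroup.inv_mem _ (hU hu2))
    have e : u2 * ((u1 * n * u2)⁻¹ * g * (u1 * n * u2)) * u2⁻¹ = n⁻¹ * g2 * n := by rw [hg2]; group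
    rwa [e] at this
  have hg2H : g2 ∈ chevG2.diagonalSubgroup K ⊓ S.G1 := ⟨B_inf_conj hn.1 hm hg2B hg2n, hg2G⟩
  obtain ⟨y, hy, ey⟩ := (S.mem_H1_iff hq g2).mp hg2H
  -- the element `w`
  set w := u1⁻¹ * u3 with hw
  have hwU : w ∈ chevG2.posUnipotent K ⊓ S.G1 := Subgroup.mul_mem _ (Subgroup.inv_mem _ hu1) hu3
  have hw1 : w ≠ 1 := by
    intro h
    apply hcd
    have e : (u1 * n * u2)⁻¹ * (u3 * n' * u4) = u2⁻¹ * (n⁻¹ * w * n') * u4 := by rw [hw]; group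
    rw [e, h, mul_one]
    exact Subgroup.mul_mem _ (Subgroup.mul_mem _ (Subgroup.inv_mem _ (hU hu2))
      (S.H1_le_B1 (S.H1_of_two hn' hn hm' hm).2.1).1) (hU hu4)
  have h4 : n'⁻¹ * (w⁻¹ * g2 * w) * n' ∈ chevG2.borelSubgroup K := by
    have := Subgroup.mul_mem _ (Subgroup.mul_mem _ (hU hu4) h3) (Subgroup.inv_mem _ (hU hu4))
    have e : u4 * ((u3 * n' * u4)⁻¹ * g * (u3 * n' * u4)) * u4⁻¹ = n'⁻¹ * (w⁻¹ * g2 * w) * n' := by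
      rw [hg2, hw]; group
    rwa [e] at this
  have h5 : n'⁻¹ * g2 * n' ∈ chevG2.diagonalSubgroup K := by
    have := (Subgroup.mem_normalizer_iff.mp ((relsG2 K).N_le_normalizer_H good2G2 (Subgroup.inv_mem _ hn'.1)) _).mp hg2H.1
    rwa [inv_inv] at this
  have h6 : g2 * w * g2⁻¹ ∈ chevG2.posUnipotent K :=
    (Subgroup.mem_normalizer_iff.mp ((relsG2 K).H_le_normalizer_U hg2H.1) _).mp hwU.1
  have h7 : n'⁻¹ * (w⁻¹ * (g2 * w * g2⁻¹)) * n'⁻¹⁻¹ ∈ chevG2.borelSubgroup K ⊓ chevG2.negUnipotent K := by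
    refine ⟨?_, mono_w0_conj_U (mono_w0_inv hm') _ (Subgroup.mul_mem _ (Subgroup.inv_mem _ hwU.1) h6)⟩
    have := Subgroup.mul_mem _ h4 (Subgroup.inv_mem _ ((relsG2 K).H_le_B h5))
    have e : n'⁻¹ * (w⁻¹ * g2 * w) * n' * (n'⁻¹ * g2 * n')⁻¹ = n'⁻¹ * (w⁻¹ * (g2 * w * g2⁻¹)) * n'⁻¹⁻¹ := by group
    rwa [e] at this
  rw [(relsG2 K).B_inf_V, Subgroup.mem_bot] at h7
  have h8 : g2 * w * g2⁻¹ = w := by
    have : w⁻¹ * (g2 * w * g2⁻¹) = 1 := by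
      calc w⁻¹ * (g2 * w * g2⁻¹) = n' * (n'⁻¹ * (w⁻¹ * (g2 * w * g2⁻¹)) * n'⁻¹⁻¹) * n'⁻¹ := by group
        _ = 1 := by rw [h7]; group
    exact (inv_mul_eq_one.mp this).symm
  obtain ⟨t, u, v, ew⟩ := (S.mem_U1_iff w).mp hwU
  rw [ew, ey] at h8
  rw [ew] at hw1
  have e9 : g = u1 * g2 * u1⁻¹ := by rw [hg2]; group
  rcases S.cent_cases' hq hy h8 hw1 with rfl | rfl
  · left
    rw [e9, ey, S.hR_one]; group
  · right
    rw [e9, ey]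

/-- `B¹` as a subgroup of the Ree group -/
def B1s : Subgroup ↥S.G1 := (chevG2.borelSubgroup K ⊓ S.G1).subgroupOf S.G1

theorem mem_B1s (x : ↥S.G1) : x ∈ S.B1s ↔ (x : GL chevG2.Idx K) ∈ chevG2.borelSubgroup K := by
  unfold B1s
  rw [Subgroup.mem_subgroupOf]
  exact ⟨fun h => h.1, fun h => ⟨h, x.2⟩⟩

theorem mem_stab (a g : ↥S.G1) : g ∈ MulAction.stabilizer ↥S.G1 (a : ↥S.G1 ⧸ S.B1s) ↔
    (a : GL chevG2.Idx K)⁻¹ * g * a ∈ chevG2.borelSubgroup K := by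
  rw [MulAction.mem_stabilizer_iff]
  show ((g * a : ↥S.G1) : ↥S.G1 ⧸ S.B1s) = a ↔ _
  rw [QuotientGroup.eq, S.mem_B1s, ← inv_mem_iff]
  have e : (((g * a)⁻¹ * a : ↥S.G1) : GL chevG2.Idx K)⁻¹ = (a : GL chevG2.Idx K)⁻¹ * g * a := by
    simp only [Subgroup.coe_mul, Subgroup.coe_inv]; group
  rw [e]

theorem coset_ne (a b : ↥S.G1) : (a : ↥S.G1 ⧸ S.B1s) ≠ b ↔ (a : GL chevG2.Idx K)⁻¹ * b ∉ chevG2.borelSubgroup K := by
  rw [Ne, QuotientGroup.eq, S.mem_B1s]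
  rfl

theorem stab_le_two (hq : Fintype.card K % 4 = 3) (x y z : ↥S.G1 ⧸ S.B1s) (hxy : x ≠ y) (hxz : x ≠ z) (hyz : y ≠ z) :
    Nat.card ↥(MulAction.stabilizer ↥S.G1 x ⊓ MulAction.stabilizer ↥S.G1 y ⊓ MulAction.stabilizer ↥S.G1 z) ≤ 2 := by
  obtain ⟨a1, rfl⟩ := QuotientGroup.mk_surjective x
  obtain ⟨a2, rfl⟩ := QuotientGroup.mk_surjective y
  obtain ⟨a3, rfl⟩ := QuotientGroup.mk_surjective z
  rw [S.coset_ne] at hxy hxz hyz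
  have hcd : ((a1 : GL chevG2.Idx K)⁻¹ * a2)⁻¹ * ((a1 : GL chevG2.Idx K)⁻¹ * a3) ∉ chevG2.borelSubgroup K := by
    have e : ((a1 : GL chevG2.Idx K)⁻¹ * a2)⁻¹ * ((a1 : GL chevG2.Idx K)⁻¹ * a3) = (a2 : GL chevG2.Idx K)⁻¹ * a3 := by
      group
    rwa [e]
  obtain ⟨t0, ht0⟩ := S.three_pt hq (Subgroup.mul_mem _ (Subgroup.inv_mem _ a1.2) a2.2)
    (Subgroup.mul_mem _ (Subgroup.inv_mem _ a1.2) a3.2) hxy hxz hcd
  let T := MulAction.stabilizer ↥S.G1 (a1 : ↥S.G1 ⧸ S.B1s) ⊓ MulAction.stabilizer ↥S.G1 (a2 : ↥S.G1 ⧸ S.B1s) ⊓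
    MulAction.stabilizer ↥S.G1 (a3 : ↥S.G1 ⧸ S.B1s)
  have hT : ∀ g : ↥T, (a1 : GL chevG2.Idx K)⁻¹ * (g : ↥S.G1) * a1 ∈ ({1, t0} : Set (GL chevG2.Idx K)) := by
    rintro ⟨g, ⟨h1, h2⟩, h3⟩
    replace h1 := (S.mem_stab a1 g).mp h1
    replace h2 := (S.mem_stab a2 g).mp h2
    replace h3 := (S.mem_stab a3 g).mp h3
    have := ht0 ((a1 : GL chevG2.Idx K)⁻¹ * g * a1)
      (Subgroup.mul_mem _ (Subgroup.mul_mem _ (Subgroup.inv_mem _ a1.2) g.2) a1.2) h1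
      (by
        have e : ((a1 : GL chevG2.Idx K)⁻¹ * a2)⁻¹ * ((a1 : GL chevG2.Idx K)⁻¹ * g * a1) * ((a1 : GL chevG2.Idx K)⁻¹ * a2) =
          (a2 : GL chevG2.Idx K)⁻¹ * g * a2 := by group
        rwa [e])
      (by
        have e : ((a1 : GL chevG2.Idx K)⁻¹ * a3)⁻¹ * ((a1 : GL chevG2.Idx K)⁻¹ * g * a1) * ((a1 : GL chevG2.Idx K)⁻¹ * a3) =
          (a3 : GL chevG2.Idx K)⁻¹ * g * a3 := by group
        rwa [e])
    exact this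
  let f : ↥T → ({1, t0} : Set (GL chevG2.Idx K)) := fun g => ⟨_, hT g⟩
  have hf : Function.Injective f := by
    intro g g' h
    have h1 : (a1 : GL chevG2.Idx K)⁻¹ * (g : ↥S.G1) * a1 = (a1 : GL chevG2.Idx K)⁻¹ * (g' : ↥S.G1) * a1 :=
      congrArg Subtype.val h
    apply Subtype.ext
    apply Subtype.ext
    exact mul_left_cancel (mul_right_cancel h1)
  have h2 : Nat.card ({1, t0} : Set (GL chevG2.Idx K)) ≤ 2 := by
    rw [Nat.card_coe_set_eq]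
    exact (Set.ncard_insert_le 1 {t0}).trans (by rw [Set.ncard_singleton])
  exact (Nat.card_le_card_of_injective f hf).trans h2

theorem hR_neg_one_ne : S.hR (-1) ≠ 1 := by
  intro h
  rw [← S.hR_one] at h
  have h1 := S.hR_inj (by simp) one_ne_zero h
  have h5 : (2 : K) = 0 := by linear_combination -h1
  have h6 : (3 : K) = 0 := by exact_mod_cast (CharP.cast_eq_zero K 3)
  exact one_ne_zero (show (1 : K) = 0 by linear_combination h6 - h5)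

theorem stab_eq_two (hq : Fintype.card K % 4 = 3) : ∃ x y z : ↥S.G1 ⧸ S.B1s, x ≠ y ∧ x ≠ z ∧ y ≠ z ∧
    Nat.card ↥(MulAction.stabilizer ↥S.G1 x ⊓ MulAction.stabilizer ↥S.G1 y ⊓ MulAction.stabilizer ↥S.G1 z) = 2 := by
  obtain ⟨n0, hn0, hm0⟩ := S.exists_n0
  have hn0B : n0 ∉ chevG2.borelSubgroup K := by
    intro h
    have h1 : n0 ∈ chevG2.borelSubgroup K ⊓ chevG2.monomialSubgroup K := ⟨h, hn0.1⟩
    rw [(relsG2 K).B_inf_N good2G2] at h1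
    exact w0G2_ne_one (Rels.IsMono.unique (relsG2 K) hm0 (Rels.IsMono.of_tor (relsG2 K) ((relsG2 K).H_le_Tor h1)))
  have huU : S.uR 0 1 0 ∈ chevG2.posUnipotent K := PU_mem_U _ _ _ _ _ _
  have hu1 : S.uR 0 1 0 ≠ 1 := by
    intro h
    rw [← S.uR_zero] at h
    exact one_ne_zero (S.uR_inj h).2.1
  let a1 : ↥S.G1 := 1
  let a2 : ↥S.G1 := ⟨n0, hn0.2⟩
  let a3 : ↥S.G1 := ⟨S.uR 0 1 0 * n0, Subgroup.mul_mem _ (S.uR_mem_G1 _ _ _) hn0.2⟩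
  have h12 : (a1 : ↥S.G1 ⧸ S.B1s) ≠ a2 := by
    rw [S.coset_ne]
    show (1 : GL chevG2.Idx K)⁻¹ * n0 ∉ _
    rwa [inv_one, one_mul]
  have h13 : (a1 : ↥S.G1 ⧸ S.B1s) ≠ a3 := by
    rw [S.coset_ne]
    show (1 : GL chevG2.Idx K)⁻¹ * (S.uR 0 1 0 * n0) ∉ _
    rw [inv_one, one_mul]
    intro h
    apply hn0B
    have := Subgroup.mul_mem _ (Subgroup.inv_mem _ ((relsG2 K).U_le_B huU)) h
    rwa [inv_mul_cancel_left] at this
  have h23 : (a2 : ↥S.G1 ⧸ S.B1s) ≠ a3 := by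
    rw [S.coset_ne]
    show n0⁻¹ * (S.uR 0 1 0 * n0) ∉ _
    intro h
    have h2 : n0⁻¹ * S.uR 0 1 0 * n0⁻¹⁻¹ ∈ chevG2.borelSubgroup K ⊓ chevG2.negUnipotent K := by
      refine ⟨?_, mono_w0_conj_U (mono_w0_inv hm0) _ huU⟩
      have e : n0⁻¹ * S.uR 0 1 0 * n0⁻¹⁻¹ = n0⁻¹ * (S.uR 0 1 0 * n0) := by group
      rwa [e]
    rw [(relsG2 K).B_inf_V, Subgroup.mem_bot] at h2
    apply hu1
    calc S.uR 0 1 0 = n0 * (n0⁻¹ * S.uR 0 1 0 * n0⁻¹⁻¹) * n0⁻¹ := by group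
      _ = 1 := by rw [h2]; group
  refine ⟨a1, a2, a3, h12, h13, h23, le_antisymm (S.stab_le_two hq _ _ _ h12 h13 h23) ?_⟩
  have hy : (-1 : K) ≠ 0 := by simp
  have hH := S.hR_mem_H hy
  have hnH : n0⁻¹ * S.hR (-1) * n0 ∈ chevG2.diagonalSubgroup K := by
    have := (Subgroup.mem_normalizer_iff.mp ((relsG2 K).N_le_normalizer_H good2G2 (Subgroup.inv_mem _ hn0.1)) _).mp hH
    rwa [inv_inv] at this
  let t : ↥S.G1 := ⟨S.hR (-1), S.hR_mem_G1 hq hy⟩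
  have ht : t ∈ MulAction.stabilizer ↥S.G1 (a1 : ↥S.G1 ⧸ S.B1s) ⊓ MulAction.stabilizer ↥S.G1 (a2 : ↥S.G1 ⧸ S.B1s) ⊓
      MulAction.stabilizer ↥S.G1 (a3 : ↥S.G1 ⧸ S.B1s) := by
    refine ⟨⟨?_, ?_⟩, ?_⟩
    · apply (S.mem_stab a1 t).mpr
      show (1 : GL chevG2.Idx K)⁻¹ * S.hR (-1) * 1 ∈ _
      rw [inv_one, one_mul, mul_one]
      exact (relsG2 K).H_le_B hH
    · apply (S.mem_stab a2 t).mpr
      exact (relsG2 K).H_le_B hnH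
    · apply (S.mem_stab a3 t).mpr
      show (S.uR 0 1 0 * n0)⁻¹ * S.hR (-1) * (S.uR 0 1 0 * n0) ∈ _
      have hc := S.hR_conj_uR hq hy 0 1 0
      have e1 : S.φ (-1) ^ 3 / (-1) * 1 = (1 : K) := by
        rw [map_neg, map_one]; norm_num
      rw [e1, mul_zero, mul_zero] at hc
      have e : (S.uR 0 1 0 * n0)⁻¹ * S.hR (-1) * (S.uR 0 1 0 * n0) =
          n0⁻¹ * ((S.uR 0 1 0)⁻¹ * (S.hR (-1) * S.uR 0 1 0 * (S.hR (-1))⁻¹)) * S.hR (-1) * n0 := by group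
      rw [e, hc, inv_mul_cancel, mul_one]
      exact (relsG2 K).H_le_B hnH
  have hne : (MulAction.stabilizer ↥S.G1 (a1 : ↥S.G1 ⧸ S.B1s) ⊓ MulAction.stabilizer ↥S.G1 (a2 : ↥S.G1 ⧸ S.B1s) ⊓
      MulAction.stabilizer ↥S.G1 (a3 : ↥S.G1 ⧸ S.B1s)) ≠ ⊥ := by
    intro h
    rw [h, Subgroup.mem_bot] at ht
    exact S.hR_neg_one_ne (congrArg Subtype.val ht)
  exact (Subgroup.one_lt_card_iff_ne_bot _).mpr hne

end Ree

end Cfsg.Agent.Chev
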